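import Mathlib
import Cfsg.Agent.Base
import Cfsg.Agent.Lib.Stein.SL2

/-!
The Gauss decomposition with prescribed semisimple part (Ellers–Gordeev): in a split group over a
finite field with at least seven elements every non-central element is conjugate to `v h u` with
`v ∈ V`, `u ∈ U` and any prescribed element `h` of the torus.
-/

set_option autoImplicit false

namespace H37.EG

open H63.St

variable {K G I : Type*} [Field K] [Group G]

/-- `g` acts on the rank one datum by the scalar `c`. -/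
def Ch (S : SL2Rel K G) (g : G) (c : Kˣ) : Prop :=
  (∀ t, g * S.x t * g⁻¹ = S.x (c * t)) ∧ ∀ t, g * S.y t * g⁻¹ = S.y ((c⁻¹ : Kˣ) * t)

lemma Ch.mul {S : SL2Rel K G} {g g' : G} {c c' : Kˣ} (h : Ch S g c) (h' : Ch S g' c') :
    Ch S (g * g') (c * c') := by
  refine ⟨fun t => ?_, fun t => ?_⟩
  · rw [Units.val_mul, mul_assoc (c : K), ← h.1, ← h'.1]; group
  · rw [mul_inv, Units.val_mul, mul_assoc ((c⁻¹ : Kˣ) : K), ← h.2, ← h'.2]; group

lemma ch_one (S : SL2Rel K G) : Ch S 1 1 := ⟨fun t => by simp, fun t => by simp⟩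

lemma Ch.inv {S : SL2Rel K G} {g : G} {c : Kˣ} (h : Ch S g c) : Ch S g⁻¹ c⁻¹ := by
  refine ⟨fun t => ?_, fun t => ?_⟩
  · rw [show t = c * ((c⁻¹ : Kˣ) * t) by simp, ← h.1]; simp [mul_assoc]
  · rw [show t = (c⁻¹ : Kˣ) * (c * t) by simp, ← h.2]; simp [mul_assoc]

lemma ch_h (S : SL2Rel K G) (c : Kˣ) : Ch S (S.h c) (c ^ (2 : ℤ)) :=
  ⟨fun t => by rw [S.h_x c.ne_zero]; simp [zpow_ofNat],
    fun t => by rw [S.h_y c.ne_zero]; simp [zpow_ofNat]⟩

lemma Ch.conj_w {S : SL2Rel K G} {g : G} {c : Kˣ} (h : Ch S g c) (t : K) :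
    g * S.w t * g⁻¹ = S.w (c * t) := by
  have : g * S.w t * g⁻¹ = (g * S.x t * g⁻¹) * (g * S.y (-t⁻¹) * g⁻¹) * (g * S.x t * g⁻¹) := by
    rw [SL2Rel.w]; group
  rw [this, h.1, h.2, SL2Rel.w]
  congr 3
  simp [mul_comm]

lemma Ch.commute_h [Finite K] {S : SL2Rel K G} {g : G} {c : Kˣ} (h : Ch S g c) (d : Kˣ) :
    Commute g (S.h d) := by
  have : g * S.h d * g⁻¹ = (g * S.w d * g⁻¹) * (g * S.w 1 * g⁻¹)⁻¹ := by rw [SL2Rel.h]; group
  rw [h.conj_w, h.conj_w, ← S.w_neg, S.w_mul_w (by simp) (by simp),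
    show -((c : K) * d * (-((c : K) * 1))⁻¹) = d by field_simp] at this
  exact mul_inv_eq_iff_eq_mul.1 this

lemma sl2_id [Finite K] (S : SL2Rel K G) {t a l : K} (hl : l ≠ 0) (e : l = 1 + a * t) :
    S.x t * S.y a = S.y (a / l) * S.h l * S.x (t / l) := by
  by_cases ha : a = 0
  · subst ha
    obtain rfl : l = 1 := by simpa using e
    simp [S.y_zero, S.h_one]
  have hs : l / a ≠ 0 := div_ne_zero hl ha
  have e1 : S.y a = S.x a⁻¹ * S.w (-a⁻¹) * S.x a⁻¹ := by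
    rw [SL2Rel.w, S.x_neg, show -(-a⁻¹)⁻¹ = a by simp]; group
  have e2 := S.w_eq hs
  have e3 := S.w_y hs (l / a)⁻¹
  have e4 := S.w_mul_w hs (u := -a⁻¹) (by simpa using ha)
  have e5 := S.h_x hl (-(l / a) / l ^ 2)
  rw [show -((l / a) ^ 2 * (l / a)⁻¹) = -(l / a) by field_simp] at e3
  rw [show -(l / a * (-a⁻¹)⁻¹) = l by field_simp] at e4
  rw [show l ^ 2 * (-(l / a) / l ^ 2) = -(l / a) by field_simp] at e5
  rw [S.y_neg] at e2
  have e6 : S.x (l / a) = S.y (l / a)⁻¹ * S.w (l / a) * S.y (l / a)⁻¹ := by rw [e2]; group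
  rw [e1, ← mul_assoc, ← mul_assoc, S.x_add, show t + a⁻¹ = l / a by rw [e]; field_simp; ring, e6,
    show a / l = (l / a)⁻¹ by simp,
    show t / l = -(l / a) / l ^ 2 + a⁻¹ by field_simp; rw [e]; ring, ← S.x_add]
  calc _ = S.y (l / a)⁻¹ * (S.w (l / a) * S.y (l / a)⁻¹ * (S.w (l / a))⁻¹) *
        (S.w (l / a) * S.w (-a⁻¹)) * S.x a⁻¹ := by group
    _ = _ := by rw [e3, e4, ← e5]; group

/-- Moving the torus part inside a rank one group. -/
lemma r1 [Finite K] {S : SL2Rel K G} {h : G} {c : Kˣ} (hc : Ch S h c) {a b : K}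
    (act : a ≠ 0 ∨ b ≠ 0 ∨ c ≠ 1) (l : Kˣ) :
    ∃ s t a' b', (S.x t * S.y s) * (S.y a * h * S.x b) * (S.x t * S.y s)⁻¹ =
      S.y a' * (h * S.h l) * S.x b' := by
  have key : ∀ a b, a ≠ 0 → ∃ t a' b', S.x t * (S.y a * h * S.x b) * (S.x t)⁻¹ =
      S.y a' * (h * S.h l) * S.x b' := fun a b ha => by
    refine ⟨(l - 1) / a, a / l, (c⁻¹ : Kˣ) * ((l - 1) / a / l) + (b + -((l - 1) / a)), ?_⟩
    have e := sl2_id S (t := (l - 1) / a) (a := a) l.ne_zero (by field_simp; ring)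
    rw [← S.x_add, ← S.x_add, ← hc.inv.1, (hc.commute_h l).eq, S.x_neg]
    calc _ = (S.x ((l - 1) / a) * S.y a) * h * S.x b * (S.x ((l - 1) / a))⁻¹ := by group
      _ = _ := by rw [e]; group
  by_cases ha : a = 0
  swap
  · obtain ⟨t, a', b', e⟩ := key a b ha
    exact ⟨0, t, a', b', by rw [S.y_zero, mul_one, e]⟩
  subst ha
  by_cases hb : b = 0
  · subst hb
    have h1 : c ≠ 1 := by simpa using act
    obtain ⟨t, a', b', e⟩ := key (1 + (c⁻¹ : Kˣ) * -1) 0 (by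
      rw [mul_neg_one, ← sub_eq_add_neg, sub_ne_zero, ne_comm]
      simpa using h1)
    refine ⟨1, t, a', b', ?_⟩
    rw [← e, ← S.y_add, ← hc.2, S.y_neg, S.y_zero, S.x_zero]; group
  · refine ⟨(1 - l) / b, 0, (1 - l) / b + (c⁻¹ : Kˣ) * (-((1 - l) / b) / l), b / l, ?_⟩
    have e := sl2_id S (t := b) (a := -((1 - l) / b)) l.ne_zero (by field_simp; ring)
    rw [← S.y_add, ← hc.2, S.x_zero, S.y_zero]
    calc _ = S.y ((1 - l) / b) * h * (S.x b * (S.y ((1 - l) / b))⁻¹) := by group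
      _ = _ := by rw [← S.y_neg, e]; group

lemma card_sol_le [Fintype K] [DecidableEq K] (a : Kˣ) {k : ℤ} (hk : k ≠ 0) :
    (Finset.univ.filter fun μ : Kˣ => a * μ ^ k = 1).card ≤ k.natAbs := by
  have key : ∀ (n : ℕ) (b : Kˣ), 0 < n → (Finset.univ.filter fun μ : Kˣ => μ ^ n = b).card ≤ n :=
    fun n b hn => by
      refine le_trans ?_ ((Multiset.toFinset_card_le _).trans (Polynomial.card_nthRoots n (b : K)))
      refine Finset.card_le_card_of_injOn Units.val (fun μ hμ => ?_) (Units.val_injective.injOn)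
      simp only [Finset.coe_filter, Finset.mem_univ, true_and, Set.mem_ofPred_eq] at hμ
      simp [Polynomial.mem_nthRoots hn, ← hμ]
  obtain ⟨n, rfl | rfl⟩ := k.eq_nat_or_neg
  · refine le_trans (Finset.card_le_card fun μ hμ => ?_) (key n a⁻¹ (by omega))
    simp only [Finset.mem_filter, Finset.mem_univ, true_and, zpow_natCast] at hμ ⊢
    exact eq_inv_of_mul_eq_one_right hμ
  · rw [Int.natAbs_neg]
    refine le_trans (Finset.card_le_card fun μ hμ => ?_) (key n a (by omega))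
    simp only [Finset.mem_filter, Finset.mem_univ, true_and, zpow_neg, zpow_natCast] at hμ ⊢
    exact (mul_inv_eq_one.1 hμ).symm

lemma exists_avoid [Finite K] (hK : 7 ≤ Nat.card K) (a b : Kˣ) {k : ℤ} (hk : k ≠ 0)
    (hk' : k.natAbs ≤ 3) : ∃ μ : Kˣ, a * μ ^ k ≠ 1 ∧ b * μ ^ (2 : ℤ) ≠ 1 := by
  classical
  have := Fintype.ofFinite K
  by_contra! h
  have h1 := card_sol_le a hk
  have h2 := card_sol_le b (k := 2) two_ne_zero
  have h3 : (Finset.univ : Finset Kˣ) ⊆ (Finset.univ.filter fun μ : Kˣ => a * μ ^ k = 1) ∪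
      Finset.univ.filter fun μ : Kˣ => b * μ ^ (2 : ℤ) = 1 := fun μ _ => by
    by_cases e : a * μ ^ k = 1
    · simp [e]
    · exact Finset.mem_union_right _ (Finset.mem_filter.2 ⟨Finset.mem_univ _, h μ e⟩)
  have h4 := (Finset.card_le_card h3).trans (Finset.card_union_le _ _)
  rw [Finset.card_univ, Fintype.card_units, ← Nat.card_eq_fintype_card] at h4
  simp only [Int.reduceAbs, Int.natAbs] at h2
  omega

/-- Adjacent nodes. -/
def Adj (S : I → SL2Rel K G) (i j : I) : Prop :=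
  ∃ k : ℤ, k ≠ 0 ∧ k.natAbs ≤ 3 ∧ ∀ c : Kˣ, Ch (S j) ((S i).h c) (c ^ k)

/-- The torus generated by the coroots of a set of nodes. -/
def HT [Finite K] (S : I → SL2Rel K G) (T : Set I) : Subgroup G := ⨆ i ∈ T, (S i).hHom.range

/-- The data for the Gauss decomposition. -/
structure GD (K G I : Type*) [Field K] [Finite K] [Group G] where
  /-- the rank one data -/
  S : I → SL2Rel K G
  /-- the positive unipotent group -/
  U : Subgroup G
  /-- the negative unipotent group -/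
  V : Subgroup G
  /-- the positive radicals -/
  U' : I → Subgroup G
  /-- the negative radicals -/
  V' : I → Subgroup G
  /-- monomial elements with their lengths -/
  Nn : ℕ → G → Prop
  x_mem : ∀ i t, (S i).x t ∈ U
  y_mem : ∀ i t, (S i).y t ∈ V
  U'_le : ∀ i, U' i ≤ U
  V'_le : ∀ i, V' i ≤ V
  U_dec : ∀ i, ∀ u ∈ U, ∃ t, ∃ u' ∈ U' i, u = (S i).x t * u'
  V_dec : ∀ i, ∀ v ∈ V, ∃ t, ∃ v' ∈ V' i, v = v' * (S i).y t
  xU : ∀ i t, ∀ u ∈ U' i, (S i).x t * u * ((S i).x t)⁻¹ ∈ U' i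
  yU : ∀ i t, ∀ u ∈ U' i, (S i).y t * u * ((S i).y t)⁻¹ ∈ U' i
  xV : ∀ i t, ∀ u ∈ V' i, (S i).x t * u * ((S i).x t)⁻¹ ∈ V' i
  yV : ∀ i t, ∀ u ∈ V' i, (S i).y t * u * ((S i).y t)⁻¹ ∈ V' i
  ch : ∀ i j (c : Kˣ), ∃ d, Ch (S j) ((S i).h c) d
  conn : ∀ T : Set I, T.Nonempty → Tᶜ.Nonempty → ∃ i ∈ T, ∃ j ∉ T, Adj S i j ∧ Adj S j i
  gen : ∀ A : Subgroup G, (∀ i t, (S i).x t ∈ A) → (∀ i t, (S i).y t ∈ A) → A = ⊤
  swap : ∃ n : G, (∀ u ∈ U, n * u * n⁻¹ ∈ V) ∧ ∀ v ∈ V, n * v * n⁻¹ ∈ U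
  disj : ∀ g ∈ U, g ∈ V → g = 1
  bru : ∀ g, ∃ v ∈ V, ∃ k n, Nn k n ∧ ∃ u ∈ U, g = v * n * u
  step : ∀ k n, Nn k n → n ∈ HT S Set.univ ∨
    ∃ i, (∀ t, n * (S i).x t * n⁻¹ ∈ V) ∧ ∃ k' < k, Nn k' (n * (S i).w 1)

namespace GD

variable [Finite K] (D : GD K G I)

/-- The torus. -/
def H : Subgroup G := HT D.S Set.univ

lemma h_mem {T : Set I} {i : I} (hi : i ∈ T) (c : Kˣ) : (D.S i).h c ∈ HT D.S T :=
  (le_iSup₂_of_le (f := fun i (_ : i ∈ T) => (D.S i).hHom.range) i hi le_rfl :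
    (D.S i).hHom.range ≤ HT D.S T) ⟨c, rfl⟩

lemma HT_le {T : Set I} {A : Subgroup G} (h : ∀ i ∈ T, ∀ c : Kˣ, (D.S i).h c ∈ A) :
    HT D.S T ≤ A := iSup₂_le fun i hi _ ⟨c, e⟩ => e ▸ h i hi c

lemma HT_le_H (T : Set I) : HT D.S T ≤ D.H := D.HT_le fun _ _ => D.h_mem (Set.mem_univ _)

lemma exists_ch {h : G} (hh : h ∈ D.H) (j : I) : ∃ d, Ch (D.S j) h d := by
  let A : Subgroup G :=
    { carrier := {g | ∃ d, Ch (D.S j) g d}
      mul_mem' := fun ⟨_, h1⟩ ⟨_, h2⟩ => ⟨_, h1.mul h2⟩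
      one_mem' := ⟨1, ch_one _⟩
      inv_mem' := fun ⟨_, h1⟩ => ⟨_, h1.inv⟩ }
  exact (D.HT_le (A := A) fun i _ c => D.ch i j c) hh

lemma commute_h {h : G} (hh : h ∈ D.H) (j : I) (c : Kˣ) : Commute h ((D.S j).h c) :=
  let ⟨_, h1⟩ := D.exists_ch hh j; h1.commute_h c

lemma mem_insert {T : Set I} {i : I} {h : G} (hh : h ∈ HT D.S (insert i T)) :
    ∃ c : Kˣ, ∃ h' ∈ HT D.S T, h = h' * (D.S i).h c := by
  let A : Subgroup G :=
    { carrier := {g | ∃ c : Kˣ, ∃ h' ∈ HT D.S T, g = h' * (D.S i).hHom c}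
      mul_mem' := by
        rintro _ _ ⟨c, a, ha, rfl⟩ ⟨d, b, hb, rfl⟩
        refine ⟨c * d, a * b, mul_mem ha hb, ?_⟩
        have : (D.S i).hHom c * b = b * (D.S i).hHom c :=
          (D.commute_h (D.HT_le_H T hb) i c).symm.eq
        rw [map_mul, mul_assoc, ← mul_assoc _ b, this]; group
      one_mem' := ⟨1, 1, one_mem _, by simp⟩
      inv_mem' := by
        rintro _ ⟨c, a, ha, rfl⟩
        refine ⟨c⁻¹, a⁻¹, inv_mem ha, ?_⟩
        have : a * (D.S i).hHom c = (D.S i).hHom c * a := (D.commute_h (D.HT_le_H T ha) i c).eq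
        rw [this, map_inv, mul_inv_rev] }
  refine (D.HT_le (A := A) ?_) hh
  rintro j (rfl | hj) c
  · exact ⟨c, 1, one_mem _, (one_mul _).symm⟩
  · exact ⟨1, _, D.h_mem hj c, by simp⟩

/-- `g` is conjugate to an element with torus part `h`. -/
def St (g h : G) : Prop := ∃ a, ∃ v ∈ D.V, ∃ u ∈ D.U, a * g * a⁻¹ = v * h * u

/-- The same, with activity at the node `i`. -/
def Act (g h : G) (i : I) : Prop := ∃ a, ∃ v ∈ D.V' i, ∃ u ∈ D.U' i, ∃ s t c, Ch (D.S i) h c ∧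
  (s ≠ 0 ∨ t ≠ 0 ∨ c ≠ 1) ∧ a * g * a⁻¹ = v * ((D.S i).y s * h * (D.S i).x t) * u

variable {D}

lemma St.act {g h : G} (hs : D.St g h) {i : I} {c : Kˣ} (hc : Ch (D.S i) h c) (h1 : c ≠ 1) :
    D.Act g h i := by
  obtain ⟨a, v, hv, u, hu, e⟩ := hs
  obtain ⟨s, v', hv', rfl⟩ := D.V_dec i v hv
  obtain ⟨t, u', hu', rfl⟩ := D.U_dec i u hu
  exact ⟨a, v', hv', u', hu', s, t, c, hc, Or.inr (Or.inr h1), by rw [e]; group⟩

lemma Act.st {g h : G} {i : I} (ha : D.Act g h i) (l : Kˣ) : D.St g (h * (D.S i).h l) := by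
  obtain ⟨a, v, hv, u, hu, s, t, c, hc, h1, e⟩ := ha
  obtain ⟨s', t', a', b', e'⟩ := r1 hc h1 l
  refine ⟨(D.S i).x t' * (D.S i).y s' * a, _,
    mul_mem (D.V'_le i (D.xV i t' _ (D.yV i s' v hv))) (D.y_mem i a'), _,
    mul_mem (D.x_mem i b') (D.U'_le i (D.xU i t' _ (D.yU i s' u hu))), ?_⟩
  calc _ = (D.S i).x t' * (D.S i).y s' * (a * g * a⁻¹) * ((D.S i).x t' * (D.S i).y s')⁻¹ := by group
    _ = ((D.S i).x t' * (D.S i).y s') * v * ((D.S i).x t' * (D.S i).y s')⁻¹ *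
        (((D.S i).x t' * (D.S i).y s') * ((D.S i).y s * h * (D.S i).x t) *
          ((D.S i).x t' * (D.S i).y s')⁻¹) *
        (((D.S i).x t' * (D.S i).y s') * u * ((D.S i).x t' * (D.S i).y s')⁻¹) := by rw [e]; group
    _ = _ := by rw [e']; group

variable (D)

lemma exists_st (g : G) : ∃ h ∈ D.H, D.St g h := by
  suffices ∀ k, ∀ g n, D.Nn k n → ∀ v ∈ D.V, ∀ u ∈ D.U, g = v * n * u → ∃ h ∈ D.H, D.St g h by
    obtain ⟨v, hv, k, n, hn, u, hu, e⟩ := D.bru g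
    exact this k g n hn v hv u hu e
  intro k
  induction k using Nat.strong_induction_on with
  | _ k ih =>
  rintro g n hn v hv u0 hu0 rfl
  rcases D.step k n hn with h | ⟨i, h1, k', hk, h2⟩
  · exact ⟨n, h, 1, v, hv, u0, hu0, by simp⟩
  obtain ⟨t, u, hu, rfl⟩ := D.U_dec i u0 hu0
  obtain ⟨h, hh, a, v', hv', u', hu', e⟩ := ih k' hk _ _ h2 _
    (mul_mem (mul_mem (mul_mem (D.y_mem i 1) hv) (h1 t)) (h1 (-1))) _
    (mul_mem (D.x_mem i (-1)) (D.U'_le i (D.yU i 1 u hu))) rfl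
  refine ⟨h, hh, a * (D.S i).y 1, v', hv', u', hu', ?_⟩
  rw [← e, SL2Rel.w, inv_one, (D.S i).x_neg, (D.S i).y_neg]; group

lemma exists_act {g : G} (hg : g ∉ Subgroup.center G) : ∃ h ∈ D.H, ∃ i, D.Act g h i := by
  by_contra! hn
  obtain ⟨h, hh, a, v, hv, u, hu, e⟩ := D.exists_st g
  have key : ∀ b : G, b * v * b⁻¹ ∈ D.V ∧ b * u * b⁻¹ ∈ D.U ∧ b * h * b⁻¹ = h := by
    have k1 : ∀ b : G, b * v * b⁻¹ ∈ D.V ∧ b * u * b⁻¹ ∈ D.U ∧ b * h * b⁻¹ = h → ∀ i,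
        b * v * b⁻¹ ∈ D.V' i ∧ b * u * b⁻¹ ∈ D.U' i ∧ Ch (D.S i) h 1 := fun b ⟨h1, h2, h3⟩ i => by
      obtain ⟨s, v', hv', e1⟩ := D.V_dec i _ h1
      obtain ⟨t, u', hu', e2⟩ := D.U_dec i _ h2
      obtain ⟨c, hc⟩ := D.exists_ch hh i
      have : ¬ (s ≠ 0 ∨ t ≠ 0 ∨ c ≠ 1) := fun h4 => hn h hh i ⟨b * a, v', hv', u', hu', s, t, c, hc,
        h4, by
          calc _ = b * (a * g * a⁻¹) * b⁻¹ := by group
            _ = (b * v * b⁻¹) * (b * h * b⁻¹) * (b * u * b⁻¹) := by rw [e]; group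
            _ = _ := by rw [e1, e2, h3]; group⟩
      push Not at this
      obtain ⟨rfl, rfl, rfl⟩ := this
      rw [(D.S i).y_zero, mul_one] at e1
      rw [(D.S i).x_zero, one_mul] at e2
      exact ⟨e1 ▸ hv', e2 ▸ hu', hc⟩
    let P : G → Prop := fun b => b * v * b⁻¹ ∈ D.V ∧ b * u * b⁻¹ ∈ D.U ∧ b * h * b⁻¹ = h
    let A : Subgroup G :=
      { carrier := {m | (∀ b, P b → P (m * b)) ∧ ∀ b, P b → P (m⁻¹ * b)}
        mul_mem' := fun {x y} hx hy => ⟨fun b hb => mul_assoc x y b ▸ hx.1 _ (hy.1 b hb),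
          fun b hb => by rw [mul_inv_rev, mul_assoc]; exact hy.2 _ (hx.2 b hb)⟩
        one_mem' := ⟨fun b hb => by simpa using hb, fun b hb => by simpa using hb⟩
        inv_mem' := fun {x} hx => ⟨hx.2, by simpa using hx.1⟩ }
    have e1 : ∀ m b x : G, m * b * x * (m * b)⁻¹ = m * (b * x * b⁻¹) * m⁻¹ := fun _ _ _ => by group
    have kx : ∀ i t b, P b → P ((D.S i).x t * b) := fun i t b hb => by
      obtain ⟨h1, h2, h3⟩ := k1 b hb i
      refine ⟨e1 _ _ _ ▸ D.V'_le i (D.xV i t _ h1), e1 _ _ _ ▸ D.U'_le i (D.xU i t _ h2), ?_⟩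
      have := h3.1 t
      rw [Units.val_one, one_mul, mul_inv_eq_iff_eq_mul] at this
      rw [e1, hb.2.2, ← this]; group
    have ky : ∀ i t b, P b → P ((D.S i).y t * b) := fun i t b hb => by
      obtain ⟨h1, h2, h3⟩ := k1 b hb i
      refine ⟨e1 _ _ _ ▸ D.V'_le i (D.yV i t _ h1), e1 _ _ _ ▸ D.U'_le i (D.yU i t _ h2), ?_⟩
      have := h3.2 t
      rw [inv_one, Units.val_one, one_mul, mul_inv_eq_iff_eq_mul] at this
      rw [e1, hb.2.2, ← this]; group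
    have hA : A = ⊤ := D.gen A (fun i t => ⟨kx i t, (D.S i).x_neg t ▸ kx i (-t)⟩)
      fun i t => ⟨ky i t, (D.S i).y_neg t ▸ ky i (-t)⟩
    intro b
    have : b ∈ A := hA ▸ Subgroup.mem_top b
    simpa [P] using this.1 1 ⟨by simpa using hv, by simpa using hu, by simp⟩
  obtain ⟨n, h1, h2⟩ := D.swap
  obtain rfl : u = 1 := by simpa using D.disj _ (key n).2.1 (h1 u hu)
  obtain rfl : v = 1 := by simpa using D.disj _ (h2 v hv) (key n).1
  refine hg (Subgroup.mem_center_iff.2 fun b => ?_)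
  have h3 := (key a⁻¹).2.2
  have h4 := (key b).2.2
  rw [one_mul, mul_one] at e
  rw [← e] at h3
  obtain rfl : g = h := by rw [← e, ← h3]; group
  exact mul_inv_eq_iff_eq_mul.1 h4

/-- Sets of nodes built by adding adjacent nodes. -/
inductive Good : Set I → Prop
  | single (i : I) : Good {i}
  | insert {T : Set I} {i j : I} : Good T → j ∈ T → Adj D.S i j → Adj D.S j i → Good (insert i T)

lemma good_univ [Finite I] [Nonempty I] : D.Good Set.univ := by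
  obtain ⟨T, hT, hm⟩ := Set.exists_max_image {T | D.Good T} Set.ncard (Set.toFinite _)
    ⟨_, Good.single (Classical.arbitrary I)⟩
  by_contra hn
  have h1 : T.Nonempty := by
    cases hT
    exacts [Set.singleton_nonempty _, Set.insert_nonempty _ _]
  obtain ⟨i, hi, j, hj, a1, a2⟩ := D.conn T h1 (Set.nonempty_compl.2 fun e => hn (e ▸ hT))
  have := hm _ (Good.insert hT hi a2 a1)
  rw [Set.ncard_insert_of_notMem hj] at this
  omega

variable {D} (hK : 7 ≤ Nat.card K) {g h₀ : G} (h0 : h₀ ∈ D.H)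
include hK h0

lemma move {T : Set I} {i j : I} (hi : i ∈ T) (hij : Adj D.S i j)
    (ha : ∃ h ∈ HT D.S T, D.Act g (h₀ * h) i) : ∃ h ∈ HT D.S T, D.Act g (h₀ * h) j := by
  obtain ⟨h, hh, ha⟩ := ha
  obtain ⟨k, k1, k2, k3⟩ := hij
  obtain ⟨c, hc⟩ := D.exists_ch (mul_mem h0 (D.HT_le_H T hh)) j
  obtain ⟨μ, h1, -⟩ := exists_avoid hK c 1 k1 k2
  exact ⟨_, mul_mem hh (D.h_mem hi μ), mul_assoc h₀ h _ ▸ (ha.st μ).act (hc.mul (k3 μ)) h1⟩

lemma move_good {T T' : Set I} (hT : D.Good T') (hs : T' ⊆ T) {i j : I} (hi : i ∈ T') (hj : j ∈ T')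
    (ha : ∃ h ∈ HT D.S T, D.Act g (h₀ * h) i) : ∃ h ∈ HT D.S T, D.Act g (h₀ * h) j := by
  induction hT generalizing i j with
  | single k => obtain rfl : i = j := hi.trans hj.symm; exact ha
  | @insert T' a b _ hb a1 a2 ih =>
    have hs' : T' ⊆ T := (Set.subset_insert _ _).trans hs
    rcases hi with rfl | hi <;> rcases hj with rfl | hj
    · exact ha
    · exact ih hs' hb hj (move hK h0 (hs (Set.mem_insert _ _)) a1 ha)
    · exact move hK h0 (hs' hb) a2 (ih hs' hi hb ha)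
    · exact ih hs' hi hj ha

lemma kill {T : Set I} {i j : I} (hj : j ∈ T) (hji : Adj D.S j i)
    (ha : ∃ h ∈ HT D.S (insert i T), D.Act g (h₀ * h) j) : ∃ h ∈ HT D.S T, D.Act g (h₀ * h) j := by
  obtain ⟨h, hh, ha⟩ := ha
  obtain ⟨k, k1, k2, k3⟩ := hji
  obtain ⟨c, hc⟩ := D.exists_ch (mul_mem h0 (D.HT_le_H _ hh)) i
  obtain ⟨l, h', hh', rfl⟩ := D.mem_insert hh
  obtain ⟨d, hd⟩ := D.exists_ch (mul_mem h0 (D.HT_le_H _ hh')) j
  obtain ⟨μ, h1, h2⟩ := exists_avoid hK c d k1 k2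
  have h3 := ((ha.st μ).act (hc.mul (k3 μ)) h1).st l⁻¹
  have h4 : (D.S i).h l * (D.S j).h μ = (D.S j).h μ * (D.S i).h l :=
    (D.commute_h (D.h_mem (Set.mem_univ i) l) j μ).eq
  have h5 : (D.S i).h l * (D.S i).h (l⁻¹ : Kˣ) = 1 := by
    rw [(D.S i).h_mul l.ne_zero l⁻¹.ne_zero, Units.mul_inv, (D.S i).h_one]
  have h6 : h₀ * (h' * (D.S i).h l) * (D.S j).h μ * (D.S i).h (l⁻¹ : Kˣ) = h₀ * h' * (D.S j).h μ := by
    calc _ = h₀ * h' * ((D.S i).h l * (D.S j).h μ) * (D.S i).h (l⁻¹ : Kˣ) := by group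
      _ = h₀ * h' * (D.S j).h μ * ((D.S i).h l * (D.S i).h (l⁻¹ : Kˣ)) := by rw [h4]; group
      _ = _ := by rw [h5, mul_one]
  rw [h6] at h3
  exact ⟨_, mul_mem hh' (D.h_mem hj μ), mul_assoc h₀ h' _ ▸ h3.act (hd.mul (ch_h _ μ)) h2⟩

lemma st_of_good {T : Set I} (hT : D.Good T) {i : I} (hi : i ∈ T)
    (ha : ∃ h ∈ HT D.S T, D.Act g (h₀ * h) i) : D.St g h₀ := by
  induction hT generalizing i with
  | single k =>
    obtain rfl : i = k := hi
    obtain ⟨h, hh, ha⟩ := ha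
    rw [← insert_empty_eq] at hh
    obtain ⟨l, h', hh', rfl⟩ := D.mem_insert hh
    obtain rfl : h' = 1 := by simpa [HT] using hh'
    have := ha.st l⁻¹
    rwa [one_mul, mul_assoc, (D.S i).h_mul l.ne_zero l⁻¹.ne_zero, Units.mul_inv, (D.S i).h_one,
      mul_one] at this
  | @insert T a b hT hb a1 a2 ih =>
    exact ih hb (kill hK h0 hb a2 (move_good hK h0 (Good.insert hT hb a1 a2) subset_rfl hi
      (Set.mem_insert_of_mem _ hb) ha))

/-- The Gauss decomposition with prescribed torus part. -/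
theorem gauss [Finite I] (hg : g ∉ Subgroup.center G) :
    ∃ a, ∃ v ∈ D.V, ∃ u ∈ D.U, a * g * a⁻¹ = v * h₀ * u := by
  obtain ⟨h, hh, i, ha⟩ := D.exists_act hg
  have : Nonempty I := ⟨i⟩
  exact st_of_good hK h0 D.good_univ (Set.mem_univ i)
    ⟨h₀⁻¹ * h, mul_mem (inv_mem h0) hh, by simpa using ha⟩

end GD

end H37.EG
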