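import Mathlib
import Cfsg.Agent.Base
import Cfsg.Agent.Lib.EG.Gauss
import Cfsg.Agent.Lib.Chev.Torus
import Cfsg.Agent.Lib.Stein.Pre

/-!
The Gauss decomposition with prescribed torus part for groups with root elements (`H38.Elts`),
and the radicals attached to a dominant level function.
-/

set_option autoImplicit false

namespace H37.EG

open H38 H63.St

variable {ι l : Type} [Fintype l] [DecidableEq l] {R : RS ι l} {K G : Type*} [Field K] [Group G]

section lev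

variable (f : (l → ℤ) →ₗ[ℤ] ℤ)

lemma lev_cone {r s k : ι} (h : k ∈ R.Cone r s) :
    ∃ a b : ℤ, 1 ≤ a ∧ 1 ≤ b ∧ f (R.rt k) = a * f (R.rt r) + b * f (R.rt s) := by
  obtain ⟨a, b, ha, hb, e⟩ := h
  exact ⟨a, b, ha, hb, by rw [e, map_add, map_smul, map_smul, smul_eq_mul, smul_eq_mul]⟩

lemma lev_neg (r : ι) : f (R.rt (R.neg r)) = -f (R.rt r) := by rw [R.rt_neg, map_neg]

variable (E : Elts R K G)

lemma conj_pos {g a : G} (hg : g ∈ E.XS {r | f (R.rt r) = 0}) (ha : a ∈ E.XS {r | 0 < f (R.rt r)}) :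
    g * a * g⁻¹ ∈ E.XS {r | 0 < f (R.rt r)} := by
  refine E.XS_conj_mem (fun r hr s hs => ?_) hg ha
  simp only [Set.mem_ofPred_eq] at hr hs
  refine ⟨fun e => by rw [e, lev_neg] at hs; omega, fun k hk => ?_⟩
  obtain ⟨a, b, ha, hb, e⟩ := lev_cone f hk
  rw [Set.mem_ofPred_eq, e, hr]; nlinarith

lemma conj_neg {g a : G} (hg : g ∈ E.XS {r | f (R.rt r) = 0}) (ha : a ∈ E.XS {r | f (R.rt r) < 0}) :
    g * a * g⁻¹ ∈ E.XS {r | f (R.rt r) < 0} := by
  refine E.XS_conj_mem (fun r hr s hs => ?_) hg ha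
  simp only [Set.mem_ofPred_eq] at hr hs
  refine ⟨fun e => by rw [e, lev_neg] at hs; omega, fun k hk => ?_⟩
  obtain ⟨a, b, ha, hb, e⟩ := lev_cone f hk
  rw [Set.mem_ofPred_eq, e, hr]; nlinarith

variable {f} (hf : ∀ r, R.Pos r → 0 ≤ f (R.rt r))
include hf

lemma pos_of_lev {r : ι} (h : 0 < f (R.rt r)) : R.Pos r := by
  by_contra hn
  have := hf _ ((R.pos_neg_iff r).2 hn)
  rw [lev_neg] at this; omega

lemma not_pos_of_lev {r : ι} (h : f (R.rt r) < 0) : ¬ R.Pos r := fun hn => by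
  have := hf _ hn; omega

lemma U_dec {u : G} (hu : u ∈ E.U) : ∃ a ∈ E.XS {r | R.Pos r ∧ f (R.rt r) = 0},
    ∃ b ∈ E.XS {r | 0 < f (R.rt r)}, u = a * b := by
  refine exists_mul_of_mem_sup (fun g hg a ha => conj_pos f E (E.XS_mono (fun _ h => h.2) hg) ha) ?_
  rw [← E.XS_union]
  refine E.XS_mono (fun r hr => ?_) hu
  rcases (hf r hr).eq_or_lt with h | h
  exacts [Or.inl ⟨hr, h.symm⟩, Or.inr h]

lemma V_dec {u : G} (hu : u ∈ E.V) : ∃ b ∈ E.XS {r | f (R.rt r) < 0},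
    ∃ a ∈ E.XS {r | ¬ R.Pos r ∧ f (R.rt r) = 0}, u = b * a := by
  refine exists_mul_of_mem_sup' (fun g hg a ha => conj_neg f E (E.XS_mono (fun _ h => h.2) hg) ha) ?_
  rw [← E.XS_union]
  refine E.XS_mono (fun r hr => ?_) hu
  have := hf _ ((R.pos_neg_iff r).2 hr)
  rw [lev_neg] at this
  rcases this.eq_or_lt with h | h
  exacts [Or.inl ⟨hr, by omega⟩, Or.inr (by rw [Set.mem_ofPred_eq]; omega)]

end lev

/-- The level outside a node. -/
def levI (i : l) : (l → ℤ) →ₗ[ℤ] ℤ := RS.htL - LinearMap.proj i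

lemma levI_apply (i : l) (v : l → ℤ) : levI i v = ∑ j ∈ Finset.univ.erase i, v j := by
  rw [Finset.sum_erase_eq_sub (Finset.mem_univ i)]; rfl

lemma levI_nonneg (i : l) (r : ι) (h : R.Pos r) : 0 ≤ levI i (R.rt r) := by
  rw [levI_apply]; exact Finset.sum_nonneg fun j _ => h j

lemma levI_sim (i : l) : levI i (R.rt (R.sim i)) = 0 := by
  rw [levI_apply, R.rt_sim]
  exact Finset.sum_eq_zero fun j hj => Pi.single_eq_of_ne (Finset.ne_of_mem_erase hj) _

lemma eq_sim_of_levI {i : l} {r : ι} (h : R.Pos r) (h0 : levI i (R.rt r) = 0) : r = R.sim i := by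
  rw [levI_apply, Finset.sum_eq_zero_iff_of_nonneg fun j _ => h j] at h0
  rcases R.eq_sim_of_supp (i := i) fun j hj => h0 j (by simpa using hj) with e | e
  · exact e
  · exact absurd (e ▸ h) ((R.not_pos_neg_iff _).2 (R.pos_sim i))

/-- The rank one datum of a root. -/
def sl2 (E : Elts R K G) (r : ι) : SL2Rel K G where
  x := E.x r
  y := E.x (R.neg r)
  x_add := E.x_add r
  y_add := E.x_add _
  rel t ht u := (E.nconj_self r ht u).trans (by congr 1; simp)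

lemma sl2_h (E : Elts R K G) (r : ι) (c : K) : (sl2 E r).h c = E.h r c := by
  rw [PreElts.h, E.n_neg]; rfl

lemma ch_sl2 (E : Elts R K G) (r s : ι) (c : Kˣ) :
    Ch (sl2 E s) ((sl2 E r).h c) (c ^ R.pair r s) := by
  rw [sl2_h]
  refine ⟨fun t => (E.hconj r s c.ne_zero t).trans (by simp [sl2]), fun t =>
    (E.hconj r _ c.ne_zero t).trans (by simp [sl2, R.pair_neg_right])⟩

lemma natAbs_pair_le {r s : ι} (h1 : s ≠ r) (h2 : s ≠ R.neg r) : (R.pair r s).natAbs ≤ 3 := by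
  have a := R.pair_mul_pair_lt h1 h2
  have b := R.pair_eq_zero_comm (r := r) (s := s)
  have c := R.pair_pos_comm (r := r) (s := s)
  rcases lt_trichotomy (R.pair r s) 0 with h | h | h
  · have : R.pair s r < 0 := by omega
    have : -3 ≤ R.pair r s := by nlinarith
    omega
  · omega
  · have : 0 < R.pair s r := c.1 h
    have : R.pair r s ≤ 3 := by nlinarith
    omega

lemma adj_sim (E : Elts R K G) {i j : l} (hij : i ≠ j) (h : R.A i j ≠ 0) :
    Adj (fun i => sl2 E (R.sim i)) i j :=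
  ⟨_, by rwa [R.pair_sim_left, R.wt_sim], natAbs_pair_le (fun e => hij (R.sim_inj e).symm)
    (fun e => (R.not_pos_neg_iff _).2 (R.pos_sim i) (e ▸ R.pos_sim j)), ch_sl2 E _ _⟩

lemma eq_top_of_sim (E : Elts R K G) (htop : E.Gp = ⊤) {A : Subgroup G}
    (h1 : ∀ i t, E.x (R.sim i) t ∈ A) (h2 : ∀ i t, E.x (R.neg (R.sim i)) t ∈ A) : A = ⊤ := by
  rw [eq_top_iff, ← htop, PreElts.Gp, E.XS_le]
  rintro r -
  induction r using R.root_induction with
  | h0 i => exact h1 i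
  | h1 i r ih =>
    intro t
    obtain ⟨c, hc, e⟩ := (E.rep_n_sim i one_ne_zero).conj_x r
    have hn : E.n (R.sim i) 1 ∈ A := mul_mem (mul_mem (h1 i _) (h2 i _)) (h1 i _)
    rw [← R.s_apply, show t = c * (c⁻¹ * t) by field_simp, ← e]
    exact mul_mem (mul_mem hn (ih _)) (inv_mem hn)

variable [Finite K] [Finite ι]

lemma HT_univ (E : Elts R K G) : HT (fun i => sl2 E (R.sim i)) Set.univ = E.H := by
  refine le_antisymm (iSup₂_le ?_) ?_
  · rintro i - _ ⟨c, rfl⟩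
    change (sl2 E (R.sim i)).h c ∈ _
    rw [sl2_h]
    exact E.h_mem_H _ c.ne_zero
  · rw [E.H_eq_closure_sim, Subgroup.closure_le]
    rintro _ ⟨i, t, ht, rfl⟩
    exact (le_iSup₂_of_le (f := fun i (_ : i ∈ Set.univ) => (sl2 E (R.sim i)).hHom.range) i
      (Set.mem_univ i) le_rfl : (sl2 E (R.sim i)).hHom.range ≤ _) ⟨Units.mk0 t ht, sl2_h E _ t⟩

/-- The Gauss datum of a group with root elements. -/
def gdElts {E : Elts R K G} (hF : E.Faith) (htop : E.Gp = ⊤) (hc : R.Connected) : GD K G l where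
  S i := sl2 E (R.sim i)
  U := E.U
  V := E.V
  U' i := E.XS {r | 0 < levI i (R.rt r)}
  V' i := E.XS {r | levI i (R.rt r) < 0}
  Nn k n := ∃ w, E.Rep n w ∧ R.ln w = k
  x_mem i := E.x_mem_U (R.pos_sim i)
  y_mem i := E.x_mem_V ((R.not_pos_neg_iff _).2 (R.pos_sim i))
  U'_le i := E.XS_mono fun _ => pos_of_lev (levI_nonneg i)
  V'_le i := E.XS_mono fun _ => not_pos_of_lev (levI_nonneg i)
  U_dec i u hu := by
    obtain ⟨a, ha, b, hb, rfl⟩ := U_dec E (levI_nonneg i) hu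
    obtain ⟨t, rfl⟩ : a ∈ E.X (R.sim i) :=
      E.XS_singleton _ ▸ E.XS_mono (fun _ h => eq_sim_of_levI h.1 h.2) ha
    exact ⟨t, b, hb, rfl⟩
  V_dec i u hu := by
    obtain ⟨b, hb, a, ha, rfl⟩ := V_dec E (levI_nonneg i) hu
    obtain ⟨t, rfl⟩ : a ∈ E.X (R.neg (R.sim i)) :=
      E.XS_singleton _ ▸ E.XS_mono (fun r h => R.neg_eq_iff.1
        (eq_sim_of_levI ((R.pos_neg_iff r).2 h.1) (by rw [lev_neg, h.2, neg_zero]))) ha
    exact ⟨t, b, hb, rfl⟩
  xU i t _ := conj_pos _ E (E.x_mem_XS (levI_sim i) t)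
  yU i t _ := conj_pos _ E (E.x_mem_XS (by change _ = _; rw [lev_neg, levI_sim, neg_zero]) t)
  xV i t _ := conj_neg _ E (E.x_mem_XS (levI_sim i) t)
  yV i t _ := conj_neg _ E (E.x_mem_XS (by change _ = _; rw [lev_neg, levI_sim, neg_zero]) t)
  ch i j c := ⟨_, ch_sl2 E _ _ c⟩
  conn T h1 h2 := by
    obtain ⟨i, hi, j, hj, h⟩ := hc T h1 h2
    have hij : i ≠ j := fun e => hj (e ▸ hi)
    exact ⟨i, hi, j, hj, adj_sim E hij h, adj_sim E hij.symm (R.A_eq_zero_comm.not.1 h)⟩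
  gen _ := eq_top_of_sim E htop
  swap := by
    obtain ⟨n, hn⟩ := E.exists_rep_of_mem_W R.w0_mem
    exact ⟨n, fun _ => hn.conj_mem_XS (S := {r | R.Pos r}) (T := {r | ¬ R.Pos r})
      fun s hs h => (R.pos_w0_iff s).1 h hs, fun _ => hn.conj_mem_XS (S := {r | ¬ R.Pos r})
        (T := {r | R.Pos r}) fun s hs => (R.pos_w0_iff s).2 hs⟩
  disj g h := hF.B_inf_V g (E.U_le_B h)
  bru g := by
    obtain ⟨n0, hn⟩ := E.exists_rep_of_mem_W R.w0_mem
    obtain ⟨b, hb, n, w, h1, u, hu, e⟩ := E.bruhat (g := n0⁻¹ * g) (htop ▸ Subgroup.mem_top _)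
    obtain ⟨u', hu', h, hh, rfl⟩ := E.mem_XS_sup_H.1 hb
    refine ⟨n0 * u' * n0⁻¹, hn.conj_mem_XS (S := {r | R.Pos r}) (T := {r | ¬ R.Pos r})
      (fun s hs h => (R.pos_w0_iff s).1 h hs) hu', _, _,
      ⟨_, (hn.mul (E.rep_of_mem_H hh)).mul h1, rfl⟩, u, E.XS_mono (fun _ h => h.1) hu, ?_⟩
    rw [inv_mul_eq_iff_eq_mul] at e
    rw [e]; group
  step := by
    rintro _ n ⟨w, hn, rfl⟩
    by_cases h : w = 1
    · subst h
      exact Or.inl (HT_univ E ▸ hn.mem_H)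
    obtain ⟨i, -, hi⟩ := R.exists_not_pos (J := Set.univ) hn.mem_W h
    refine Or.inr ⟨i, fun t => ?_, _, ?_, _, hn.mul (E.rep_n_sim i one_ne_zero), rfl⟩
    · obtain ⟨c, -, e⟩ := hn.conj_x (R.sim i)
      exact (e t) ▸ E.x_mem_V hi _
    · have := R.ln_mul_s_of_not_pos hn.mem_W hi
      omega

/-- Ellers–Gordeev for groups with root elements. -/
theorem gauss_elts {E : Elts R K G} (hF : E.Faith) (htop : E.Gp = ⊤) (hc : R.Connected)
    (hK : 7 ≤ Nat.card K) {g h : G} (hg : g ∉ Subgroup.center G) (hh : h ∈ E.H) :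
    ∃ a, ∃ v ∈ E.V, ∃ u ∈ E.U, a * g * a⁻¹ = v * h * u :=
  GD.gauss (D := gdElts hF htop hc) hK (HT_univ E ▸ hh : h ∈ HT _ Set.univ) hg

end H37.EG
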