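import Mathlib
import Cfsg.Agent.Base
import Cfsg.Agent.S2522
import Cfsg.Agent.Lib.Stein.SLn

/-!
The Levi trick: a class `C` of the form `z u` with `z` central in a Levi subgroup of type `A` and
`u` regular unipotent in the Levi subgroup covers with `C²` the big cell `P ψ(A) Q`.
-/

set_option autoImplicit false

namespace H37.EG

open Matrix Module H63.St H63.St.SL Cfsg.Agent.S2522 Polynomial

variable {K G : Type*} [Field K] [Group G] {k : ℕ}

/-- Regular unipotent matrices. -/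
def Reg (A : Matrix (Fin k) (Fin k) K) : Prop :=
  IsNilpotent (toLin' A - 1) ∧ finrank K (LinearMap.ker (toLin' A - 1)) ≤ 1

lemma Reg.conj {A B : GL (Fin k) K} (hA : Reg A.val) (hB : Reg B.val) :
    ∃ x : GL (Fin k) K, x * A * x⁻¹ = B :=
  let ⟨x, hx⟩ := exists_gl_conj A (similar_of_reg rfl hA.1 hA.2 hB.1 hB.2)
  ⟨x, Units.ext (toLin'.injective hx)⟩

lemma Reg.inv {A : GL (Fin k) K} (hA : Reg A.val) : Reg (A⁻¹).val :=
  reg_inv (by rw [End.mul_eq_comp, ← toLin'_mul, Units.inv_mul, toLin'_one]; rfl) hA.1 hA.2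

lemma toLin'_sub_one (A : Matrix (Fin k) (Fin k) K) : toLin' A - 1 = toLin' (A - 1) := by
  rw [map_sub, toLin'_one]; rfl

lemma Reg.transpose {A : Matrix (Fin k) (Fin k) K} (hA : Reg A) : Reg Aᵀ := by
  rw [Reg, toLin'_sub_one] at hA ⊢
  rw [show Aᵀ - 1 = (A - 1)ᵀ by simp]
  generalize A - 1 = M at hA ⊢
  refine ⟨by simpa [isNilpotent_toLin'_iff, isNilpotent_transpose_iff] using hA.1, ?_⟩
  have h1 : M.rank + _ = _ := LinearMap.finrank_range_add_finrank_ker (toLin' M)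
  have h2 : Mᵀ.rank + _ = _ := LinearMap.finrank_range_add_finrank_ker (toLin' Mᵀ)
  have h3 : M.rank = Mᵀ.rank := (rank_transpose M).symm
  have h4 := hA.2
  omega

lemma Reg.pow [Finite K] {A : Matrix (Fin k) (Fin k) K} (hA : Reg A) :
    ∃ n, A ^ Nat.card K ^ n = 1 := by
  have := Fintype.ofFinite K
  obtain ⟨p, hp⟩ := CharP.exists K
  obtain ⟨f, hp', hf⟩ := FiniteField.card K p
  have := Fact.mk hp'
  obtain ⟨n, hn⟩ : IsNilpotent (A - 1) := by
    rw [← isNilpotent_toLin'_iff, ← toLin'_sub_one]; exact hA.1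
  rcases Nat.eq_zero_or_pos k with rfl | hk
  · exact ⟨0, Subsingleton.elim _ _⟩
  have : Nonempty (Fin k) := ⟨⟨0, hk⟩⟩
  refine ⟨n, ?_⟩
  rw [Nat.card_eq_fintype_card, hf, ← pow_mul, ← sub_eq_zero, ← one_pow (p ^ (f * n)),
    ← sub_pow_char_pow_of_commute _ _ (Commute.one_right A)]
  refine pow_eq_zero_of_le ?_ hn
  calc n ≤ f * n := Nat.le_mul_of_pos_left n f.2
    _ ≤ _ := (Nat.lt_pow_self hp'.one_lt).le

/-- Bidiagonal matrices as products of transvections. -/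
def JJ (k : ℕ) (c : ℕ → K) : ℕ → Matrix.SpecialLinearGroup (Fin k) K
  | 0 => 1
  | n + 1 => if h : n + 1 < k then tv ⟨n, by omega⟩ ⟨n + 1, h⟩ (c n) * JJ k c n else JJ k c n

lemma JJ_apply (c : ℕ → K) (n : ℕ) (i j : Fin k) : (JJ k c n).1 i j =
    if i = j then 1 else if (j : ℕ) = i + 1 ∧ (i : ℕ) < n then c i else 0 := by
  induction n generalizing i j with
  | zero => simp [JJ, one_apply]
  | succ n ih =>
    rw [JJ]
    by_cases h : n + 1 < k
    · rw [dif_pos h, Matrix.SpecialLinearGroup.coe_mul, coe_tv (by simp), add_mul, one_mul, smul_mul_assoc,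
        Matrix.add_apply, Matrix.smul_apply, ih]
      by_cases e : i = ⟨n, by omega⟩
      · subst e
        rw [single_mul_apply_same, ih]
        simp only [Fin.ext_iff]
        split_ifs <;> first | omega | simp
      · rw [single_mul_apply_of_ne _ _ _ _ _ e]
        simp only [Fin.ext_iff] at e ⊢
        split_ifs <;> first | omega | simp
    · rw [dif_neg h, ih]
      have := j.2
      simp only [Fin.ext_iff]
      split_ifs <;> first | omega | rfl

lemma reg_JJ {c : ℕ → K} (hc : ∀ n, c n ≠ 0) : Reg (JJ k c k).1 := by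
  refine ⟨nil_of_charpoly (n := k) ?_, ?_⟩
  · rw [charpoly_toLin', charpoly_of_isUpperTriangular]
    · simp [JJ_apply]
    · intro i j hij
      have : j.val < i.val := hij
      rw [JJ_apply, if_neg (by rintro rfl; omega), if_neg (by omega)]
  rcases k with _ | k
  · exact (Submodule.finrank_le _).trans (by simp)
  refine H64.Sour.FixV.finrank_le (r := LinearMap.proj 0) fun v h1 h2 => funext fun i => ?_
  rcases i with ⟨_ | i, hi⟩
  · exact h2
  have := congrFun h1 ⟨i, by omega⟩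
  rw [toLin'_apply, mulVec, dotProduct, Finset.sum_eq_add (⟨i, by omega⟩ : Fin (k + 1)) ⟨i + 1, hi⟩ (by simp [Fin.ext_iff])
    (fun j _ hj => by
      simp only [ne_eq, Fin.ext_iff] at hj
      rw [JJ_apply, if_neg (by simp only [Fin.ext_iff]; omega), if_neg (by simp only; omega),
        zero_mul]) (by simp) (by simp)] at this
  simpa [JJ_apply, hc, show i < k + 1 by omega] using this

/-- The regular unipotent Jordan block. -/
def J1 (K : Type*) [Field K] (k : ℕ) : Matrix.SpecialLinearGroup (Fin k) K := JJ k (fun _ => 1) k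

lemma reg_J1 : Reg (J1 K k).1 := reg_JJ fun _ => one_ne_zero

lemma reg_transvection {ψ : Dual K (Fin 2 → K)} {v : Fin 2 → K} (h1 : ψ ≠ 0) (h2 : v ≠ 0)
    (h3 : ψ v = 0) {A : Matrix (Fin 2) (Fin 2) K} (h : toLin' A = LinearMap.transvection ψ v) :
    Reg A := by
  rw [Reg, h]
  refine ⟨⟨2, by ext y; simp [pow_two, LinearMap.transvection.apply, h3]⟩, ?_⟩
  obtain ⟨φ, y, -, h4, -⟩ := H64.Sour.exists_dual_pair h1 h2 h3
  have : LinearMap.ker (LinearMap.transvection ψ v - 1 : End K _) = LinearMap.ker ψ := by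
    ext w
    simp [LinearMap.transvection.apply, h2]
  have h5 := H64.Sour.finrank_ker_add_one y ψ h4
  rw [this]
  simp at h5
  omega

lemma exists_reg_mul [Finite K] (hK : 4 ≤ Nat.card K) (A : Matrix.SpecialLinearGroup (Fin k) K)
    (hA : A = 1 ∨ ∀ c : K, A.1 ≠ c • 1) :
    ∃ B C : GL (Fin k) K, Reg B.val ∧ Reg C.val ∧ (A : GL (Fin k) K) = B * C := by
  have := Fintype.ofFinite K
  rcases hA with rfl | hA
  · exact ⟨J1 K k, (J1 K k : GL (Fin k) K)⁻¹, reg_J1, Reg.inv reg_J1, by simp⟩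
  have hR : ∀ x : GL (Fin k) K, Reg (x * J1 K k * x⁻¹ : GL (Fin k) K).val := fun x => by
    have h1 : H65.Similar (toLin' (J1 K k).1) (toLin' (x * J1 K k * x⁻¹ : GL (Fin k) K).val) := by
      rw [← H65.isConj_iff_similar]
      exact ⟨x, by simp [SemiconjBy, mul_assoc]⟩
    obtain ⟨e, he⟩ := h1.eq_conj
    have h2 : toLin' (x * J1 K k * x⁻¹ : GL (Fin k) K).val - 1 = e.conj (toLin' (J1 K k).1 - 1) := by
      rw [he, map_sub]; congr 1; ext; simp
    rw [Reg, h2]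
    refine ⟨reg_J1.1.map (e.conjAlgEquiv K), le_trans (le_of_eq ?_) (reg_J1 (K := K) (k := k)).2⟩
    rw [LinearEquiv.conj_apply, LinearMap.ker_comp, LinearEquiv.ker_comp,
      Submodule.comap_equiv_eq_map_symm, LinearEquiv.finrank_map_eq]
  rcases k with _ | _ | _ | k
  · exact absurd (Subsingleton.elim _ _) (hA 1)
  · refine absurd ?_ (hA (A.1 0 0))
    ext i j; fin_cases i; fin_cases j; simp
  · have hB := H64.Sour.big_of_card (K := K) (by rwa [← Nat.card_eq_fintype_card])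
    have hd : LinearMap.det (toLin' A.1) = 1 := by rw [LinearMap.det_toLin', A.2]
    have hns : H64.Sour.NS (toLin' A.1) := fun μ => by
      by_contra! h
      exact hA μ ((H65.toLin'_eq_smul_one_iff _ _).1 (LinearMap.ext h))
    by_cases hr2 : H64.Sour.R2 (toLin' A.1)
    · obtain ⟨c, r, B, C, h1, h2, h3, h4, h5, h6⟩ :=
        H64.Sour.dec_unip hB (n := 0) (by simp) hd hns hr2
      have hu : IsUnit (LinearMap.toMatrix' B) := h1.map LinearMap.toMatrixAlgEquiv'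
      have hB' : Reg hu.unit.val := by
        rw [Reg, IsUnit.unit_spec, toLin'_toMatrix']
        exact ⟨nil_of_charpoly h3, h5.finrank_le⟩
      refine ⟨hu.unit⁻¹, hu.unit * A, hB'.inv, ?_, by simp⟩
      rw [Reg, Units.val_mul, toLin'_mul, IsUnit.unit_spec, toLin'_toMatrix']
      subst h2
      exact ⟨nil_of_charpoly h4, h6.finrank_le⟩
    · obtain ⟨ψ, v, h1, h2, h3, h4⟩ := H64.Sour.transvection_of_not_R2 hr2 hd (by
        intro h
        obtain ⟨w, hw⟩ := hns 1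
        simp [h] at hw)
      obtain ⟨a, ha0, ha1, -⟩ := hB 0 1 1
      have key : ∀ b : K, b ≠ 0 → ∃ B : GL (Fin 2) K, Reg B.val ∧
          toLin' B.val = LinearMap.transvection ψ (b • v) := fun b hb => by
        have hu : IsUnit (LinearMap.toMatrix' (LinearMap.transvection ψ (b • v))) := by
          rw [Matrix.isUnit_iff_isUnit_det, LinearMap.det_toMatrix', LinearMap.transvection.det]
          simp [h3]
        exact ⟨hu.unit, reg_transvection h1 (smul_ne_zero hb h2) (by simp [h3]) (by simp), by simp⟩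
      obtain ⟨B, b1, b2⟩ := key a ha0
      obtain ⟨C, c1, c2⟩ := key (1 - a) (sub_ne_zero.2 ha1.symm)
      refine ⟨B, C, b1, c1, Units.ext (toLin'.injective ?_)⟩
      rw [Units.val_mul, toLin'_mul, b2, c2]
      refine h4.trans (LinearMap.ext fun w => ?_)
      simp only [LinearMap.comp_apply, LinearMap.transvection.apply, map_add, map_smul, h3]
      module
  · obtain ⟨x, y, e⟩ := Cfsg.Agent.S2522.result (K := K) (by
      rw [Cardinal.mk_fintype, ← Nat.card_eq_fintype_card]; exact_mod_cast hK) (k + 3) (by omega)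
      (Matrix.SpecialLinearGroup.toGL (J1 K (k + 3))) A (fun i j => by
        have := j.2
        refine (JJ_apply _ _ i j).trans ?_
        split_ifs <;> first | omega | rfl) (by rintro ⟨c, hc⟩; exact hA c hc) A.2
    exact ⟨_, _, hR x, hR y, e⟩

lemma mul_conj_of_fpf {P : Subgroup G} [Finite P] {s : G} (h1 : ∀ p ∈ P, s * p * s⁻¹ ∈ P)
    (h2 : ∀ p ∈ P, Commute s p → p = 1) {v : G} (hv : v ∈ P) : ∃ p : G, v * s = p * s * p⁻¹ := by
  let f : P → P := fun p => ⟨p * (s * (p : G)⁻¹ * s⁻¹), mul_mem p.2 (h1 _ (inv_mem p.2))⟩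
  have : Function.Injective f := fun p p' e => by
    have e' : (p : G) * (s * (p : G)⁻¹ * s⁻¹) = p' * (s * (p' : G)⁻¹ * s⁻¹) :=
      congrArg Subtype.val e
    have := h2 _ (mul_mem (inv_mem p'.2) p.2) (by
      calc s * ((p' : G)⁻¹ * p) = (p' : G)⁻¹ * (p' * (s * (p' : G)⁻¹ * s⁻¹)) * s * p := by group
        _ = _ := by rw [← e']; group)
    exact Subtype.ext (inv_mul_eq_one.1 this).symm
  obtain ⟨p, hp⟩ := Finite.surjective_of_injective this ⟨v, hv⟩
  exact ⟨p, by rw [← show _ = v from congrArg Subtype.val hp]; simp [f, mul_assoc]⟩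

lemma diag_eq_one {i₀ : Fin k} {A B : Matrix.SpecialLinearGroup (Fin k) K}
    (hA : A ∈ Subgroup.closure {g | ∃ i j t, i ≠ j ∧ i ≠ i₀ ∧ g = tv i j t})
    (hB : B ∈ Subgroup.closure {g | ∃ i j t, i ≠ j ∧ j ≠ i₀ ∧ g = tv i j t}) :
    (A * B).1 i₀ i₀ = 1 := by
  have h1 : Pi.single i₀ 1 ᵥ* A.1 = Pi.single i₀ 1 := by
    induction hA using Subgroup.closure_induction with
    | mem x hx =>
      obtain ⟨i, j, t, h, h', rfl⟩ := hx
      ext a
      simp [coe_tv h, vecMul_add, h', one_apply, Pi.single_apply, eq_comm]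
    | one => simp
    | mul x y _ _ h h' => rw [Matrix.SpecialLinearGroup.coe_mul, ← vecMul_vecMul, h, h']
    | inv x _ h =>
      nth_rewrite 1 [← h]
      rw [vecMul_vecMul, ← Matrix.SpecialLinearGroup.coe_mul, mul_inv_cancel]; simp
  have h2 : B.1 *ᵥ Pi.single i₀ 1 = Pi.single i₀ 1 := by
    induction hB using Subgroup.closure_induction with
    | mem x hx =>
      obtain ⟨i, j, t, h, h', rfl⟩ := hx
      ext a
      simp [coe_tv h, add_mulVec, h', one_apply, Pi.single_apply, eq_comm]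
    | one => exact one_mulVec _
    | mul x y _ _ h h' => rw [Matrix.SpecialLinearGroup.coe_mul, ← mulVec_mulVec, h', h]
    | inv x _ h =>
      nth_rewrite 1 [← h]
      rw [mulVec_mulVec, ← Matrix.SpecialLinearGroup.coe_mul, inv_mul_cancel]
      exact one_mulVec _
  have : Pi.single i₀ 1 ⬝ᵥ ((A * B).1 *ᵥ Pi.single i₀ 1) = 1 := by
    rw [Matrix.SpecialLinearGroup.coe_mul, ← mulVec_mulVec, h2, dotProduct_mulVec, h1]; simp
  simpa using this

section levi

variable (ψ : Matrix.SpecialLinearGroup (Fin k) K →* G)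

lemma conj_JJ {w : G} {c : ℕ → K}
    (h : ∀ i j : Fin k, (j : ℕ) = i + 1 → w * ψ (tv i j 1) * w⁻¹ = ψ (tv i j (c i))) (n : ℕ) :
    w * ψ (JJ k (fun _ => 1) n) * w⁻¹ = ψ (JJ k c n) := by
  induction n with
  | zero => simp [JJ]
  | succ n ih =>
    simp only [JJ]
    split_ifs with h1
    · rw [map_mul, map_mul, ← ih, ← h ⟨n, by omega⟩ ⟨n + 1, h1⟩ rfl]; group
    · exact ih

lemma conj_JJ' {w : G} {c : ℕ → K}
    (h : ∀ i j : Fin k, (j : ℕ) = i + 1 → w * ψ (tv i j 1) * w⁻¹ = ψ (tv j i (c i))) (n : ℕ) :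
    w * ψ (JJ k (fun _ => 1) n) * w⁻¹ = ψ (JJ k (fun i => -c i) n).transpose⁻¹ := by
  induction n with
  | zero =>
    have : (1 : Matrix.SpecialLinearGroup (Fin k) K).transpose = 1 := Subtype.ext (by simp)
    simp [JJ, this]
  | succ n ih =>
    simp only [JJ]
    split_ifs with h1
    · have e : (tv (⟨n, by omega⟩ : Fin k) ⟨n + 1, h1⟩ (-c n) * JJ k (fun i => -c i) n).transpose =
          (JJ k (fun i => -c i) n).transpose * (tv ⟨n + 1, h1⟩ ⟨n, by omega⟩ (c n))⁻¹ := by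
        have := (st (Fin k) K).x_neg (i := ⟨n + 1, h1⟩) (j := ⟨n, by omega⟩) (by simp) (c n)
        simp only [st] at this
        rw [← this]
        refine Subtype.ext ?_
        simp only [Matrix.SpecialLinearGroup.coe_transpose, Matrix.SpecialLinearGroup.coe_mul, transpose_mul]
        rw [coe_tv (by simp), coe_tv (by simp)]; simp
      rw [e, _root_.mul_inv_rev, inv_inv, map_mul, map_mul, ← ih, ← h ⟨n, by omega⟩ ⟨n + 1, h1⟩ rfl]; group
    · exact ih

variable {z : G} (hz : ∀ A, Commute z (ψ A))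
  (hd : ∀ a : Kˣ, ∃ g, Commute g z ∧ ∃ d : Fin k → Kˣ, ∏ i, d i = a ∧ ∀ i j, i ≠ j → ∀ t,
    g * ψ (tv i j t) * g⁻¹ = ψ (tv i j (d i * (d j)⁻¹ * t)))
include hz hd

lemma exists_gl (x : GL (Fin k) K) : ∃ g, Commute g z ∧ ∀ A B : Matrix.SpecialLinearGroup (Fin k) K,
    (B : GL (Fin k) K) = x * A * x⁻¹ → g * ψ A * g⁻¹ = ψ B := by
  obtain ⟨g, h1, d, h2, h3⟩ := hd (GeneralLinearGroup.det x)
  let D : GL (Fin k) K := ⟨diagonal fun i => d i, diagonal fun i => (d i)⁻¹, by simp, by simp⟩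
  have hD : GeneralLinearGroup.det D = GeneralLinearGroup.det x := by
    rw [← h2]; ext; simp [D]
  let T : Subgroup (Matrix.SpecialLinearGroup (Fin k) K) :=
    { carrier := {A | ∃ B : Matrix.SpecialLinearGroup (Fin k) K, (B : GL (Fin k) K) = D * A * D⁻¹ ∧
        g * ψ A * g⁻¹ = ψ B}
      mul_mem' := by
        rintro A A' ⟨B, b1, b2⟩ ⟨B', c1, c2⟩
        refine ⟨B * B', ?_, by rw [map_mul, map_mul, ← b2, ← c2]; group⟩
        change Matrix.SpecialLinearGroup.toGL _ = D * Matrix.SpecialLinearGroup.toGL _ * D⁻¹ at b1 c1 ⊢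
        rw [map_mul, map_mul, b1, c1]; group
      one_mem' := ⟨1, by simp, by simp⟩
      inv_mem' := by
        rintro A ⟨B, b1, b2⟩
        refine ⟨B⁻¹, ?_, by rw [map_inv, map_inv, ← b2]; group⟩
        change Matrix.SpecialLinearGroup.toGL _ = D * Matrix.SpecialLinearGroup.toGL _ * D⁻¹ at b1 ⊢
        rw [map_inv, map_inv, b1]; group }
  have hT : T = ⊤ := H10.SL_eq_top_of_transvection_mem _ fun i j h t => by
    rw [← tv_eq h]
    refine ⟨_, ?_, h3 i j h t⟩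
    rw [eq_mul_inv_iff_mul_eq]
    ext a b
    simp only [Units.val_mul, Matrix.SpecialLinearGroup.coe_GL_coe_matrix, coe_tv h, D, diagonal_mul,
      mul_diagonal, Matrix.add_apply, Matrix.smul_apply, one_apply, single_apply, smul_eq_mul]
    split_ifs with h1 h2 h2
    · exact absurd (h2.1.trans (h1.trans h2.2.symm)) h
    · simp [h1]
    · obtain ⟨rfl, rfl⟩ := h2; simp [mul_right_comm _ t]
    · simp
  let y : Matrix.SpecialLinearGroup (Fin k) K := ⟨(x * D⁻¹).val, by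
    rw [← GeneralLinearGroup.val_det_apply, map_mul, map_inv, hD, mul_inv_cancel, Units.val_one]⟩
  have hy : Matrix.SpecialLinearGroup.toGL y = x * D⁻¹ := Units.ext rfl
  refine ⟨ψ y * g, (hz y).symm.mul_left h1, fun A B e => ?_⟩
  obtain ⟨B', b1, b2⟩ : A ∈ T := hT ▸ Subgroup.mem_top A
  have : B = y * B' * y⁻¹ := Matrix.SpecialLinearGroup.toGL_injective (by
    change Matrix.SpecialLinearGroup.toGL _ = D * Matrix.SpecialLinearGroup.toGL _ * D⁻¹ at b1
    change Matrix.SpecialLinearGroup.toGL _ = x * Matrix.SpecialLinearGroup.toGL _ * x⁻¹ at e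
    rw [map_mul, map_mul, map_inv, hy, b1, e]; group)
  rw [this, map_mul, map_mul, map_inv, ← b2]; group

lemma exists_conj_reg {A B : Matrix.SpecialLinearGroup (Fin k) K} (hA : Reg A.1) (hB : Reg B.1) :
    ∃ g, Commute g z ∧ g * ψ A * g⁻¹ = ψ B := by
  obtain ⟨x, hx⟩ := Reg.conj (A := Matrix.SpecialLinearGroup.toGL A)
    (B := Matrix.SpecialLinearGroup.toGL B) hA hB
  obtain ⟨g, h1, h2⟩ := exists_gl ψ hz hd x
  exact ⟨g, h1, h2 A B hx.symm⟩

/-- The Levi trick. -/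
theorem levi [Finite K] (hK : 4 ≤ Nat.card K) (hq : z ^ Nat.card K = z) {P Q : Subgroup G}
    [Finite P] [Finite Q] (hP : ∀ A, ∀ p ∈ P, ψ A * p * (ψ A)⁻¹ ∈ P)
    (hQ : ∀ A, ∀ p ∈ Q, ψ A * p * (ψ A)⁻¹ ∈ Q) (zP : ∀ p ∈ P, z * p * z⁻¹ ∈ P)
    (zQ : ∀ p ∈ Q, z⁻¹ * p * z ∈ Q) (fP : ∀ p ∈ P, Commute z p → p = 1)
    (fQ : ∀ p ∈ Q, Commute z p → p = 1)
    (hw : ∃ w, w * z * w⁻¹ = z⁻¹ ∧ ∃ c : ℕ → K, (∀ n, c n ≠ 0) ∧
      ((∀ i j : Fin k, (j : ℕ) = i + 1 → w * ψ (tv i j 1) * w⁻¹ = ψ (tv i j (c i))) ∨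
        ∀ i j : Fin k, (j : ℕ) = i + 1 → w * ψ (tv i j 1) * w⁻¹ = ψ (tv j i (c i)))) :
    ∃ s : G, ∀ p ∈ P, ∀ q ∈ Q, ∀ i₀,
      ∀ a ∈ Subgroup.closure {g | ∃ i j t, i ≠ j ∧ i ≠ i₀ ∧ g = ψ (tv i j t)},
      ∀ b ∈ Subgroup.closure {g | ∃ i j t, i ≠ j ∧ j ≠ i₀ ∧ g = ψ (tv i j t)},
      ∃ x y, p * (a * b) * q = (x * s * x⁻¹) * (y * s * y⁻¹) := by
  refine ⟨z * ψ (J1 K k), fun p hp q hq' i₀ a ha b hb => ?_⟩
  obtain ⟨A, hA, rfl⟩ : a ∈ (Subgroup.closure {g | ∃ i j t, i ≠ j ∧ i ≠ i₀ ∧ g = tv i j t}).map ψ := by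
    rw [MonoidHom.map_closure]
    exact Subgroup.closure_mono (by rintro _ ⟨i, j, t, h1, h2, rfl⟩; exact ⟨_, ⟨i, j, t, h1, h2, rfl⟩, rfl⟩) ha
  obtain ⟨B, hB, rfl⟩ : b ∈ (Subgroup.closure {g | ∃ i j t, i ≠ j ∧ j ≠ i₀ ∧ g = tv i j t}).map ψ := by
    rw [MonoidHom.map_closure]
    exact Subgroup.closure_mono (by rintro _ ⟨i, j, t, h1, h2, rfl⟩; exact ⟨_, ⟨i, j, t, h1, h2, rfl⟩, rfl⟩) hb
  obtain ⟨C, D, hC, hD, e⟩ := exists_reg_mul hK (A * B) (by
    by_contra! h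
    obtain ⟨h1, c, h2⟩ := h
    have := diag_eq_one hA hB
    rw [h2] at this
    exact h1 (Subtype.ext (by rw [h2, show c = 1 by simpa using this, one_smul]; rfl)))
  have lift : ∀ C : GL (Fin k) K, Reg C.val → ∃ C' : Matrix.SpecialLinearGroup (Fin k) K,
      Matrix.SpecialLinearGroup.toGL C' = C := fun C hC => by
    obtain ⟨x, hx⟩ := Reg.conj (A := Matrix.SpecialLinearGroup.toGL (J1 K k)) reg_J1 hC
    exact ⟨⟨C.val, by
      rw [← hx, ← GeneralLinearGroup.val_det_apply, map_mul, map_mul, map_inv, mul_right_comm,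
        mul_inv_cancel, one_mul]
      exact (J1 K k).2⟩, Units.ext rfl⟩
  obtain ⟨C, rfl⟩ := lift C hC
  obtain ⟨D, rfl⟩ := lift D hD
  have e' : A * B = C * D := Matrix.SpecialLinearGroup.toGL_injective (by rw [map_mul _ C]; exact e)
  have hzp : ∀ n, z ^ Nat.card K ^ n = z := fun n => by
    induction n with
    | zero => simp
    | succ n ih => rw [pow_succ, pow_mul, ih, hq]
  have fpf : ∀ (y : G) (C : Matrix.SpecialLinearGroup (Fin k) K), Commute y (ψ C) → Reg C.1 →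
      (∀ n, y ^ Nat.card K ^ n = y) → ∀ p, Commute (y * ψ C) p → Commute y p := by
    intro y C h1 h2 h3 p h4
    obtain ⟨n, hn⟩ := h2.pow
    have := h4.pow_left (Nat.card K ^ n)
    rwa [h1.mul_pow, h3, ← map_pow, show C ^ Nat.card K ^ n = 1 from Subtype.ext (by simpa using hn),
      map_one, mul_one] at this
  obtain ⟨x, hx⟩ := mul_conj_of_fpf (s := z * ψ C)
    (fun p hp => by simpa [mul_assoc] using zP _ (hP C p hp))
    (fun p hp h => fP p hp (fpf z C (hz C) hC hzp p h)) hp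
  have n2 : ∀ p ∈ Q, z⁻¹ * ψ D * p * (z⁻¹ * ψ D)⁻¹ ∈ Q := fun p hp => by
    simpa [mul_assoc] using zQ _ (hQ D p hp)
  obtain ⟨y, hy⟩ := mul_conj_of_fpf n2 (fun p hp h => fQ p hp (by
    simpa using (fpf z⁻¹ D (hz D).inv_left hD (fun n => by rw [inv_pow, hzp]) p h).inv_left))
    (n2 q hq')
  obtain ⟨g, g1, g2⟩ := exists_conj_reg ψ hz hd reg_J1 hC
  obtain ⟨w, w1, J', w2, w3⟩ : ∃ w, w * z * w⁻¹ = z⁻¹ ∧ ∃ J' : Matrix.SpecialLinearGroup (Fin k) K,
      Reg J'.1 ∧ w * ψ (J1 K k) * w⁻¹ = ψ J' := by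
    obtain ⟨w, w1, c, hc, h | h⟩ := hw
    · exact ⟨w, w1, _, reg_JJ hc, conj_JJ ψ h k⟩
    · refine ⟨w, w1, _, ?_, conj_JJ' ψ h k⟩
      have := Reg.inv (A := Matrix.SpecialLinearGroup.toGL (JJ k (fun i => -c i) k).transpose)
        (reg_JJ fun n => neg_ne_zero.2 (hc n)).transpose
      rwa [← map_inv] at this
  obtain ⟨g', g3, g4⟩ := exists_conj_reg ψ hz hd w2 hD
  refine ⟨x * g, y * g' * w, ?_⟩
  have e1 : g * (z * ψ (J1 K k)) * g⁻¹ = z * ψ C := by rw [← g2, ← mul_assoc g, g1.eq]; group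
  have e2 : g' * w * (z * ψ (J1 K k)) * (g' * w)⁻¹ = z⁻¹ * ψ D := by
    calc _ = g' * (w * z * w⁻¹) * (w * ψ (J1 K k) * w⁻¹) * g'⁻¹ := by group
      _ = _ := by rw [w1, w3, g3.inv_right.eq, ← g4]; group
  calc _ = (p * (z * ψ C)) * (z⁻¹ * ψ D * q * (z⁻¹ * ψ D)⁻¹ * (z⁻¹ * ψ D)) := by
        rw [← map_mul, e', map_mul, (hz C).eq]; group
    _ = _ := by rw [hx, hy, ← e1, ← e2]; group

end levi

end H37.EG
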