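import Mathlib
import Cfsg.Agent.Base
import Cfsg.Agent.Lib.EG.Levi
import Cfsg.Agent.Lib.Stein.SLPres

/-!
Homomorphisms from `SL_k` defined by Steinberg elements, and groups which are the square of a
conjugacy class away from the centre.
-/

set_option autoImplicit false

namespace H37.EG

open H63.St H63.St.SL
open scoped commutatorElement

variable {K G : Type*} [Field K] [Group G]

/-- Steinberg elements define a homomorphism from `SL_{m+1}` (any `m`). -/
theorem exists_psi [Finite K] {m : ℕ} (S : PreStA (Fin (m + 1)) K G)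
    (hr : ∀ i j, i ≠ j → (∀ k, k = i ∨ k = j) → ∀ t, t ≠ 0 → ∀ u,
      S.w i j t * S.x i j u * (S.w i j t)⁻¹ = S.x j i (-(t⁻¹ ^ 2 * u))) :
    ∃ ψ : Matrix.SpecialLinearGroup (Fin (m + 1)) K →* G,
      ∀ i j, i ≠ j → ∀ t, ψ (tv i j t) = S.x i j t := by
  let Γ : Subgroup (Matrix.SpecialLinearGroup (Fin (m + 1)) K × G) :=
    Subgroup.closure {g | ∃ i j t, g = (tv i j t, S.x i j t) ∧ i ≠ j}
  have hm : ∀ i j t, i ≠ j → (tv i j t, S.x i j t) ∈ Γ := fun i j t h =>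
    Subgroup.subset_closure ⟨i, j, t, rfl, h⟩
  let x : Fin (m + 1) → Fin (m + 1) → K → Γ := fun i j t =>
    if h : i ≠ j then ⟨_, hm i j t h⟩ else 1
  have hx : ∀ {i j}, i ≠ j → ∀ t, (x i j t).1 = (tv i j t, S.x i j t) := fun h t => by
    simp only [x, dif_pos h]
  let T := st (Fin (m + 1)) K
  let S' : StA (Fin (m + 1)) K Γ :=
    { x := x
      add := fun h a b => Subtype.ext (by
        rw [Subgroup.coe_mul, hx h, hx h, hx h]; exact Prod.ext (T.add h a b) (S.add h a b))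
      c0 := fun h1 h2 h3 h4 t u => Subtype.ext (by
        rw [Subgroup.coe_mul, Subgroup.coe_mul, hx h1, hx h2]
        exact Prod.ext (T.c0 h1 h2 h3 h4 t u) (S.c0 h1 h2 h3 h4 t u))
      c1 := fun h1 h2 h3 t u => Subtype.ext (by
        simp only [commutatorElement_def, Subgroup.coe_mul, Subgroup.coe_inv, hx h1, hx h2, hx h3]
        exact Prod.ext (T.c1 h1 h2 h3 t u) (S.c1 h1 h2 h3 t u))
      rel := fun {i j} h {t} ht u => Subtype.ext (by
        simp only [PreStA.w, Subgroup.coe_mul, Subgroup.coe_inv, hx h, hx h.symm]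
        refine Prod.ext (T.rel h ht u) ?_
        by_cases e : ∀ k, k = i ∨ k = j
        · exact hr i j h e t ht u
        · push Not at e
          obtain ⟨k, k1, k2⟩ := e
          exact S.rel_of_third h (Ne.symm k2) (Ne.symm k1) ht u)
      ne_one := fun {i j} h t ht e => T.ne_one h t ht (by
        have := congrArg (fun g : Γ => g.1.1) e
        simp only [hx h] at this
        exact this) }
  let π : Γ →* Matrix.SpecialLinearGroup (Fin (m + 1)) K := (MonoidHom.fst _ _).comp Γ.subtype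
  have hπ : ∀ i j, i ≠ j → ∀ t, π (S'.x i j t) = tv i j t := fun i j h t =>
    congrArg Prod.fst (hx h t)
  have h1 : Function.Injective π := injective_of_st S' (by
    have h0 : Γ ≤ S'.rgd.Gp.map Γ.subtype := (Subgroup.closure_le _).2 (by
      rintro _ ⟨i, j, t, rfl, h⟩
      exact ⟨_, S'.rgd.mem_Gp (r := ⟨(i, j), h⟩) ⟨t, rfl⟩, hx h t⟩)
    rw [eq_top_iff]
    rintro g -
    obtain ⟨g', h1, h2⟩ := h0 g.2
    exact Subtype.ext h2 ▸ h1) hπ
  have h2 : Function.Surjective π := by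
    rw [← MonoidHom.range_eq_top]
    exact H10.SL_eq_top_of_transvection_mem _ fun i j h c => ⟨_, (hπ i j h c).trans (tv_eq h c)⟩
  let e := MulEquiv.ofBijective π ⟨h1, h2⟩
  refine ⟨((MonoidHom.snd _ _).comp Γ.subtype).comp e.symm.toMonoidHom, fun i j h t => ?_⟩
  have : e (S'.x i j t) = tv i j t := hπ i j h t
  rw [← this]
  simpa using congrArg Prod.snd (hx h t)

lemma psi_mem {k : ℕ} (ψ : Matrix.SpecialLinearGroup (Fin k) K →* G) {A : Subgroup G}
    (h : ∀ i j, i ≠ j → ∀ t, ψ (tv i j t) ∈ A) (g : Matrix.SpecialLinearGroup (Fin k) K) :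
    ψ g ∈ A := by
  have : A.comap ψ = ⊤ := H10.SL_eq_top_of_transvection_mem _ fun i j e c => tv_eq e c ▸ h i j e c
  exact (this ▸ Subgroup.mem_top g : g ∈ A.comap ψ)

/-- The non-central elements and `1` are products of two conjugates of one element. -/
def SqZ (G : Type*) [Group G] : Prop := ∃ s : G, ∀ g : G, (g ∉ Subgroup.center G ∨ g = 1) →
  ∃ x y, g = (x * s * x⁻¹) * (y * s * y⁻¹)

lemma SqZ.of_surj {Γ : Type*} [Group Γ] (h : SqZ Γ) (π : Γ →* G) (hπ : Function.Surjective π)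
    (hz : Subgroup.center Γ ≤ π.ker) :
    ∃ c : G, ∀ g : G, ∃ x y : G, g = (x * c * x⁻¹) * (y * c * y⁻¹) := by
  obtain ⟨s, hs⟩ := h
  refine ⟨π s, fun g => ?_⟩
  obtain ⟨g, rfl⟩ := hπ g
  by_cases hg : g ∈ Subgroup.center Γ
  · obtain ⟨x, y, e⟩ := hs 1 (Or.inr rfl)
    exact ⟨π x, π y, by simpa [show π g = 1 from hz hg] using congrArg π e⟩
  · obtain ⟨x, y, e⟩ := hs g (Or.inl hg)
    exact ⟨π x, π y, by simpa using congrArg π e⟩

lemma SqZ.of_equiv {Γ : Type*} [Group Γ] (h : SqZ Γ) (e : Γ ≃* G) : SqZ G := by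
  obtain ⟨s, hs⟩ := h
  refine ⟨e s, fun g hg => ?_⟩
  obtain ⟨g, rfl⟩ := e.surjective g
  obtain ⟨x, y, h⟩ := hs g (hg.imp (fun h h' => h (Subgroup.mem_center_iff.2 fun a => by
    obtain ⟨a, rfl⟩ := e.surjective a
    rw [← map_mul, ← map_mul, Subgroup.mem_center_iff.1 h'])) fun h => by simpa using h)
  exact ⟨e x, e y, by simpa using congrArg e h⟩

lemma sq_quot {Γ : Type*} [Group Γ] (h : SqZ Γ) (e : G ≃* Γ ⧸ Subgroup.center Γ) :
    ∃ c : G, ∀ g : G, ∃ x y : G, g = (x * c * x⁻¹) * (y * c * y⁻¹) :=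
  h.of_surj (e.symm.toMonoidHom.comp (QuotientGroup.mk' _))
    (e.symm.surjective.comp (QuotientGroup.mk'_surjective _)) fun g hg => by
      simpa using hg

lemma sqz_of {s : G} {C : Set G} (h1 : (1 : G) ∈ C)
    (h2 : ∀ g, g ∉ Subgroup.center G → ∃ a, a * g * a⁻¹ ∈ C)
    (h : ∀ g ∈ C, ∃ x y, g = (x * s * x⁻¹) * (y * s * y⁻¹)) : SqZ G := by
  refine ⟨s, ?_⟩
  rintro g (hg | rfl)
  · obtain ⟨a, ha⟩ := h2 g hg
    obtain ⟨x, y, e⟩ := h _ ha
    refine ⟨a⁻¹ * x, a⁻¹ * y, ?_⟩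
    calc g = a⁻¹ * (a * g * a⁻¹) * a := by group
      _ = _ := by rw [e]; group
  · exact h 1 h1

lemma exists_order [Finite K] (hK : 9 ≤ Nat.card K) :
    ∃ τ : Kˣ, ∀ n : ℤ, n ≠ 0 → n.natAbs ≤ 7 → τ ^ n ≠ 1 := by
  obtain ⟨τ, hτ⟩ := IsCyclic.exists_ofOrder_eq_natCard (α := Kˣ)
  refine ⟨τ, fun n h1 h2 e => ?_⟩
  rw [← orderOf_dvd_iff_zpow_eq_one, hτ, Nat.card_units, Int.natCast_dvd] at e
  have := Nat.le_of_dvd (by omega) e
  omega

lemma units_pow_card [Finite K] (τ : Kˣ) : τ ^ Nat.card K = τ := by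
  have h1 := Finite.one_lt_card (α := K)
  rw [show Nat.card K = Nat.card Kˣ + 1 by rw [Nat.card_units]; omega, pow_succ, pow_card_eq_one',
    one_mul]

end H37.EG
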