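import Mathlib
import Cfsg.Agent.Base
import Cfsg.Agent.Lib.EG.Psi
import Cfsg.Agent.Lib.EG.GaussElts

/-!
The square of a conjugacy class in a group with root elements (`H38.Elts`).
-/

set_option autoImplicit false

namespace H37.EG

open H38 H63.St H63.St.SL

variable {ι l : Type} [Fintype l] [DecidableEq l] {R : RS ι l} {K G : Type*} [Field K] [Group G]
  {E : Elts R K G}

/-- The level defined by a cocharacter. -/
def levC (R : RS ι l) (lam : l → ℤ) : (l → ℤ) →ₗ[ℤ] ℤ where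
  toFun v := ∑ i, lam i * R.wtv v i
  map_add' v w := by simp [R.wtv_add, mul_add, Finset.sum_add_distrib]
  map_smul' c v := by simp only [R.wtv_smul, RingHom.id_apply, smul_eq_mul, Finset.mul_sum]; congr 1; ext; ring

lemma levC_rt (lam : l → ℤ) (r : ι) : levC R lam (R.rt r) = ∑ i, lam i * R.wt r i := rfl

lemma prod_zpow (τ : Kˣ) (a b : l → ℤ) : ∏ i, (τ ^ a i) ^ b i = τ ^ ∑ i, a i * b i := by
  simp only [← zpow_mul]
  exact (map_sum (zpowersHom Kˣ τ).toAdditiveRight _ _).symm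

lemma tor_conj (h3 : E.R3) (τ : Kˣ) (lam : l → ℤ) (r : ι) (t : K) :
    Elts.tor h3 (fun i => τ ^ lam i) * E.x r t * (Elts.tor h3 fun i => τ ^ lam i)⁻¹ =
      E.x r ((τ ^ levC R lam (R.rt r) : Kˣ) * t) := by
  rw [Elts.tor_conj_x, prod_zpow, levC_rt]

lemma rep_conj_tor (h3 : E.R3) {n : G} {w : Equiv.Perm ι} (h : E.Rep n w) (c : l → Kˣ) :
    n * Elts.tor h3 c * n⁻¹ = Elts.tor h3 fun j => ∏ i, c i ^ R.cor (w (R.sim i)) j := by
  induction c using Pi.mulSingle_induction with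
  | one => simp [← Pi.one_def]
  | mul c d h1 h2 =>
    have : n * Elts.tor h3 (c * d) * n⁻¹ =
        (n * Elts.tor h3 c * n⁻¹) * (n * Elts.tor h3 d * n⁻¹) := by rw [map_mul]; group
    rw [this, h1, h2, ← map_mul]
    congr 1
    funext j
    simp [mul_zpow, Finset.prod_mul_distrib]
  | mulSingle i c =>
    rw [Elts.tor_single, h.conj_h_R3 h3 _ c.ne_zero, Elts.h_eq_tor h3]
    congr 1
    funext j
    rw [Finset.prod_eq_single i, Pi.mulSingle_eq_same]
    · intro k _ hk; rw [Pi.mulSingle_eq_of_ne hk, one_zpow]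
    · simp

lemma sum_cor_refl (θ : ι) (j : l) :
    ∑ i, R.cor θ i * R.cor (R.refl θ (R.sim i)) j = -R.cor θ j := by
  have h1 : ∑ i, R.cor θ i * R.wt θ i = 2 := R.pair_self θ
  simp only [R.cor_refl, R.cor_sim, R.pair_sim_left, Pi.sub_apply, Pi.smul_apply, smul_eq_mul,
    mul_sub, Finset.sum_sub_distrib, ← mul_assoc, ← Finset.sum_mul, h1, Pi.single_apply]
  simp; ring

variable [Finite ι]

lemma fpf_XS (hF : E.Faith) {A : Set ι} (hA : R.Closed A) {w : Equiv.Perm ι} (hw : w ∈ R.W)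
    (hp : ∀ r ∈ A, R.Pos (w r)) {z : G} {c : ι → K} (hc : ∀ r t, z * E.x r t * z⁻¹ = E.x r (c r * t))
    (hr : ∀ r ∈ A, c r ≠ 1) {y : G} (hy : y ∈ E.XS A) (e : Commute z y) : y = 1 := by
  classical
  have := Fintype.ofFinite ι
  have hL := Finset.nodup_toList (Finset.univ.filter fun r => r ∈ A)
  obtain ⟨t, -, rfl⟩ := E.exists_prod hA hw hp hL (by simp) hy
  have e1 : ∀ L : List ι, z * (L.map fun r => E.x r (t r)).prod * z⁻¹ =
      (L.map fun r => E.x r (c r * t r)).prod := fun L => by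
    induction L with
    | nil => simp
    | cons a L ih =>
      rw [List.map_cons, List.map_cons, List.prod_cons, List.prod_cons, ← ih, ← hc]; group
  have e2 := e1 (Finset.univ.filter fun r => r ∈ A).toList
  rw [e.eq, mul_inv_cancel_right] at e2
  have h4 := hF.prod_inj hw hL (fun r hr => hp r (by simpa using hr)) e2
  refine List.prod_eq_one fun g hg => ?_
  obtain ⟨r, hr', rfl⟩ := List.mem_map.mp hg
  have h5 : (c r - 1) * t r = 0 := by rw [sub_mul, ← h4 r hr', one_mul, sub_self]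
  rw [(mul_eq_zero.mp h5).resolve_left (sub_ne_zero.2 (hr r (by simpa using hr'))), E.x_zero]

/-- The combinatorial data of the Levi trick. -/
structure LD (R : RS ι l) (k : ℕ) where
  /-- the roots of the Levi subgroup -/
  ρ : Fin k → Fin k → ι
  /-- the central cocharacter -/
  lam : l → ℤ
  /-- the cocharacter inducing diagonal automorphisms -/
  mu : l → ℤ
  /-- the base point -/
  i₀ : Fin k
  /-- the index of the diagonal automorphisms -/
  i₁ : Fin k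
  /-- the inverting element -/
  w : Equiv.Perm ι
  w_mem : w ∈ R.W
  dom : ∀ r, R.Pos r → 0 ≤ ∑ i, lam i * R.wt r i
  le : ∀ r, ∑ i, lam i * R.wt r i ≤ 7
  zero : ∀ i j, i ≠ j → ∑ a, lam a * R.wt (ρ i j) a = 0
  pos : ∀ r, ∑ a, lam a * R.wt r a = 0 → R.Pos r → ∃ i j, i ≠ j ∧ j ≠ i₀ ∧ r = ρ i j
  neg : ∀ r, ∑ a, lam a * R.wt r a = 0 → ¬ R.Pos r → ∃ i j, i ≠ j ∧ i ≠ i₀ ∧ r = ρ i j
  mu_eq : ∀ i j, i ≠ j → ∑ a, mu a * R.wt (ρ i j) a =
    (if i = i₁ then 1 else 0) - if j = i₁ then 1 else 0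
  w_lam : ∀ j, ∑ i, lam i * R.cor (w (R.sim i)) j = -lam j
  w_ρ : (∀ i j : Fin k, (j : ℕ) = i + 1 → w (ρ i j) = ρ i j) ∨
    ∀ i j : Fin k, (j : ℕ) = i + 1 → w (ρ i j) = ρ j i

theorem sqz_elts [Finite K] [Finite G] (hF : E.Faith) (htop : E.Gp = ⊤) (hc : R.Connected)
    (h3 : E.R3) (hK : 9 ≤ Nat.card K) {k : ℕ} (D : LD R k)
    (ψ : Matrix.SpecialLinearGroup (Fin k) K →* G) {ε : Fin k → Fin k → K}
    (hε : ∀ i j, i ≠ j → ε i j ≠ 0)
    (hψ : ∀ i j, i ≠ j → ∀ t, ψ (tv i j t) = E.x (D.ρ i j) (ε i j * t)) : SqZ G := by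
  obtain ⟨τ, hτ⟩ := exists_order hK
  let f := levC R D.lam
  let z := Elts.tor h3 fun i => τ ^ D.lam i
  have hz : z ∈ E.H := Elts.tor_range h3 ▸ ⟨_, rfl⟩
  have h0 : ∀ A, ψ A ∈ E.XS {r | f (R.rt r) = 0} := psi_mem ψ fun i j h t =>
    hψ i j h t ▸ E.x_mem_XS (D.zero i j h) _
  have hl : ∀ r, f (R.rt r) ≠ 0 → ((τ ^ f (R.rt r) : Kˣ) : K) ≠ 1 := fun r h e => by
    have h1 : f (R.rt r) ≤ 7 := D.le r
    have h2 : f (R.rt (R.neg r)) ≤ 7 := D.le _
    rw [lev_neg] at h2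
    exact hτ _ h (by omega) (Units.val_eq_one.1 e)
  have cl : ∀ {p : ℤ → Prop}, (∀ a b x y : ℤ, 1 ≤ a → 1 ≤ b → p x → p y → p (a * x + b * y)) →
      R.Closed {r | p (f (R.rt r))} := fun h r hr s hs k hk => by
    obtain ⟨a, b, ha, hb, e⟩ := lev_cone f hk
    rw [Set.mem_ofPred_eq, e]; exact h a b _ _ ha hb hr hs
  obtain ⟨s, hs⟩ := levi ψ (z := z) (P := E.XS {r | f (R.rt r) < 0}) (Q := E.XS {r | 0 < f (R.rt r)})
    (fun A => (Subgroup.mem_centralizer_singleton_iff.1 (psi_mem ψ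
      (A := Subgroup.centralizer {z}) (fun i j h t => by
        have := tor_conj h3 τ D.lam (D.ρ i j) (ε i j * t)
        rw [levC_rt, D.zero i j h, zpow_zero, Units.val_one, one_mul, mul_inv_eq_iff_eq_mul] at this
        rw [Subgroup.mem_centralizer_singleton_iff, hψ i j h, this]) A)).symm)
    (fun a => ⟨Elts.tor h3 fun i => a ^ D.mu i, Elts.H_comm h3 (Elts.tor_range h3 ▸ ⟨_, rfl⟩) hz,
      Pi.mulSingle D.i₁ a, by simp, fun i j h t => by
        rw [hψ i j h, hψ i j h, tor_conj, levC_rt, D.mu_eq i j h]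
        congr 1
        simp only [Pi.mulSingle_apply]
        split_ifs <;> simp [mul_left_comm]⟩)
    (by omega) (by
      rw [← map_pow]; congr 1; funext i; exact units_pow_card _)
    (fun A p hp => conj_neg f E (h0 A) hp) (fun A p hp => conj_pos f E (h0 A) hp)
    (fun p hp => E.H_conj_mem_XS hz hp)
    (fun p hp => by simpa using E.H_conj_mem_XS (inv_mem hz) hp)
    (fun p hp => fpf_XS hF (cl (p := (· < 0)) fun a b x y _ _ _ _ => by nlinarith) R.w0_mem
      (fun r hr => (R.pos_w0_iff r).2 (not_pos_of_lev D.dom hr)) (tor_conj h3 τ D.lam)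
      (fun r hr => hl r (ne_of_lt hr)) hp)
    (fun p hp => fpf_XS hF (cl (p := (0 < ·)) fun a b x y _ _ _ _ => by nlinarith) R.W.one_mem
      (fun r hr => pos_of_lev D.dom hr) (tor_conj h3 τ D.lam) (fun r hr => hl r (ne_of_gt hr)) hp)
    (by
      obtain ⟨n, hn⟩ := E.exists_rep_of_mem_W D.w_mem
      refine ⟨n, ?_, ?_⟩
      · rw [rep_conj_tor h3 hn, ← map_inv]
        congr 1
        funext j
        rw [prod_zpow, D.w_lam, zpow_neg]; rfl
      choose c hc h1 using hn.conj_x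
      have ne : ∀ {i j : Fin k}, (j : ℕ) = i + 1 → i ≠ j := fun h e => by rw [e] at h; omega
      rcases D.w_ρ with h | h
      · refine ⟨fun a => if h : a + 1 < k then c (D.ρ ⟨a, by omega⟩ ⟨a + 1, h⟩) else 1,
          fun a => by dsimp only; split_ifs <;> simp [hc], Or.inl fun i j e => ?_⟩
        obtain ⟨j, hj⟩ := j
        obtain rfl : j = i + 1 := e
        have e : ((⟨i + 1, hj⟩ : Fin k) : ℕ) = i + 1 := rfl
        dsimp only
        rw [hψ _ _ (ne e), hψ _ _ (ne e), h1, h _ _ e, dif_pos hj]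
        congr 1; ring
      · refine ⟨fun a => if h : a + 1 < k then c (D.ρ ⟨a, by omega⟩ ⟨a + 1, h⟩) *
          ε ⟨a, by omega⟩ ⟨a + 1, h⟩ / ε ⟨a + 1, h⟩ ⟨a, by omega⟩ else 1,
          fun a => by dsimp only; split_ifs <;> simp [hc, hε], Or.inr fun i j e => ?_⟩
        obtain ⟨j, hj⟩ := j
        obtain rfl : j = i + 1 := e
        have e : ((⟨i + 1, hj⟩ : Fin k) : ℕ) = i + 1 := rfl
        dsimp only
        rw [hψ _ _ (ne e), hψ _ _ (ne e).symm, h1, h _ _ e, dif_pos hj]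
        have := hε _ _ (ne e).symm
        congr 1; field_simp)
  refine sqz_of (s := s) (C := {g | ∃ v ∈ E.V, ∃ u ∈ E.U, g = v * u})
    ⟨1, one_mem _, 1, one_mem _, by simp⟩ (fun g hg => ?_) ?_
  · obtain ⟨a, v, hv, u, hu, e⟩ := gauss_elts hF htop hc (by omega) hg E.H.one_mem
    exact ⟨a, v, hv, u, hu, by rw [e, mul_one]⟩
  rintro _ ⟨v, hv, u, hu, rfl⟩
  obtain ⟨p, hp, a, ha, rfl⟩ := V_dec E (f := f) D.dom hv
  obtain ⟨b, hb, q, hq, rfl⟩ := U_dec E (f := f) D.dom hu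
  have := hs p hp q hq D.i₀ a (E.XS_le.2 (fun r hr t => ?_) ha) b (E.XS_le.2 (fun r hr t => ?_) hb)
  · simpa only [mul_assoc] using this
  · obtain ⟨i, j, h1, h2, rfl⟩ := D.neg r hr.2 hr.1
    exact Subgroup.subset_closure ⟨i, j, (ε i j)⁻¹ * t, h1, h2, by
      rw [hψ i j h1, mul_inv_cancel_left₀ (hε i j h1)]⟩
  · obtain ⟨i, j, h1, h2, rfl⟩ := D.pos r hr.2 hr.1
    exact Subgroup.subset_closure ⟨i, j, (ε i j)⁻¹ * t, h1, h2, by
      rw [hψ i j h1, mul_inv_cancel_left₀ (hε i j h1)]⟩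

end H37.EG
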