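import Mathlib
import Cfsg.Agent.Base
import Cfsg.Agent.Lib.EG.LeviElts
import Cfsg.Agent.Lib.Stein3.CTA
import Cfsg.Agent.Lib.Stein3.Small

/-!
Steinberg elements of type `A` along a chain of roots.
-/

set_option autoImplicit false

namespace H37.EG

open H38 H63.St H63.St.SL
open scoped commutatorElement

/-- Steinberg elements from the relations through a base point. -/
def ofBase {n K G : Type*} [Field K] [Group G] (o : n) (x : n → n → K → G)
    (add : ∀ {i j}, i ≠ j → ∀ a b, x i j a * x i j b = x i j (a + b))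
    (c0 : ∀ {i j k l}, i ≠ j → k ≠ l → i ≠ l → j ≠ k → ∀ t u, Commute (x i j t) (x k l u))
    (c1 : ∀ {i j l}, i ≠ j → j ≠ l → i ≠ l → i = o ∨ j = o ∨ l = o →
      ∀ t u, ⁅x i j t, x j l u⁆ = x i l (t * u)) : PreStA n K G where
  x := x
  add := add
  c0 := c0
  c1 {i j l} h1 h2 h3 t u := by
    by_cases h : i = o ∨ j = o ∨ l = o
    · exact c1 h1 h2 h3 h t u
    push Not at h
    obtain ⟨a1, a2, a3⟩ := h
    have e1 := c1 a1 (Ne.symm a2) h1 (by simp) t 1
    have e2 := c1 (Ne.symm a2) h2 (Ne.symm a3) (by simp) 1 u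
    have e3 := c1 a1 (Ne.symm a3) h3 (by simp) t u
    have e4 := (c0 a1 h2 h3 (Ne.symm a2) t u).eq
    have e5 := (c0 (Ne.symm a3) h1 (Ne.symm a2) (Ne.symm h3) u t).inv_left.inv_right.eq
    have e6 := (c0 (Ne.symm a3) h3 (Ne.symm a3) (Ne.symm h3) u (t * u)).eq
    rw [mul_one] at e1
    rw [one_mul] at e2
    simp only [commutatorElement_def] at *
    generalize x i o t = a at *
    generalize x o j 1 = b at *
    generalize x o l u = c at *
    generalize x i l (t * u) = d at *
    generalize x i j t = e at *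
    generalize x j l u = g at *
    have e7 : g * b * g⁻¹ = c⁻¹ * b := by rw [← e2]; group
    have e8 : g * a * g⁻¹ = a := by rw [← e4]; group
    calc _ = e * ((g * b * g⁻¹) * (g * a * g⁻¹) * (g * b * g⁻¹)⁻¹ * (g * a * g⁻¹)⁻¹) := by
          rw [← e1]; group
      _ = e * (c⁻¹ * (a * b * a⁻¹ * b⁻¹)⁻¹) * (a * c * a⁻¹ * c⁻¹) * c := by rw [e7, e8]; group
      _ = c⁻¹ * (d * c) := by rw [e1, e3, e5]; group
      _ = d := by rw [← e6]; group

variable {ι l : Type} [Fintype l] [DecidableEq l] {R : RS ι l} {K G : Type*} [Field K] [Group G]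
  {E : Elts R K G}

lemma rel_elts {r s : ι} (h : s = R.neg r) {t : K} (ht : t ≠ 0) (u : K) :
    E.x r t * E.x s (-t⁻¹) * E.x r t * E.x r u * (E.x r t * E.x s (-t⁻¹) * E.x r t)⁻¹ =
      E.x s (-(t⁻¹ ^ 2 * u)) := by
  have := E.nconj r r t ht u
  rw [E.η_self, R.refl_self, R.pair_self] at this
  subst h
  refine this.trans ?_
  congr 1
  simp [zpow_neg, zpow_ofNat]

variable [Finite ι] [Finite K] [Finite G] (hF : E.Faith) (htop : E.Gp = ⊤) (hc : R.Connected)
  (h3 : E.R3) (hK : 9 ≤ Nat.card K) {m : ℕ} (D : LD R (m + 1))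
  (hn : ∀ i j, i ≠ j → D.ρ j i = R.neg (D.ρ i j))
include hF htop hc h3 hK hn

theorem sqz_small (hm : m ≤ 1) : SqZ G := by
  obtain ⟨ψ, hψ⟩ := exists_psi (m := m) (K := K) (G := G)
    { x i j := E.x (D.ρ i j)
      add _ := E.x_add _
      c0 := fun {i j k l} h1 h2 h3 h4 t u => by
        obtain ⟨rfl, rfl⟩ : i = k ∧ j = l := by omega
        rw [commute_iff_eq, E.x_add, E.x_add, add_comm t]
      c1 := fun {i j l} h1 h2 h3 => by omega }
    fun i j h _ t ht u => rel_elts (hn i j h) ht u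
  exact sqz_elts hF htop hc h3 hK D ψ (ε := fun _ _ => 1) (by simp) (by simpa using hψ)

theorem sqz_sl (hl : ∀ r, R.len r = 1)
    (h0 : ∀ i j k l, i ≠ j → k ≠ l → i ≠ l → j ≠ k → 0 ≤ R.pair (D.ρ i j) (D.ρ k l))
    (h1 : ∀ i j k, i ≠ j → j ≠ k → i ≠ k → R.pair (D.ρ i j) (D.ρ j k) = -1 ∧
      R.rt (D.ρ i k) = R.rt (D.ρ i j) + R.rt (D.ρ j k)) : SqZ G := by
  have anti : ∀ {r s}, R.pair r s = -1 → R.refl s r = R.refl r s ∧ (E.η s r : K) = -E.η r s :=
    fun {r s} h => by
      have h' : R.pair s r = -1 := by rw [H6.pair_comm_of_len ((hl r).trans (hl s).symm), h]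
      have e : R.refl s r = R.refl r s := R.rt_inj (by rw [R.rt_refl, R.rt_refl, h, h']; module)
      have h1 := H6.comm_eq_η hF hl h' 1 1
      rw [← commutatorElement_inv, H6.comm_eq_η hF hl h, ← E.x_neg, e] at h1
      exact ⟨e, by simpa using (hF.x_inj _ h1).symm⟩
  have h2 : ∀ {i j k}, i ≠ j → j ≠ k → i ≠ k → R.refl (D.ρ i j) (D.ρ j k) = D.ρ i k :=
    fun a b c => R.rt_inj (by rw [R.rt_refl, (h1 _ _ _ a b c).1, (h1 _ _ _ a b c).2]; module)
  let ε : Fin (m + 1) → Fin (m + 1) → K := fun i j =>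
    if i = 0 ∨ j = 0 then 1 else E.η (D.ρ i 0) (D.ρ 0 j)
  have hε : ∀ i j, ε i j * ε i j = 1 := fun i j => by
    simp only [ε]; split_ifs; exacts [one_mul _, E.η_cast_mul_self _ _]
  obtain ⟨ψ, hψ⟩ := exists_psi (m := m) (K := K) (G := G)
    (ofBase 0 (fun i j t => E.x (D.ρ i j) (ε i j * t)) (fun _ t u => by rw [E.x_add, mul_add])
      (fun a b c d t u => H6.commute_of_nonneg hl (h0 _ _ _ _ a b c d) _ _)
      fun {i j k} a b c h t u => by
        have p := (h1 _ _ _ a b c).1
        have q := E.η_cast_mul_self (D.ρ i j) (D.ρ j k)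
        have p' : R.pair (D.ρ j k) (D.ρ i j) = -1 := by
          rw [H6.pair_comm_of_len ((hl _).trans (hl _).symm), p]
        rw [H6.comm_eq_η hF hl p, h2 a b c]
        congr 1
        rcases h with rfl | rfl | rfl
        · simp only [ε, true_or, if_true, a.symm, c.symm, or_self, if_false]
          rw [hn _ _ a, ← h2 a b c, H6.η_neg_left hF (by
            rw [H6.pair_refl_right, R.pair_self, p]; decide), H6.η_refl hF (by rw [p]; decide)]
          linear_combination t * u * q
        · simp only [ε, true_or, or_true, if_true, a, b.symm, or_self, if_false]; ring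
        · simp only [ε, or_true, if_true, b, c, or_self, if_false]
          have e := (anti (h1 _ _ _ c b.symm a).1).2
          nth_rw 1 [hn _ _ b, ← h2 a b c] at e
          rw [← (anti p).1, H6.η_neg_left hF (by
            rw [H6.pair_refl_right, R.pair_self, p']; decide), H6.η_refl hF (by rw [p']; decide),
            (anti p).2, neg_neg, neg_inj] at e
          rw [← e]
          linear_combination t * u * q)
    fun i j h e t ht u => by
      have : ∀ i j : Fin (m + 1), (∀ k, k = i ∨ k = j) → ε i j = 1 := fun i j e =>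
        if_pos ((e 0).imp Eq.symm Eq.symm)
      simp only [PreStA.w, ofBase, this i j e, this j i fun k => (e k).symm, one_mul]
      exact rel_elts (hn i j h) ht u
  exact sqz_elts hF htop hc h3 hK D ψ (fun i j _ => left_ne_zero_of_mul_eq_one (hε i j)) hψ

end H37.EG
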