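import Mathlib
import Cfsg.Agent.Base
import Cfsg.Agent.Lib.EG.Psi
import Cfsg.Agent.Lib.Stein.EichSN

/-!
Radicals, diagonal elements and Levi subgroups in groups with Eichler transformations.
-/

set_option autoImplicit false

namespace H37.EG

open H63.St H63.St.Eich
open scoped commutatorElement

variable {m : ℕ} {K V G : Type*} [Field K] [AddCommGroup V] [Module K V] [Group G]
  {E : Eich m K V G} {s : Bool}

/-- The level of a root. -/
def lev (g : J m → ℤ) (r : PR s m) : ℤ := g ⬝ᵥ VC.vz r.1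

lemma lev_mk {g : J m → ℤ} (hg : ∀ a, g a.rev = -g a) {a b : J m} (h : Ok s s(a, b)) :
    lev g ⟨s(a, b), h⟩ = 2 * (g a + g b) := by
  simp [lev, VC.vz_mk, VC.E, hg]; ring

lemma lev_neg' (g : J m → ℤ) (r : PR s m) : lev (-g) r = -lev g r := by simp [lev]

lemma lev_itv {hs : s = false → 1 ≤ m} (g : J m → ℤ) {r r' k : PR s m}
    (h : k ∈ (VC s m hs).Itv r r') :
    ∃ a b c : ℤ, 0 < a ∧ 0 < b ∧ 0 < c ∧ c * lev g k = a * lev g r + b * lev g r' := by
  obtain ⟨a, b, c, ha, hb, hc, e⟩ := h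
  refine ⟨a, b, c, ha, hb, hc, ?_⟩
  have := congrArg (g ⬝ᵥ ·) e
  simp only [dotProduct_add, dotProduct_smul, smul_eq_mul] at this
  exact this

lemma lev_vneg {hs : s = false → 1 ≤ m} (g : J m → ℤ) (r : PR s m) :
    lev g ((VC s m hs).neg r) = -lev g r :=
  (congrArg (g ⬝ᵥ ·) ((VC s m hs).v_neg r)).trans (dotProduct_neg _ _)

lemma conj_lev (H : E.Hyp s) (g : J m → ℤ) {x p : G} (hx : x ∈ XS (E.X s) {r | lev g r = 0})
    (hp : p ∈ XS (E.X s) {r | lev g r < 0}) : x * p * x⁻¹ ∈ XS (E.X s) {r | lev g r < 0} := by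
  refine XS_conj_mem hx hp fun r hr x hx b hb => conj_mem_of_XS hb fun r' hr' y hy => ?_
  rw [show x * y * x⁻¹ = ⁅x, y⁆ * y by rw [commutatorElement_def, inv_mul_cancel_right]]
  refine mul_mem ?_ (mem_XS hr' hy)
  rw [Set.mem_ofPred_eq] at hr hr'
  refine XS_mono (fun k hk => ?_) (H.comm r r' (fun e => by rw [e] at hr; omega)
    (fun e => by rw [e, lev_vneg] at hr'; omega) x hx y hy)
  obtain ⟨a, b, c, ha, hb, hc, e⟩ := lev_itv g hk
  rw [Set.mem_ofPred_eq]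
  rw [hr] at e
  nlinarith

lemma fpf_lev (hσ : ∀ t, E.σ t = t) {g : J m → ℤ} (hg : ∀ a, g a.rev = -g a)
    (hb : ∀ a, g a ≤ 3) {τ : Kˣ} (hτ : ∀ n : ℤ, n ≠ 0 → n.natAbs ≤ 7 → τ ^ n ≠ 1) {z : G}
    (hz : E.Mono z (fun a => (τ ^ g a : Kˣ)) 1) (h0 : ∀ v ∈ E.V0, E.ρ z v = v) {p : G}
    (hp : p ∈ XS (E.X s) {r | lev g r < 0}) (e : Commute z p) : p = 1 := by
  have hb' : ∀ a, -3 ≤ g a := fun a => by have := hb a.rev; rw [hg] at this; omega
  have key : ∀ (i : ℤ) x, i ≤ 3 → -3 ≤ i → x ∈ E.Fl g i → E.ρ z x = ((τ ^ i : Kˣ) : K) • x →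
      E.ρ p x = E.ρ 1 x := fun i x h1 h2 hx h3 => by
    have a1 := E.tri g hg _ (fun a b h hr => by
      have : lev g _ < 0 := hr
      rw [lev_mk hg] at this; omega) hp i x hx
    have a2 : E.ρ z (E.ρ p x - x) = ((τ ^ i : Kˣ) : K) • (E.ρ p x - x) := by
      rw [map_sub, ← ρ_mul, e.eq, ρ_mul, h3, map_smul, smul_sub]
    have ne : ∀ j : ℤ, j < i → -3 ≤ j → ((τ ^ i : Kˣ) : K) - (τ ^ j : Kˣ) ≠ 0 := fun j a b h =>
      hτ (i - j) (by omega) (by omega) (by
        rw [zpow_sub, Units.ext (sub_eq_zero.1 h), mul_inv_cancel])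
    rw [map_one, Module.End.one_apply, ← sub_eq_zero]
    generalize E.ρ p x - x = y at *
    have a3 : y ∈ E.V0 := fun a => by
      by_cases h : i - 1 < g a.rev
      · simpa using a1.1 _ h
      have := E.ρ_B z y (E.e a)
      rw [a2, hz a, map_smul E.B, LinearMap.smul_apply, map_smulₛₗ, hσ] at this
      refine (mul_eq_zero_iff_left (ne (g a.rev) (by omega) (hb' _))).1 ?_
      simp only [hg, smul_eq_mul, zpow_neg, Equiv.Perm.coe_one, id] at this ⊢
      linear_combination (((τ ^ g a)⁻¹ : Kˣ) : K) * this - ((τ ^ i : Kˣ) : K) * E.B y (E.e a) *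
        (τ ^ g a).inv_mul
    by_cases h : i - 1 < 0
    · rw [← E.p0_V0 a3, a1.2 h]
    · rw [h0 y a3] at a2
      refine (smul_eq_zero.1 (?_ : _ • y = 0)).resolve_left (ne 0 (by omega) (by omega))
      rw [sub_smul, ← a2]; simp
  exact E.ext' (fun a => key _ _ (hb a) (hb' a) (E.e_mem_Fl le_rfl) (hz a))
    fun v hv => key 0 _ (by omega) (by omega) (E.V0_mem_Fl hv le_rfl) (by simpa using h0 v hv)

/-- The level function with first coordinate `A` and `n` coordinates `1`. -/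
def lv (m : ℕ) (A : ℤ) (n : ℕ) (a : J m) : ℤ :=
  if (a : ℕ) = 0 then A else if (a : ℕ) = 2 * m + 1 then -A else if (a : ℕ) ≤ n then 1 else
    if 2 * m + 1 ≤ a + n then -1 else 0

lemma lv_rev (A : ℤ) {n : ℕ} (h : n ≤ m) (a : J m) : lv m A n a.rev = -lv m A n a := by
  simp only [lv, Fin.val_rev]; split_ifs <;> omega

lemma exists_diag (hσ : ∀ t, E.σ t = t) (hm : 1 ≤ m) (τ : Kˣ) {A : ℤ} (hA : Even (A + m)) :
    ∃ z, E.Mono z (fun a => (τ ^ lv m A m a : Kˣ)) 1 ∧ ∀ v ∈ E.V0, E.ρ z v = v := by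
  let S : AddSubgroup (J m → ℤ) :=
    { carrier := {e | ∃ z, E.Mono z (fun a => (τ ^ e a : Kˣ)) 1 ∧ ∀ v ∈ E.V0, E.ρ z v = v}
      zero_mem' := ⟨1, by simpa using E.mono_one, by simp⟩
      add_mem' := by
        rintro a b ⟨x, h1, h2⟩ ⟨y, h3, h4⟩
        exact ⟨y * x, by simpa [zpow_add] using h3.mul h1, fun v hv => by
          rw [ρ_mul, h2 v hv, h4 v hv]⟩
      neg_mem' := by
        rintro a ⟨x, h1, h2⟩
        exact ⟨x⁻¹, by simpa using h1.inv, fun v hv => E.ρ_inv_eq (h2 v hv)⟩ }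
  have h1 : ∀ {a b}, In a b → VC.E a + VC.E b ∈ S := fun {a b} h => by
    obtain ⟨z, f, h1, h2, h3, h4, h5, -⟩ := E.exists_hL h τ.ne_zero
    refine ⟨z, ?_, h5⟩
    convert h1 using 2 with x
    rcases VC.in_cases a x with rfl | rfl | e
    · simp [VC.E, h2, h.ne, h.ne_rev, J.ne_rev]
    · simp [VC.E, h2, h1.rev_eq, hσ, h.rev_ne, h.ne, J.rev_ne]
    rcases VC.in_cases b x with rfl | rfl | e'
    · simp [VC.E, h3, hσ, e.1, e.2, J.ne_rev]
    · simp [VC.E, h3, h1.rev_eq, hσ, h.rev_ne', h.ne', J.rev_ne]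
    · simp [VC.E, h4 x e e', e.1, e.2, e'.1, e'.2]
  have h2 : ∀ n, n ≤ m → ∀ A : ℤ, Even (A + n) → lv m A n ∈ S := fun n => by
    induction n with
    | zero =>
      rintro - A ⟨c, hc⟩
      have h : In (0 : J m) ⟨1, by omega⟩ := by simp [In.iff]; omega
      convert S.zsmul_mem (add_mem (h1 h) (h1 h.rev)) c using 1
      funext x
      simp only [lv, VC.E, Pi.smul_apply, Pi.add_apply, Pi.sub_apply, Pi.single_apply, Fin.ext_iff,
        Fin.val_rev, Fin.val_zero, smul_eq_mul]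
      split_ifs <;> omega
    | succ n ih =>
      rintro hn A ⟨c, hc⟩
      have h : In (0 : J m) ⟨n + 1, by omega⟩ := by simp [In.iff]; omega
      convert add_mem (ih (by omega) (A - 1) ⟨c - 1, by omega⟩) (h1 h) using 1
      funext x
      simp only [lv, VC.E, Pi.add_apply, Pi.sub_apply, Pi.single_apply, Fin.ext_iff,
        Fin.val_rev, Fin.val_zero]
      split_ifs <;> omega
  exact h2 m le_rfl A hA

lemma exists_rev {k : Type*} [Field k] (N : E.SN k) : ∃ w f, E.Mono w f Fin.revPerm := by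
  have : ∀ n, n ≤ m + 1 → ∃ w f π, E.Mono w f π ∧ ∀ a, (π a : ℕ) =
      if (a : ℕ) < n ∨ 2 * m + 2 ≤ a + n then 2 * m + 1 - a else a := fun n => by
    induction n with
    | zero => exact fun _ => ⟨1, _, 1, E.mono_one, fun a => by simp⟩
    | succ n ih =>
      intro hn
      obtain ⟨w, f, π, h1, h2⟩ := ih (by omega)
      obtain ⟨f', h3⟩ := N.mono ⟨n, by omega⟩ 1 one_ne_zero
      refine ⟨_, _, _, h3.mul h1, fun a => ?_⟩
      simp only [Equiv.Perm.mul_apply, VC.τp_apply, VC.τ_val, h2]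
      split_ifs <;> omega
  obtain ⟨w, f, π, h1, h2⟩ := this _ le_rfl
  refine ⟨w, f, ?_⟩
  convert h1
  ext a
  rw [h2, if_pos (by omega), Fin.revPerm_apply, Fin.val_rev]
  omega

lemma commute_xl {a b c d : J m} (h : In a b) (h' : In c d) (h1 : a ≠ c.rev) (h2 : b ≠ c.rev)
    (h3 : a ≠ d.rev) (h4 : b ≠ d.rev) (t u : K) : Commute (E.xl a b t) (E.xl c d u) := by
  rw [E.xl_eq h']
  exact E.commute_T (E.adm_xl h' u) (by simp [E.ρ_xl h, E.e_B _ _ h1, E.e_B _ _ h2])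
    (by simp [E.ρ_xl h, E.e_B _ _ h3, E.e_B _ _ h4])

/-- The indices of the Levi subgroup. -/
def ιL (i : Fin m) : J m := ⟨i + 1, by omega⟩

lemma in_ιL {i j : Fin m} (h : i ≠ j) : In (ιL i) (ιL j) := by
  simp only [In.iff, ιL]; omega

variable (E) in
/-- The Steinberg elements of the Levi subgroup. -/
noncomputable def stL : PreStA (Fin m) K G where
  x i j t := E.xl (ιL i) (ιL j).rev (E.ε * (E.κ (ιL i).rev)⁻¹ * t)
  add _ a b := by rw [xl_add, mul_add]
  c0 h1 h2 h3 h4 t u := commute_xl (in_ιL h1).rev (in_ιL h2).rev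
    (by simp only [ne_eq, Fin.ext_iff, Fin.val_rev, ιL]; omega) (in_ιL h4).rev_ne_rev
    (by simpa using (in_ιL h3).ne) (by simp only [ne_eq, Fin.ext_iff, Fin.val_rev, ιL]; omega) _ _
  c1 {i j l} h1 h2 h3 t u := by
    have := E.c120 (in_ιL h1).rev (in_ιL h3).rev (in_ιL h2).rev.rev'
    rw [Fin.rev_rev] at this
    rw [this]
    congr 1
    have := E.κ_ne (ιL j).rev
    field_simp
    rw [pow_succ' _ 2, E.ε_sq, mul_one]

lemma stL_rel {i j : Fin m} (h : i ≠ j) (t : K) (ht : t ≠ 0) (u : K) :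
    (stL E).w i j t * (stL E).x i j u * ((stL E).w i j t)⁻¹ = (stL E).x j i (-(t⁻¹ ^ 2 * u)) := by
  simpa [sl2L, PreStA.w, stL] using (E.sl2L (in_ιL h.symm).rev).rel (-t) (by simpa using ht) (-u)

end H37.EG
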