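import Mathlib
import Cfsg.Agent.Base
import Cfsg.Agent.Lib.EG.Gauss
import Cfsg.Agent.Lib.Stein.PPrime

/-!
The Gauss decomposition with prescribed torus part for root group data with nodes of type `SL₂`.
-/

set_option autoImplicit false

namespace H37.EG

open H63.St

variable {Φ I : Type*} {R : Roots Φ I} {K G : Type*} [Field K] [Group G] [Finite Φ]

/-- The opposite datum. -/
def op (E : Pre R G) : Pre R G where
  X r := E.X (R.neg r)
  comm r s hr hs h x hx y hy := by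
    refine (XS_le.2 fun k hk => ?_ : XS E.X (R.Itv (R.neg r) (R.neg s)) ≤ _)
      (E.comm_mem' (R.neg_injective.ne h) (fun e => ?_) hx hy)
    · have := R.itv_neg _ _ _ hk
      rw [R.neg_neg, R.neg_neg] at this
      simpa [R.neg_neg, XS] using le_XS (X := fun r => E.X (R.neg r)) this
    · rw [R.neg_neg] at e
      exact (R.pos_neg s).1 (e ▸ hr) hs
  n := E.n
  n_acts i r x := by rw [← R.σ_neg]; exact E.n_acts i _ x

lemma op_U (E : Pre R G) : (op E).U = E.V := by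
  refine le_antisymm (XS_le.2 fun r hr => le_XS (X := E.X) ((R.not_pos_neg_iff r).2 hr))
    (XS_le.2 fun r hr => ?_)
  simpa [op, R.neg_neg, Pre.U] using le_XS (X := (op E).X) (S := {r | R.Pos r}) ((R.pos_neg r).2 hr)

variable {E : RGD R G} (N : ∀ i, Node E.toPre i K)

lemma eq_top_of_node (htop : E.Gp = ⊤) {A : Subgroup G} (h1 : ∀ i t, (N i).x t ∈ A)
    (h2 : ∀ i t, (N i).y t ∈ A) : A = ⊤ := by
  rw [eq_top_iff, ← htop, Pre.Gp, XS_le]
  rintro r -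
  obtain ⟨w, hw, i, rfl⟩ := R.exists_W_α r
  obtain ⟨L, rfl⟩ := Roots.exists_wp hw
  clear hw
  induction L with
  | nil =>
    intro x hx
    obtain ⟨t, rfl⟩ := ((N i).mem_y x).1 hx
    exact h2 i t
  | cons a L ih =>
    intro x hx
    have hn : (N a).w 1 ∈ A := mul_mem (mul_mem (h1 a _) (h2 a _)) (h1 a _)
    have h3 := ((N a).acts 1 one_ne_zero).inv_conj_mem hx
    rw [R.wp_cons, R.σ_inv, Equiv.Perm.mul_apply, R.σ_σ] at h3
    have := ih h3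
    simpa [mul_assoc] using mul_mem (mul_mem hn this) (inv_mem hn)

variable [Finite K]

lemma HT_eq_H0 (hF : E.Faith) : HT (fun i => (N i).toSL2Rel) Set.univ = E.H0 := by
  simp [HT, Pre.H0, fun i => (N i).T_eq hF]

/-- The Gauss datum of a root group datum. -/
def gdRGD (hF : E.Faith) (htop : E.Gp = ⊤)
    (hch : ∀ i j (c : Kˣ), ∃ d, Ch (N j).toSL2Rel ((N i).h c) d)
    (hc : ∀ T : Set I, T.Nonempty → Tᶜ.Nonempty → ∃ i ∈ T, ∃ j ∉ T,
      Adj (fun i => (N i).toSL2Rel) i j ∧ Adj (fun i => (N i).toSL2Rel) j i) : GD K G I where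
  S i := (N i).toSL2Rel
  U := E.V
  V := E.U
  U' := (op E.toPre).U'
  V' := E.U'
  Nn k n := ∃ w ∈ R.W, Acts E.X n w ∧ (R.Inv w).ncard = k
  x_mem i t := E.mem_V (R.not_pos_neg_α i) (((N i).mem_x _).2 ⟨t, rfl⟩)
  y_mem i t := E.mem_U (R.pos_α i) (((N i).mem_y _).2 ⟨t, rfl⟩)
  U'_le i := op_U E.toPre ▸ (op E.toPre).U'_le_U i
  V'_le := E.U'_le_U
  U_dec i u hu := by
    obtain ⟨x, hx, a, ha, rfl⟩ := (op E.toPre).exists_mul_U i (op_U E.toPre ▸ hu)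
    obtain ⟨t, rfl⟩ := ((N i).mem_x x).1 hx
    exact ⟨t, a, ha, rfl⟩
  V_dec i u hu := by
    obtain ⟨a, ha, x, hx, rfl⟩ := E.exists_mul_U' i hu
    obtain ⟨t, rfl⟩ := ((N i).mem_y x).1 hx
    exact ⟨t, a, ha, rfl⟩
  xU i t _ := (op E.toPre).conj_mem_U' (((N i).mem_x _).2 ⟨t, rfl⟩)
  yU i t _ := Pre.neg_conj_mem_U' (E := op E.toPre) (by
    simpa [op, R.neg_neg] using ((N i).mem_y _).2 ⟨t, rfl⟩)
  xV i t _ := Pre.neg_conj_mem_U' (((N i).mem_x _).2 ⟨t, rfl⟩)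
  yV i t _ := E.conj_mem_U' (((N i).mem_y _).2 ⟨t, rfl⟩)
  ch := hch
  conn := hc
  gen _ := eq_top_of_node N htop
  swap := by
    obtain ⟨w, hw, h⟩ := R.exists_w0
    obtain ⟨n, hn⟩ := E.exists_acts hw
    exact ⟨n, fun _ => hn.conj_mem_XS (S := {r | ¬ R.Pos r}) (T := {r | R.Pos r})
      fun s hs => (h s).2 hs, fun _ => hn.conj_mem_XS (S := {r | R.Pos r}) (T := {r | ¬ R.Pos r})
        fun s hs h' => (h s).1 h' hs⟩
  disj g h h' := hF g h' h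
  bru g := by
    obtain ⟨w, hw, h⟩ := R.exists_w0
    obtain ⟨n, hn⟩ := E.exists_acts hw
    obtain ⟨u, hu, t, ht, L, u', hu', e⟩ := E.bruhat (g := g * n) (htop ▸ Subgroup.mem_top _)
    refine ⟨u, hu, _, t * E.nw L * n⁻¹, ⟨_, mul_mem (mul_mem R.W.one_mem (R.wp_mem_W L)) (inv_mem hw),
      (Acts.mul (Pre.H0_le_torus ht) (E.acts_nw L)).mul hn.inv, rfl⟩, n * u' * n⁻¹,
      hn.conj_mem_XS (S := {r | R.Pos r}) (T := {r | ¬ R.Pos r}) (fun s hs h' => (h s).1 h' hs) hu', ?_⟩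
    rw [← eq_mul_inv_iff_mul_eq] at e
    rw [e]; group
  step := by
    rintro _ n ⟨w, hw, hn, rfl⟩
    by_cases h : ∀ i, R.Pos (w (R.α i))
    · obtain ⟨L, rfl⟩ := Roots.exists_wp hw
      have h1 : n * (E.nw L)⁻¹ ∈ E.H0 := E.mem_H0 hF (htop ▸ Subgroup.mem_top _) (by
        simpa [mem_torus] using hn.mul (E.acts_nw L).inv)
      exact Or.inl (HT_eq_H0 N hF ▸ by simpa using mul_mem h1 (E.nw_mem_H0 h))
    push Not at h
    obtain ⟨i, hi⟩ := h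
    refine Or.inr ⟨i, fun t => ?_, _, ?_, _, mul_mem hw (R.σ_mem_W i),
      hn.mul ((N i).acts 1 one_ne_zero), rfl⟩
    · refine E.mem_U ?_ (hn.conj_mem (((N i).mem_x _).2 ⟨t, rfl⟩))
      rwa [Roots.W_neg hw, R.pos_neg]
    · have := Roots.ncard_Inv_mul_σ hw hi
      omega

/-- Ellers–Gordeev for root group data. -/
theorem gauss_rgd [Finite I] (hF : E.Faith) (htop : E.Gp = ⊤)
    (hch : ∀ i j (c : Kˣ), ∃ d, Ch (N j).toSL2Rel ((N i).h c) d)
    (hc : ∀ T : Set I, T.Nonempty → Tᶜ.Nonempty → ∃ i ∈ T, ∃ j ∉ T,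
      Adj (fun i => (N i).toSL2Rel) i j ∧ Adj (fun i => (N i).toSL2Rel) j i)
    (hK : 7 ≤ Nat.card K) {g h : G} (hg : g ∉ Subgroup.center G) (hh : h ∈ E.H0) :
    ∃ a, ∃ u ∈ E.U, ∃ v ∈ E.V, a * g * a⁻¹ = u * h * v :=
  GD.gauss (D := gdRGD N hF htop hch hc) hK (HT_eq_H0 N hF ▸ hh : h ∈ HT _ Set.univ) hg

end H37.EG
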