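import Mathlib
import Cfsg.Agent.Base
import Cfsg.Agent.Lib.EG.EichLev
import Cfsg.Agent.Lib.EG.GaussRGD

/-!
The square of a conjugacy class in split groups of types `B` and `C`.
-/

set_option autoImplicit false

namespace H37.EG

open H63.St H63.St.Eich H63.St.SL

variable {m : ℕ} {K V G : Type*} [Field K] [AddCommGroup V] [Module K V] [Group G]
  {E : Eich m K V G} (hσ : ∀ t, E.σ t = t)

include hσ in
lemma ch_L {a b : J m} (h : In a b) {g : G} {f : J m → K} (hg : E.Mono g f 1) {d : Kˣ}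
    (e : f a * f b = (d⁻¹ : Kˣ)) : Ch (E.sl2L h) g d := by
  refine ⟨fun t => (hg.conj_xl h.symm.rev.rev' _).trans ?_, fun t => (hg.conj_xl h _).trans ?_⟩
  · rw [hg.rev_eq, hg.rev_eq, hσ, hσ, hσ, ← mul_inv_rev, e]
    exact congrArg (E.xl _ _) (by simp; ring)
  · rw [hσ, e]
    exact congrArg (E.xl _ _) (by ring)

include hσ in
lemma mono_hL {a b : J m} (h : In a b) (c : Kˣ) : ∃ f, E.Mono ((E.sl2L h).h c) f 1 ∧
    f a.rev = c ∧ f b.rev = c ∧ (∀ x, In a x → In b x → f x = 1) ∧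
    ∀ v ∈ E.V0, E.ρ ((E.sl2L h).h c) v = v := by
  have h1 := (E.mono_wL h c.ne_zero).mul (E.mono_wL h one_ne_zero).inv
  rw [mul_inv_cancel] at h1
  have k1 := E.κ_ne a
  have k2 := E.κ_ne b.rev
  refine ⟨_, h1, ?_, ?_, fun x h2 h3 => ?_, fun v hv => ?_⟩
  · simp [fL, h.ne']
  · simp [fL, hσ]; field_simp
  · simp [fL, VC.τ_in h2 h3, h2.1, h2.2, h3.1, h3.2]
  · have := fun t => E.ρ_wL_of_perp h t (hv _) (hv _) (hv _) (hv _)
    exact (E.ρ_mul _ _ _).trans (by rw [sl2L_w, sl2L_w, E.ρ_inv_eq (this 1), this])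

/-- The characters of a short node. -/
structure SD (N : E.SN K) : Prop where
  ch : ∃ k : ℤ, k ≠ 0 ∧ k.natAbs ≤ 3 ∧ ∀ a g f (c : Kˣ), E.Mono g f 1 →
    (∀ v ∈ E.V0, E.ρ g v = v) → f a = c → Ch (N.R a) g (c ^ k)
  h : ∃ k : ℤ, k ≠ 0 ∧ k.natAbs ≤ 3 ∧ ∀ a (c : Kˣ), ∃ f, E.Mono ((N.R a).h c) f 1 ∧
    f a = (c ^ k : Kˣ)

lemma inα (i : Fin m) : In (VC.α1 true i.castSucc) (VC.α2 i.castSucc) :=
  in_α (by simp) (Or.inr (Fin.castSucc_ne_last i))

/-- The nodes. -/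
noncomputable def nd (N : E.SN K) (H : E.Hyp true) : ∀ i, Node H.rgd.toPre i K :=
  Fin.lastCases (N.node H) fun i => H.nodeL i.castSucc (inα i)

variable {N : E.SN K} (D : SD N) (H : E.Hyp true)

lemma nd_last : (nd N H (Fin.last m)).toSL2Rel = N.R (VC.α2 (Fin.last m)) := by simp [nd, SN.node]

lemma nd_cs (i : Fin m) : (nd N H i.castSucc).toSL2Rel = E.sl2L (inα i) := by simp [nd, Hyp.nodeL]

include hσ D

lemma nd_ch (i j : Fin (m + 1)) (c : Kˣ) :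
    ∃ d, Ch (nd N H j).toSL2Rel ((nd N H i).h c) d := by
  have k : ∀ (j : Fin m) g f, E.Mono g f 1 → ∃ d, Ch (E.sl2L (inα j)) g d := fun j g f h =>
    ⟨(Units.mk0 _ (mul_ne_zero (h.ne _) (h.ne _)))⁻¹, ch_L hσ _ h rfl⟩
  induction i using Fin.lastCases <;> induction j using Fin.lastCases <;> simp only [nd_last, nd_cs]
  · exact ⟨_, ch_h _ c⟩
  · obtain ⟨f, h, -⟩ := N.mono_h _ c.ne_zero
    exact k _ _ _ h
  · obtain ⟨f, h, -, -, -, h0⟩ := mono_hL hσ (inα _) c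
    obtain ⟨k, -, -, h1⟩ := D.ch
    exact ⟨_, h1 _ _ _ (Units.mk0 _ (h.ne _)) h h0 rfl⟩
  · obtain ⟨f, h, -⟩ := mono_hL hσ (inα _) c
    exact k _ _ _ h

lemma nd_adj (i : Fin m) : Adj (fun i => (nd N H i).toSL2Rel) i.castSucc i.succ ∧
    Adj (fun i => (nd N H i).toSL2Rel) i.succ i.castSucc := by
  rcases Fin.eq_castSucc_or_eq_last i.succ with ⟨j, hj⟩ | hj <;> rw [hj] <;>
    simp only [Adj, nd_last, nd_cs] <;>
    simp only [Fin.ext_iff, Fin.val_succ, Fin.val_castSucc, Fin.val_last] at hj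
  · have e : (VC.α2 i.castSucc).rev = VC.α1 true j.castSucc := by
      simp [Fin.ext_iff, VC.α1_val, VC.α2_val]; omega
    refine ⟨⟨-1, by simp, by simp, fun c => ?_⟩, -1, by simp, by simp, fun c => ?_⟩
    · obtain ⟨f, h, -, h2, h3, -⟩ := mono_hL hσ (inα i) c
      refine ch_L hσ _ h ?_
      rw [← e, h2, h3 _ (by simp [In.iff, VC.α1_val, VC.α2_val]; omega)
        (by simp [In.iff, VC.α2_val]; omega)]; simp
    · obtain ⟨f, h, h2, -, h3, -⟩ := mono_hL hσ (inα j) c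
      refine ch_L hσ _ h ?_
      rw [← e, Fin.rev_rev] at h2
      rw [h2, h3 _ (by simp [In.iff, VC.α1_val]; omega)
        (by simp [In.iff, VC.α1_val, VC.α2_val]; omega)]; simp
  · have e : (VC.α2 i.castSucc).rev = VC.α2 (Fin.last m) := by
      simp [Fin.ext_iff, VC.α2_val]; omega
    obtain ⟨k, k1, k2, h1⟩ := D.ch
    obtain ⟨l, l1, l2, h2⟩ := D.h
    refine ⟨⟨k, k1, k2, fun c => ?_⟩, l, l1, l2, fun c => ?_⟩
    · obtain ⟨f, h, -, h2, -, h0⟩ := mono_hL hσ (inα i) c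
      exact h1 _ _ _ _ h h0 (e ▸ h2)
    · obtain ⟨f, h, h3⟩ := h2 (VC.α2 (Fin.last m)) c
      refine ch_L hσ _ h ?_
      rw [h.eq_one (S_le_Fix (by simp [In.iff, VC.α1_val, VC.α2_val]; omega) (N.h_mem _ _)),
        ← (VC.α2 i.castSucc).rev_rev, h.rev_eq, e, h3, hσ]; simp

theorem gauss_eich [Finite K] (htop : H.rgd.Gp = ⊤) (hK : 7 ≤ Nat.card K) {g : G}
    (hg : g ∉ Subgroup.center G) : ∃ a, ∃ u ∈ H.rgd.U, ∃ v ∈ H.rgd.V, a * g * a⁻¹ = u * v := by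
  simpa using gauss_rgd (nd N H) H.faith htop (nd_ch hσ D H) (fun T ⟨a, ha⟩ ⟨b, hb⟩ => by
    by_contra! hn
    have : ∀ i, i ∈ T ↔ 0 ∈ T := fun i => by
      induction i using Fin.induction with
      | zero => rfl
      | succ i ih =>
        have := nd_adj hσ D H i
        rw [← ih]
        exact ⟨fun h => by_contra fun h' => hn _ h _ h' this.2 this.1,
          fun h => by_contra fun h' => hn _ h _ h' this.1 this.2⟩
    exact hb ((this b).2 ((this a).1 ha))) hK hg (one_mem _)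

omit hσ D in
lemma lev_dec {g : J m → ℤ} {S : Set (PR true m)} (hS : ∀ r ∈ S, lev g r ≤ 0) {u : G}
    (hu : u ∈ XS (E.X true) S) :
    u ∈ XS (E.X true) {r | r ∈ S ∧ lev g r = 0} ⊔ XS (E.X true) {r | lev g r < 0} := by
  rw [← XS_union]
  refine XS_mono (fun r hr => ?_) hu
  rcases (hS r hr).eq_or_lt with h | h
  exacts [Or.inl ⟨hr, h⟩, Or.inr h]

omit hσ D in
lemma lev_zero {A : ℤ} (hA : 2 ≤ A) {a b : J m} (h : Ok true s(a, b))
    (e : lev (lv m A m) ⟨_, h⟩ = 0) : ∃ i j, i ≠ j ∧ s(a, b) = s(ιL i, (ιL j).rev) := by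
  have k : ∀ a b : J m, 0 < a.1 → a.1 ≤ m → m < b.1 → b.1 ≤ 2 * m → a.1 + b ≠ 2 * m + 1 →
      ∃ i j, i ≠ j ∧ s(a, b) = s(ιL i, (ιL j).rev) := fun a b _ _ _ _ _ =>
    ⟨⟨a - 1, by omega⟩, ⟨2 * m - b, by omega⟩, by simp; omega, by
      simp only [Sym2.eq_iff, Fin.ext_iff, Fin.val_rev, ιL]; omega⟩
  rw [lev_mk (lv_rev A le_rfl)] at e
  have := (VC.ok_val.1 h).1
  by_cases h1 : a.1 ≤ m
  · refine k a b ?_ h1 ?_ ?_ this <;> simp only [lv] at e <;> split_ifs at e <;> omega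
  · rw [Sym2.eq_swap]
    refine k b a ?_ ?_ ?_ ?_ (by omega) <;> simp only [lv] at e <;> split_ifs at e <;> omega

omit hσ D in
lemma exists_seq {k : ℕ} {P : Fin k → Fin k → K → Prop} (h : ∀ i j, i ≠ j → ∃ c, c ≠ 0 ∧ P i j c) :
    ∃ c : ℕ → K, (∀ n, c n ≠ 0) ∧ ∀ i j : Fin k, (j : ℕ) = i + 1 → P i j (c i) := by
  have : ∀ n : ℕ, ∃ c : K, c ≠ 0 ∧ ∀ i j : Fin k, (i : ℕ) = n → (j : ℕ) = i + 1 → P i j c := fun n => by
    by_cases e : n + 1 < k
    · obtain ⟨c, h1, h2⟩ := h ⟨n, by omega⟩ ⟨n + 1, e⟩ (by simp)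
      exact ⟨c, h1, fun i j a b => by convert h2 <;> simp [a, b]⟩
    · exact ⟨1, one_ne_zero, fun i j a b => by omega⟩
  choose c h1 h2 using this
  exact ⟨c, h1, fun i j => h2 _ i j rfl⟩

end H37.EG

namespace H37.EG

open H63.St H63.St.Eich H63.St.SL

theorem sqz_eich {n : ℕ} {K V G : Type*} [Field K] [AddCommGroup V] [Module K V] [Group G]
    {E : Eich (n + 1) K V G} [Finite K] [Finite G] (hσ : ∀ t, E.σ t = t) {N : E.SN K} (D : SD N)
    (H : E.Hyp true) (htop : H.rgd.Gp = ⊤) (hK : 9 ≤ Nat.card K) : SqZ G := by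
  obtain ⟨τ, hτ⟩ := exists_order hK
  obtain ⟨ψ, hψ⟩ := exists_psi (stL E) fun i j h _ => stL_rel h
  obtain ⟨A, hA, hA', hA2⟩ : ∃ A : ℤ, 2 ≤ A ∧ A ≤ 3 ∧ Even (A + (n + 1 : ℕ)) :=
    ⟨3 - n % 2, by omega, by omega, Int.even_iff.2 (by omega)⟩
  obtain ⟨z, hz, z0⟩ := exists_diag hσ (by omega) τ hA2
  have hg := lv_rev (m := n + 1) A le_rfl
  have hι : ∀ i, lv (n + 1) A (n + 1) (ιL i) = 1 := fun i => by
    have : ((ιL i : J (n + 1)) : ℕ) = i + 1 := rfl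
    simp only [lv]; split_ifs <;> omega
  have hb : ∀ a, lv (n + 1) A (n + 1) a ≤ 3 := fun a => by simp only [lv]; split_ifs <;> omega
  have hd : ∀ (a b : J (n + 1)) h, (a : ℕ) + b ≤ 2 * (n + 1) →
      0 ≤ lev (s := true) (lv (n + 1) A (n + 1)) ⟨s(a, b), h⟩ := fun a b h e => by
    rw [lev_mk hg]; simp only [lv]; split_ifs <;> omega
  have hd' : ∀ (a b : J (n + 1)) h, ¬ (a : ℕ) + b ≤ 2 * (n + 1) →
      lev (s := true) (lv (n + 1) A (n + 1)) ⟨s(a, b), h⟩ ≤ 0 := fun a b h e => by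
    have := (VC.ok_val.1 h).1
    rw [lev_mk hg]; simp only [lv]; split_ifs <;> omega
  have h00 := fun {a b} h => lev_zero (m := n + 1) hA (a := a) (b := b) h
  generalize lv (n + 1) A (n + 1) = g at *
  have dg : ∀ {x f}, E.Mono x f 1 → ∀ i j, i ≠ j → ∀ t, x * ψ (tv i j t) * x⁻¹ =
      ψ (tv i j (f (ιL i) * (f (ιL j))⁻¹ * t)) := fun h i j e t => by
    rw [hψ i j e, hψ i j e]
    refine (h.conj_xl (in_ιL e).rev _).trans ?_
    rw [h.rev_eq, hσ, hσ]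
    exact congrArg (E.xl _ _) (by ring)
  have h0 : ∀ B, ψ B ∈ XS (E.X true) {r | lev g r = 0} := psi_mem ψ fun i j h t =>
    hψ i j h t ▸ mem_XS (r := ⟨_, (in_ιL h).rev.ok⟩) (by simp [lev_mk hg, hg, hι])
      ((E.Xz_L (in_ιL h).rev).ge (E.xl_mem _ _ _))
  have h0' : {r : PR true (n + 1) | lev (-g) r = 0} = {r | lev g r = 0} := by simp [lev_neg']
  have zt := Dg_le_torus true ⟨_, hz⟩
  obtain ⟨s, hs⟩ := levi ψ (z := z) (P := XS (E.X true) {r | lev (-g) r < 0})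
    (Q := XS (E.X true) {r | lev g r < 0})
    (fun B => (Subgroup.mem_centralizer_singleton_iff.1 (psi_mem ψ
      (A := Subgroup.centralizer {z}) (fun i j h t => by
        have := dg hz i j h t
        rw [hι, hι, Units.mul_inv', one_mul, mul_inv_eq_iff_eq_mul] at this
        rw [Subgroup.mem_centralizer_singleton_iff, this]) B)).symm)
    (fun a => by
      have h1 : ∀ i, In (0 : J (n + 1)) (ιL i) := fun i => by simp [In.iff, ιL]; omega
      obtain ⟨x, f, hx, -, h2, h3, h4, -⟩ := E.exists_hL (h1 0) a.ne_zero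
      refine ⟨x, commute_Dg ⟨_, hx⟩ ⟨_, hz⟩ fun v hv => by simp [h4 v hv, z0 v hv],
        fun i => Units.mk0 _ (hx.ne (ιL i)), Units.ext ?_, fun i j h t => by simpa using dg hx i j h t⟩
      rw [Finset.prod_eq_single 0 (fun i _ h => Units.ext (h3 _ (h1 i) (in_ιL h.symm))) (by simp)]
      exact h2.trans (hσ _))
    (by omega) (E.ext' (fun a => by
      have : ∀ k : ℕ, E.ρ (z ^ k) (E.e a) = (((τ ^ g a) ^ k : Kˣ) : K) • E.e a := fun k => by
        induction k with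
        | zero => simp
        | succ k ih => rw [pow_succ', ρ_mul, ih, map_smul, hz a, smul_smul, pow_succ]; rfl
      rw [this, units_pow_card, hz a]; rfl) fun v hv => by
        rw [z0 v hv]; exact (E.Fix v).pow_mem (z0 v hv) _)
    (fun B p => conj_lev H _ (h0' ▸ h0 B)) (fun B p => conj_lev H _ (h0 B))
    (fun p => Acts.conj_mem_XS zt fun _ h => h) (fun p => Acts.inv_conj_mem_XS zt fun _ h => h)
    (fun p => fpf_lev hσ (τ := τ⁻¹) (by simp [hg]) (fun a => by simpa [hg] using hb a.rev)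
      (by simpa using hτ) (by simpa using hz) z0)
    (fun p => fpf_lev hσ hg hb hτ hz z0)
    (by
      obtain ⟨w, f, hw⟩ := exists_rev N
      refine ⟨w, E.ext' (fun a => ?_) fun v hv => ?_, ?_⟩
      · rw [((hw.mul hz).mul hw.inv) a, hz.inv a]
        have := hw.ne a.rev
        simp [hg]; congr 1; field_simp
      · rw [ρ_mul, ρ_mul, z0 _ (hw.inv.mem_V0 hv), E.ρ_inv_eq (z0 v hv), ρ_ρ_inv]
      refine (exists_seq (P := fun i j c => w * ψ (tv i j 1) * w⁻¹ = ψ (tv j i c))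
        fun i j h => ⟨-(E.κ (ιL j).rev * (f (ιL i) * f (ιL j).rev * (E.ε * (E.κ (ιL i).rev)⁻¹))),
          by simp [E.κ_ne, E.ε_ne, hw.ne], ?_⟩).imp fun c h => ⟨h.1, Or.inr h.2⟩
      rw [hψ i j h, hψ j i h.symm]
      refine (hw.conj_xl (in_ιL h).rev _).trans ((E.xl_swap _ _ _).trans ?_)
      have := E.κ_ne (ιL j).rev
      simp only [hσ, Fin.revPerm_apply, Fin.rev_rev]
      exact congrArg (E.xl _ _) (by field_simp))
  refine sqz_of (s := s) (C := {x | ∃ u ∈ H.rgd.U, ∃ v ∈ H.rgd.V, x = u * v})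
    ⟨1, one_mem _, 1, one_mem _, by simp⟩ (fun x hx => gauss_eich hσ D H htop (by omega) hx) ?_
  rintro _ ⟨u, hu, v, hv, rfl⟩
  obtain ⟨p, hp, a, ha, rfl⟩ := exists_mul_of_mem_sup'
    (fun x hx y => conj_lev H _ (XS_mono (fun _ h => h.2) hx))
    (lev_dec (g := -g) (VC.ind fun a b h e => by
      simpa [lev_neg'] using hd a b h ((VC.pos_iff h).1 e)) hu)
  obtain ⟨b, hb, q, hq, rfl⟩ := exists_mul_of_mem_sup
    (fun x hx y => conj_lev H _ (XS_mono (fun _ h => h.2) hx))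
    (lev_dec (g := g) (VC.ind fun a b h e => hd' a b h (mt (VC.pos_iff h).2 e)) hv)
  have key : ∀ {i j}, i ≠ j → ∀ x ∈ E.Xz s(ιL i, (ιL j).rev), ∃ t, x = ψ (tv i j t) :=
    fun {i j} h x hx => by
      obtain ⟨t, rfl⟩ := (E.Xz_L (in_ιL h).rev).le hx
      refine ⟨E.ε * E.κ (ιL i).rev * t, (congrArg (E.xl _ _) ?_).trans (hψ i j h _).symm⟩
      have := E.κ_ne (ιL i).rev
      field_simp; rw [E.ε_sq, mul_one]
  have := hs p hp q hq (Fin.last n) a (XS_le.2 (VC.ind fun c d h hr x hx => ?_) ha)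
    b (XS_le.2 (VC.ind fun c d h hr x hx => ?_) hb)
  · simpa only [mul_assoc] using this
  · obtain ⟨i, j, h1, h2⟩ := h00 h (by simpa [lev_neg'] using hr.2)
    obtain ⟨t, rfl⟩ := key h1 x (h2 ▸ hx)
    have := (VC.pos_iff h).1 hr.1
    simp only [Sym2.eq_iff, Fin.ext_iff, Fin.val_rev, ιL] at h2
    exact Subgroup.subset_closure ⟨i, j, t, h1, by rw [ne_eq, Fin.ext_iff, Fin.val_last]; omega, rfl⟩
  · obtain ⟨i, j, h1, h2⟩ := h00 h hr.2
    obtain ⟨t, rfl⟩ := key h1 x (h2 ▸ hx)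
    have := mt (VC.pos_iff h).2 hr.1
    simp only [Sym2.eq_iff, Fin.ext_iff, Fin.val_rev, ιL] at h2
    exact Subgroup.subset_closure ⟨i, j, t, h1, by rw [ne_eq, Fin.ext_iff, Fin.val_last]; omega, rfl⟩

end H37.EG
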