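import Mathlib
import Cfsg.Agent.Base
import Cfsg.Agent.Lib.EG.EichSq
import Cfsg.Agent.Lib.Stein.OrthM

/-!
`Sp_{2m}(q)` and `Ω_{2m+1}(q)`, `q ≥ 9`, are squares of a conjugacy class away from the centre.
-/

set_option autoImplicit false

namespace H37.EG

open H63.St H63.St.Eich

section

variable {m : ℕ} {K V G : Type*} [Field K] [AddCommGroup V] [Module K V] [Group G]
  {E : Eich m K V G} (hσ : ∀ t, E.σ t = t)
include hσ

lemma sd_A (A : E.SNA K) (hι : ∀ s, A.ι s = s) : SD A.sn where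
  ch := ⟨-2, by simp, by simp, fun a g f c h _ e => ⟨fun t => by
    refine (h.conj_T (A.P' a t) _).trans ?_
    simp [SNA.sn, SNA.R, h.rev_eq, hσ, e, hι, zpow_ofNat, sq, mul_assoc], fun t => by
    refine (h.conj_T (A.P t) _).trans ?_
    simp [SNA.sn, SNA.R, hσ, e, hι, zpow_ofNat, sq, mul_assoc]⟩⟩
  h := ⟨-1, by simp, by simp, fun a c =>
    (A.exists_h a c.ne_zero).imp fun f h => ⟨h.1, by simpa [hι] using h.2.1⟩⟩

lemma sd_B (A : E.SNB K) (hτ : ∀ s, A.τ s = s) : SD A.sn where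
  ch := ⟨-1, by simp, by simp, fun a g f c h h0 e => ⟨fun t => by
    refine (h.conj_T (A.P' a t) _).trans (A.T_eq _ (h.P (A.P' a t) _) (A.P' a _) ?_)
    rw [h0 _ (A.P' a t).1, h.rev_eq, smul_comm, A.smul_φ _ (A.τ t)]
    simp [hσ, hτ, e], fun t => by
    refine (h.conj_T (A.P t) _).trans (A.T_eq _ (h.P (A.P t) _) (A.P _) ?_)
    rw [h0 _ (A.P t).1, A.smul_φ]
    simp [hσ, e]⟩⟩
  h := ⟨-2, by simp, by simp, fun a c => by
    have k : ∀ t, t ≠ 0 → E.Mono ((A.R a).w t) (E.fS a (A.Q * A.N (-t⁻¹))) (VC.τp a a) :=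
      fun t ht => by
        rw [show (A.R a).w t = _ from A.w_eq a ht]
        exact (A.P _).mono_mS (A.ne (by simpa using ht)) a
    have := (k c c.ne_zero).mul (k 1 one_ne_zero).inv
    rw [mul_inv_cancel] at this
    refine ⟨_, this, ?_⟩
    have hN : ∀ s, A.N s = s * s := fun s => by simpa [hτ] using A.N_eq s
    have := A.Q_ne
    have := E.κ_ne a.rev
    simp [fS, J.rev_ne, hN, zpow_ofNat]; field_simp⟩

end

variable {F : Type*} [Field F] [Finite F] (hF : 9 ≤ Nat.card F)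
include hF

theorem sqz_Sp (n : ℕ) : SqZ (Matrix.symplecticGroup (Fin (n + 2)) F) :=
  sqz_eich (E := Sp.E (n + 1) F) (fun _ => rfl) (sd_A (fun _ => rfl) (Sp.A _ F) fun _ => rfl)
    (Sp.A _ F).hyp (Hyp.top _ (Sp.gen _ F) (by simp)) hF

open H12 in
theorem sqz_odd (h2 : (2 : F) ≠ 0) (n : ℕ) : SqZ (Cfsg.Omega F (Cfsg.quadFormOdd (n + 2) F)) := by
  have hQ := nondeg_sq h2
  have hn := Orth.finrank_hyp (F := F) (W := F) (n + 2)
  rw [Module.finrank_self] at hn
  have hG := good_of_finrank_ne (hQ.hypN (n + 2)) (by omega)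
  have hN : ∀ s, algebraMap F F (QuadraticMap.sq (R := F) s) = s * RingHom.id F s := fun s => by simp
  exact (sqz_eich (fun _ => rfl) (sd_B (fun _ => rfl) (Orth.A hQ _ (fun _ => rfl) hN hG) fun _ => rfl)
    _ (Orth.topB hQ _ (fun _ => rfl) hN hG) hF).of_equiv
    (commCongr ((oddIso F _).trans (congrO (oddEquiv F (n + 2)) (hypN_oddEquiv (n + 2))))).symm

end H37.EG
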