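import Mathlib
import Cfsg.Agent.Base
import Cfsg.Agent.Lib.EG.Chain
import Cfsg.Agent.Lib.ClChev.ClsD

/-!
`Ω⁺_{2m}(q)`, `q ≥ 9`, is the square of a conjugacy class away from the centre.
-/

set_option autoImplicit false

namespace H37.EG

open H38 H62.CC H62.CC.TD Matrix

lemma lev_sm {ι l J I : Type} [Fintype l] [DecidableEq l] [Fintype J] [Fintype I] [DecidableEq I]
    (M : SM ι l J I) (c : l → ℤ) (r : ι) : ∑ i, c i * M.rs.wt r i = M.vec c ⬝ᵥ M.v r := by
  change ∑ i, c i * ∑ j, M.rt r j * (M.v (M.sim i) ⬝ᵥ M.v (M.sim j)) = _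
  simp only [M.sum_dot, M.sum_dot', M.vec_rt]

variable {k : ℕ}

/-- The roots of the Levi subgroup of type `D`. -/
def ρD (k : ℕ) (i j : Fin (k + 1)) : PD (k + 2) :=
  if h : i < j then ⟨(.inr i.succ, .inl j.succ), by simpa using h⟩
  else if h : j < i then ⟨(.inl j.succ, .inr i.succ), by simpa using h⟩ else simD 0

lemma v_ρD {i j : Fin (k + 1)} (h : i ≠ j) :
    (smD k).v (ρD k i j) = Pi.single j.succ 1 - Pi.single i.succ 1 := by
  rcases lt_or_gt_of_ne h with h | h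
  · simp [ρD, h, smD, TD.wt, Pi.single_neg, neg_add_eq_sub]
  · simp [ρD, h, h.not_gt, smD, TD.wt, Pi.single_neg, sub_eq_add_neg]

lemma exists_lamD (k : ℕ) : ∃ c, (smD k).vec c = fun j => if j = 0 then 0 else 2 := by
  refine ⟨∑ i : Fin (k + 1), ((smD k).rt ⟨(.inl 0, .inl i.succ), by simp⟩ +
    (smD k).rt ⟨(.inr 0, .inl i.succ), by simp⟩), funext fun j => ?_⟩
  simp only [map_sum, map_add, SM.vec_rt]
  induction j using Fin.cases <;> simp [smD, TD.wt, Pi.single_apply, Finset.sum_add_distrib]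

lemma exists_wD (k : ℕ) : ∃ w ∈ (smD k).rs.W, ∃ σ : Fin (k + 2) → ℤ, (∀ i, σ (Fin.succ i) = -1) ∧
    ∀ r, (smD k).v (w r) = σ * (smD k).v r := by
  have : ∀ S : Finset (Fin (k + 1)), ∃ w ∈ (smD k).rs.W, ∃ σ : Fin (k + 2) → ℤ,
      (∀ i, σ (Fin.succ i) = if i ∈ S then -1 else 1) ∧ ∀ r, (smD k).v (w r) = σ * (smD k).v r :=
    fun S => by
      induction S using Finset.induction_on with
      | empty => exact ⟨1, one_mem _, 1, by simp, by simp⟩
      | insert i S hi ih =>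
        obtain ⟨w, hw, σ, h1, h2⟩ := ih
        refine ⟨_, mul_mem (mul_mem ((smD k).rs.refl_mem_W ⟨(.inl 0, .inl i.succ), by simp⟩)
          ((smD k).rs.refl_mem_W ⟨(.inr 0, .inl i.succ), by simp⟩)) hw,
          fun j => if j = 0 ∨ j = i.succ then -σ j else σ j, fun j => ?_, fun r => funext fun j => ?_⟩
        · by_cases e : j = i <;> simp [h1, e, hi]
        · rw [Equiv.Perm.mul_apply, Equiv.Perm.mul_apply, SM.v_refl, SM.v_refl, h2]
          generalize (smD k).v r = x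
          simp only [smD, TD.wt, idx_inl, idx_inr, sg_inl, sg_inr, add_dotProduct, single_dotProduct,
            Pi.sub_apply, Pi.smul_apply, Pi.add_apply, Pi.mul_apply, Pi.single_apply, smul_eq_mul,
            Fin.succ_ne_zero, (Fin.succ_ne_zero i).symm, if_true, if_false]
          by_cases a : j = 0
          · simp [a, (Fin.succ_ne_zero i).symm]
          · by_cases b : j = i.succ <;> simp [a, b]
  simpa using this Finset.univ

lemma zeroD {r : PD (k + 2)} (h : (fun j => if j = 0 then 0 else 2) ⬝ᵥ (smD k).v r = 0) :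
    ∃ i j, i ≠ j ∧ r = ρD k i j ∧ ((smD k).rs.Pos r ↔ i < j) := by
  have : ∃ i j, i ≠ j ∧ r = ρD k i j := by
    obtain ⟨⟨a | a, b | b⟩, e⟩ := r <;> simp only [idx_inl, idx_inr] at e <;>
      obtain ⟨b, rfl⟩ := Fin.exists_succ_eq.2 (Fin.ne_zero_of_lt e) <;>
      induction a using Fin.cases <;> simp [smD, TD.wt] at h
    · exact ⟨b, _, (Fin.succ_lt_succ_iff.1 e).ne', by
        simp [ρD, Fin.succ_lt_succ_iff.1 e, (Fin.succ_lt_succ_iff.1 e).not_gt]⟩
    · exact ⟨_, b, (Fin.succ_lt_succ_iff.1 e).ne, by simp [ρD, Fin.succ_lt_succ_iff.1 e]⟩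
  obtain ⟨i, j, e, rfl⟩ := this
  refine ⟨i, j, e, rfl, ?_⟩
  rw [SM.pos_iff, v_ρD e]
  simp [smD]

theorem sqz_D {K : Type*} [Field K] [Finite K] (hK : 9 ≤ Nat.card K) (hk : 1 ≤ k) :
    SqZ ((smD k).elts K).Gp := by
  obtain ⟨c, hc⟩ := exists_lamD k
  obtain ⟨w, hw, σ, h1, h2⟩ := exists_wD k
  refine sqz_sl ((smD k).grp_faith K) ((smD k).grp_top K) (connected hk) ((smD k).grp_R3 K) hK
    { ρ := ρD k
      lam := c
      mu := (smD k).rt ((smD k).neg (simD 0))
      i₀ := 0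
      i₁ := 0
      w := w
      w_mem := hw
      dom := ?_
      le := ?_
      zero := fun i j h => by rw [lev_sm, hc, v_ρD h]; simp
      pos := fun r h hr => ?_
      neg := fun r h hr => ?_
      mu_eq := fun i j h => ?_
      w_lam := fun j => ?_
      w_ρ := Or.inr fun i j e => (smD k).inj ?_ } (fun i j h => (smD k).inj ?_) (fun _ => rfl)
    (fun i j a b e1 e2 e3 e4 => ?_) fun i j a e1 e2 e3 => ⟨?_, (smD k).vec_inj ?_⟩
  · rintro ⟨⟨a | a, b | b⟩, e⟩ h <;> rw [SM.pos_iff] at h <;> rw [lev_sm, hc] <;>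
      simp [smD, TD.wt] at h e ⊢ <;> simp only [Fin.ext_iff, Fin.val_zero] <;> split_ifs <;> omega
  · rintro ⟨⟨a | a, b | b⟩, e⟩ <;> rw [lev_sm, hc] <;> simp [smD, TD.wt] <;> split_ifs <;> omega
  · obtain ⟨i, j, a, b, e⟩ := zeroD (by rwa [lev_sm, hc] at h)
    exact ⟨i, j, a, Fin.ne_zero_of_lt (e.1 hr), b⟩
  · obtain ⟨i, j, a, b, e⟩ := zeroD (by rwa [lev_sm, hc] at h)
    exact ⟨i, j, a, Fin.ne_zero_of_lt (lt_of_le_of_ne (not_lt.1 (mt e.2 hr)) a.symm), b⟩
  · rw [lev_sm, SM.vec_rt, (smD k).v_neg, v_ρD h]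
    simp [smD, simD_zero, TD.wt, Pi.single_apply, ← Fin.succ_zero_eq_one, -Fin.succ_zero_eq_one']
    ring
  · have : ∑ i, c i • (smD k).rt (w ((smD k).sim i)) = -c := (smD k).vec_inj (by
      simp only [map_sum, map_smul, SM.vec_rt, h2, ← mul_smul_comm, ← Finset.mul_sum,
        ← SM.vec_apply, map_neg, hc]
      funext j
      induction j using Fin.cases <;> simp [h1])
    simpa [SM.rs] using congrFun this j
  · have h : i ≠ j := by omega
    rw [h2, v_ρD h, v_ρD h.symm]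
    funext x
    induction x using Fin.cases <;> simp [h1]
  · simp only [SM.rs_neg, (smD k).v_neg, v_ρD h, v_ρD h.symm, neg_sub]
  · simp only [SM.pair_eq, v_ρD e1, v_ρD e2]
    simp [Pi.single_apply, e3, e4]
    split_ifs <;> omega
  · simp only [SM.pair_eq, v_ρD e1, v_ρD e2]
    simp [e1, e2, e3]
  · simp only [map_add, SM.vec_rs_rt, v_ρD e1, v_ρD e2, v_ρD e3]; abel

open H12 in
theorem sqz_plus {K : Type*} [Field K] [Finite K] (hK : 9 ≤ Nat.card K) (hk : 1 ≤ k) :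
    SqZ (Cfsg.Omega K (Cfsg.quadFormPlus (k + 2) K)) :=
  (sqz_D hK hk).of_equiv (omegaEquiv (good_of_finrank_ne (nondeg_QPlus _)
    (by rw [finrank_plus]; omega)))

end H37.EG
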