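import Mathlib
import Cfsg.Agent.Lib.EG.Mat
import Cfsg.Agent.S1072

/-!
The square of a semisimple class of `²F₄(q)`, `q ≥ 8`.
-/

set_option autoImplicit false
set_option linter.unusedSectionVars false

namespace H62.EG

open Cfsg Cfsg.Lie H62.LB H38 H39 H37 H37.Rk1

section gen

variable {ι l : Type} [Fintype l] [DecidableEq l] [Finite ι] {R : RS ι l} {K : Type*} [Field K]
  {G : Type*} [Group G] {E : Elts R K G} {T : Tw E}

theorem exists_big (hT : T.Good) {i j : l} (hj : j ∉ T.S.orb i) :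
    ∃ m ∈ T.Γ, E.Rep m (T.S.wo j) ∧ Big T (T.S.orb i) m := by
  obtain ⟨v, hv, hv1⟩ := hT.neg j
  have hL : v ∈ E.L (T.S.orb j) := Subgroup.mem_sup_left (E.XS_mono (fun _ h => h.2) hv.1)
  obtain ⟨u0, h0, n, hn', w, hw, hn, hJ, u, hu, e⟩ :=
    T.bruhat_PS (R.stable_sub (T.S.orb j)) (E.PS_sub _ ▸ hL) hv.2
  rcases T.S.eq_one_or_wo hw hJ with rfl | rfl
  · refine absurd (T.hF.B_inf_V v ?_ (E.XS_mono (fun _ h => h.1) hv.1)) hv1
    rw [e]
    exact mul_mem (mul_mem (E.U_le_B (E.XS_mono (fun _ h => h.1) h0.1)) (E.H_le_B hn.mem_H))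
      (E.U_le_B (E.XS_mono (fun _ h => h.1) hu.1))
  · rw [T.S.Inv_wo] at hu
    exact ⟨n, hn', hn, _, inv_mem ⟨PJ_le_UJ hj h0.1, h0.2⟩, _, ⟨NJ_le_VJ hj hv.1, hv.2⟩, _,
      inv_mem ⟨PJ_le_UJ hj hu.1, hu.2⟩, by rw [e]; group⟩

theorem Big.conj {J : Set l} {g b : G} (h : Big T J g) (hb : b ∈ E.H) (hb' : b ∈ T.Γ) :
    Big T J (b * g * b⁻¹) := by
  obtain ⟨u, h1, v, h2, u', h3, rfl⟩ := h
  have : ∀ {a}, a ∈ T.Γ → b * a * b⁻¹ ∈ T.Γ := fun ha => mul_mem (mul_mem hb' ha) (inv_mem hb')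
  exact ⟨_, ⟨E.H_conj_mem_XS hb h1.1, this h1.2⟩, _, ⟨E.H_conj_mem_XS hb h2.1, this h2.2⟩, _,
    ⟨E.H_conj_mem_XS hb h3.1, this h3.2⟩, by group⟩

theorem conj_h_neg (h3 : E.R3) {n : G} {w : Equiv.Perm ι} (hn : E.Rep n w) {r : ι}
    (hw : w r = R.neg r) (c : Kˣ) : n * E.h r c * n⁻¹ = (E.h r c)⁻¹ := by
  rw [hn.conj_h_R3 h3 r c.ne_zero, hw, Elts.h_eq_tor h3, Elts.h_eq_tor h3, ← map_inv]
  congr 1; ext i; simp [R.cor_neg]

theorem wo_neg {D : ChevalleyDatum} {R : RootSys D} {E : Elts R.toRS K G} {T : Tw E}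
    {j : Fin D.rank} {J w : List (Fin D.rank)} (hJ : ∀ a, a ∈ J ↔ a ∈ T.S.orb j)
    (hw : ∀ a ∈ w, a ∈ J) (h : ∀ a ∈ J, act D w (D.simple a) = D.neg (D.simple a)) :
    ∀ a ∈ J, T.S.wo j (R.sim a) = R.neg (R.sim a) := by
  have h0 : ∀ a ∈ J, (w.map R.s).prod (R.sim a) = R.neg (R.sim a) := fun a ha =>
    Fin.ext (by rw [word_val, R.neg_eq, R.sim_eq]; exact h a ha)
  rwa [R.eq_wJ (J := T.S.orb j) (R.list_prod_mem_WJ fun a ha => (hJ a).1 (hw a ha)) fun a ha => by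
    rw [h0 a ((hJ a).2 ha)]
    exact (R.not_pos_neg_iff _).2 (R.pos_sim a)] at h0

end gen

section abstr

variable {ι : Type} [Finite ι] {R : RS ι (Fin 4)} {K : Type*} [Field K] [Fintype K]
  {G : Type*} [Group G] {E : Elts R K G} {T : Tw E} {e : ℕ} (h : IsF4 T e)
include h

theorem ld_F4 : LD T 0 [0, 3] ![T.φ 3, RingHom.id K, RingHom.id K, RingHom.id K] := by
  refine ⟨h.orth0, fun a ha t => ?_, fun t ht => ⟨t 3, ?_⟩⟩
  · simp only [List.mem_cons, List.not_mem_nil, or_false] at ha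
    rcases ha with rfl | rfl
    · rw [h.ρ0]
      change t = T.φ 0 (T.φ 3 t)
      rw [h.φ0, h.φ3, h.pow_pow]
    · rw [h.ρ3]; rfl
  · have h0 := ht 3 (by simp)
    rw [h.ρ3] at h0
    simpa using h0

theorem td_F4 (hw : ∀ a ∈ [1, 2], T.S.wo 1 (R.sim a) = R.neg (R.sim a)) (hs : IsSimpleGroup T.Γ) :
    TD T h.h3 0 1 [0, 3] ![T.φ 3, RingHom.id K, RingHom.id K, RingHom.id K] := by
  have := h.char
  have h1 : (1 : Fin 4) ∉ T.S.orb 0 := by rw [← h.orth0.mem]; decide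
  refine ⟨ld_F4 h, h.good, h.orb_cases, h1, w0_eq_neg h.hw0, hs, fun n hn hr => ?_⟩
  obtain ⟨m, hm, hm', hb⟩ := exists_big h.good h1
  obtain ⟨c, hc, e0⟩ := h.H_inf_Γ.le ⟨Elts.Rep.mul_inv_mem_H E hr hm', T.Γ.mul_mem hn (inv_mem hm)⟩
  obtain ⟨e1, e2⟩ := h.mem_T1.1 hc
  obtain ⟨d, hd⟩ := FiniteField.isSquare_of_char_two (ringChar.eq K 2) (c 2 : K)
  lift d to Kˣ using (left_ne_zero_of_mul (hd ▸ (c 2).ne_zero)).isUnit
  have h2 : Elts.tor h.h3 ![1, d ^ e, d, 1] = E.h (R.sim 1) (d ^ e : Kˣ) * E.h (R.sim 2) d := by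
    simp [Elts.tor_eq_list h.h3 (L := [0, 1, 2, 3]) (by decide) (by decide), E.h_one]
  have h4 : m * Elts.tor h.h3 ![1, d ^ e, d, 1] * m⁻¹ = (Elts.tor h.h3 ![1, d ^ e, d, 1])⁻¹ := by
    rw [h2, mul_inv_rev, ← (Elts.h_comm h.h3 _ _ (Units.ne_zero _) (Units.ne_zero _)).inv_inv.eq,
      ← conj_h_neg h.h3 hm' (hw 1 (by simp)), ← conj_h_neg h.h3 hm' (hw 2 (by simp))]
    group
  have h5 : (ld_F4 h).φ h.h3 (dia (c 3)) = Elts.tor h.h3 ![c 3 ^ e, 1, 1, c 3] := by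
    simp [lv_dia, Elts.tor_eq_list h.h3 (L := [0, 1, 2, 3]) (by decide) (by decide), E.h_one, h.φ3]
  have h6 : c = ![c 3 ^ e, 1, 1, c 3] * (![1, d ^ e, d, 1] * ![1, d ^ e, d, 1]) := by
    have : c 2 = d * d := Units.ext hd
    ext1 a; fin_cases a <;> simp [e1, e2, this, mul_pow]
  refine ⟨c 3, ?_⟩
  convert hb.conj (tor_mem h.h3 ![1, d ^ e, d, 1]) (T.tor_mem_Γ h.h3 (h.mem_T1.2 (by simp)))
    using 1
  rw [h6, map_mul, map_mul, eq_mul_inv_iff_mul_eq] at e0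
  rw [h5, ← e0, ← mul_left_inj m⁻¹]
  generalize Elts.tor h.h3 ![1, d ^ e, d, 1] = b at h4
  calc _ = b * (m * b * m⁻¹)⁻¹ := by rw [h4]; group
    _ = _ := by group

end abstr

theorem rad_F4 : ∀ r : Fin chevF4.nroots, RadN chevF4 [(0 : Fin 4), (3 : Fin 4)] r →
    (|chevF4.cartan 0 r| ≤ 2 ∧ |chevF4.cartan 3 r| ≤ 1 ∧
      (chevF4.cartan 0 r ≠ 0 ∨ chevF4.cartan 3 r ≠ 0)) ∨
    (chevF4.cartan 0 r = 0 ∧ chevF4.cartan 3 r = 0 ∧
      ((chevF4.cartan 1 r, chevF4.cartan 2 r) = (2, -1) ∨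
      (chevF4.cartan 1 r, chevF4.cartan 2 r) = (-1, 1))) := by
  decide +kernel

theorem sq_F4 {K : Type*} [Field K] [Fintype K] {m : ℕ} (hm : 1 ≤ m)
    (hK : Fintype.card K = 2 ^ (2 * m + 1)) :
    ∃ x : twistedF4 K (2 ^ m), ¬ 2 ∣ orderOf x ∧ ∀ g ≠ 1, Sq x g := by
  obtain ⟨R, E, hE, T, h, hA⟩ := exists_F4 hK
  let e := (T.Γ.equivMapOfInjective _ (chevF4.group K).subtype_injective).trans
    (MulEquiv.subgroupCongr hA.symm)
  have := (Cfsg.Agent.S1072.result hm hK).1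
  have := h.char
  have hk : Chk chevF4 rho2F4 ([0, 3] : List (Fin 4))
      ([0, 3, 1, 2, 1, 2, 0, 3, 1, 2, 1, 2, 0, 3, 1, 2, 1, 2, 0, 3, 1, 2, 1, 2] : List (Fin 4))
      ([1, 2, 1, 2, 0, 3, 1, 2, 1, 2] : List (Fin 4)) ([0, 3] : List (Fin 4))
      ([1, 2, 1, 2] : List (Fin 4)) ([0, 3] : List (Fin 4)) ([0, 3, 1, 2, 1, 2] : List (Fin 4))
      ([0, 3] : List (Fin 4)) := .of_decide (by decide +kernel)
  have hT := td_F4 h (wo_neg (D := chevF4) (J := ([1, 2] : List (Fin 4)))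
    (w := ([1, 2, 1, 2] : List (Fin 4))) (fun (a : Fin 4) =>
      Iff.trans (by simp : a ∈ ([1, 2] : List (Fin 4)) ↔ _) (Set.ext_iff.1 h.orb1 a).symm)
    (by decide : ∀ a ∈ ([1, 2, 1, 2] : List (Fin 4)), a ∈ ([1, 2] : List (Fin 4)))
    (by decide +kernel : ∀ a ∈ ([1, 2] : List (Fin 4)), act chevF4 ([1, 2, 1, 2] : List (Fin 4))
      (chevF4.simple a) = chevF4.neg (chevF4.simple a))) e.isSimpleGroup
  refine Sq.transfer e ?_
  have h1 : 2 ≤ 2 ^ m := Nat.le_self_pow (by omega) 2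
  generalize he : 2 ^ m = e at h1 h
  obtain ⟨d, hd⟩ := exists_unit_sq_ne (K := K) (by rw [h.hK]; nlinarith)
  have h2 : (d ^ e) ^ (2 * e) = d := Units.ext (h.pow_pow d)
  have h4 : ∀ (c : Fin 4 → Kˣ) r, ∏ a : Fin chevF4.rank, c a ^ chevF4.cartan a r =
      c 0 ^ chevF4.cartan 0 r * c 1 ^ chevF4.cartan 1 r * c 2 ^ chevF4.cartan 2 r *
        c 3 ^ chevF4.cartan 3 r := fun c r => Fin.prod_univ_four _
  let f := algebraMap K (AlgebraicClosure K)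
  refine TD.out_even (by simp) hT (h.hρ ▸ hk) h.orth0 h.orth0 h.orth0 (f := f) (e := f)
    (ψ' := ![iterateFrobenius _ 2 m, RingHom.id _, RingHom.id _, RingHom.id _])
    (fun (a : Fin 4) t => ?_)
    (c := ![d ^ e * d, (d ^ e * d) ^ 2, ((d ^ e) ^ 2 * d) ^ 2, (d ^ e) ^ 2 * d])
    (h.mem_T1.2 ?_) (fun (a : Fin 4) ha => ?_) fun ζ hζ r hr e' => ?_
  · fin_cases a
    · change f t ^ 2 ^ m = f (T.φ (3 : Fin 4) t)
      rw [h.φ3, map_pow, he]
    all_goals rfl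
  · have : ((d ^ e) ^ 2 * d) ^ e = d ^ e * d := by rw [mul_pow, ← pow_mul, h2, mul_comm]
    exact ⟨this.symm, by
      change (_ ^ 2 : Kˣ) = (_ ^ 2) ^ e
      rw [pow_right_comm, this]⟩
  · rw [h4]
    rcases List.mem_pair.1 ha with rfl | rfl
    · rw [show chevF4.cartan 0 _ = 2 by decide +kernel, show chevF4.cartan 1 _ = -1 by
        decide +kernel, show chevF4.cartan 2 _ = 0 by decide +kernel,
        show chevF4.cartan 3 _ = 0 by decide +kernel]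
      simp [zpow_ofNat]
    · rw [show chevF4.cartan 0 _ = 0 by decide +kernel, show chevF4.cartan 1 _ = 0 by
        decide +kernel, show chevF4.cartan 2 _ = -1 by decide +kernel,
        show chevF4.cartan 3 _ = 2 by decide +kernel]
      simp [zpow_ofNat]
  · change f _ * (((ζ : AlgebraicClosure K) ^ 2 ^ m) ^ chevF4.cartan 0 r *
      ((ζ : AlgebraicClosure K) ^ chevF4.cartan 3 r * 1)) = 1 at e'
    rw [mul_one, he, ← zpow_natCast (ζ : AlgebraicClosure K), ← zpow_mul (ζ : AlgebraicClosure K),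
      ← zpow_add₀ ζ.ne_zero] at e'
    rcases rad_F4 r hr with ⟨a, b, c⟩ | ⟨a, b, c⟩
    · have h5 := hζ.dvd_of_mul odd_one (pow_one _).symm f e'
      rw [h.hK] at h5
      rw [abs_le] at a b
      have := Int.eq_zero_of_abs_lt_dvd h5 (by rw [abs_lt]; push_cast; constructor <;> nlinarith)
      rcases c with c | c
      · rcases lt_or_gt_of_ne c with c | c <;> nlinarith
      · rcases lt_trichotomy (chevF4.cartan 0 r) 0 with c' | c' | c'
        · nlinarith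
        · exact c (by simpa [c'] using this)
        · nlinarith
    · rw [a, b, mul_zero, add_zero, zpow_zero, mul_one, map_eq_one_iff _ f.injective,
        Units.val_eq_one, h4, a, b] at e'
      simp only [Prod.mk.injEq] at c
      rcases c with ⟨c, c'⟩ | ⟨c, c'⟩ <;>
        simp only [c, c', Matrix.cons_val, zpow_zero, zpow_neg_one, zpow_one, zpow_ofNat, one_mul,
          mul_one] at e'
      · exact hd (by rw [← e']; ext; push_cast; field_simp)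
      · have : (d ^ e) ^ 2 = 1 := by rw [← e']; ext; push_cast; field_simp
        exact hd (by rw [← h2, pow_mul, this]; simp)

end H62.EG
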