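import Mathlib
import Cfsg.Agent.Base
import Cfsg.Agent.Lib.EG.Chain

/-!
`PSL_n(q)`, `q ≥ 9`, is the square of a conjugacy class.
-/

set_option autoImplicit false

namespace H37.EG

open H38 H64.TA H63.St

/-- The roots of the Levi subgroup of type `A`. -/
def ρA (m : ℕ) (i j : Fin (m - 1 + 1)) : PA (m + 1) :=
  if h : i ≠ j then ⟨(⟨i + 1, by omega⟩, ⟨j + 1, by omega⟩), by simpa [Fin.ext_iff] using h⟩
  else ⟨(0, 1), by simp⟩

lemma ρA_val {m : ℕ} {i j : Fin (m - 1 + 1)} (h : i ≠ j) :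
    ((ρA m i j).1.1 : ℕ) = i + 1 ∧ ((ρA m i j).1.2 : ℕ) = j + 1 := by simp [ρA, h]

/-- The highest root. -/
def θA (m : ℕ) : PA (m + 1) := ⟨(0, Fin.last _), by simp [Fin.ext_iff]⟩

lemma pair_θA {m : ℕ} (r : PA (m + 1)) : ∑ i, (rs _).cor (θA m) i * (rs _).wt r i =
    d 0 r.1.1 - d 0 r.1.2 - d (m + 1) r.1.1 + d (m + 1) r.1.2 := pair_eq (θA m) r

lemma exists_ρA {m : ℕ} (r : PA (m + 1)) (h : ∑ i, (rs _).cor (θA m) i * (rs _).wt r i = 0) :
    ∃ i j, i ≠ j ∧ r = ρA m i j ∧ (r.1.1 : ℕ) = i + 1 ∧ (r.1.2 : ℕ) = j + 1 := by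
  rw [pair_θA] at h
  obtain ⟨⟨a, b⟩, e⟩ := r
  have : 0 < a.1 ∧ a.1 < m + 1 ∧ 0 < b.1 ∧ b.1 < m + 1 := by
    simp only [d, ne_eq, Fin.ext_iff] at h e; split_ifs at h <;> omega
  have e' : (⟨a - 1, by omega⟩ : Fin (m - 1 + 1)) ≠ ⟨b - 1, by omega⟩ := by
    simp only [ne_eq, Fin.ext_iff] at e ⊢; omega
  have := ρA_val e'
  exact ⟨_, _, e', Subtype.ext (Prod.ext (Fin.ext (by dsimp only at *; omega))
    (Fin.ext (by dsimp only at *; omega))), by dsimp only; omega, by dsimp only; omega⟩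

/-- Levi data of type `A`. -/
noncomputable def ldA (m : ℕ) : LD (rs (m + 1)) (m - 1 + 1) where
  ρ := ρA m
  lam := (rs _).cor (θA m)
  mu i := (rs _).cor ⟨(1, 0), by simp⟩ i
  i₀ := 0
  i₁ := 0
  w := (rs _).refl (θA m)
  w_mem := (rs _).refl_mem_W _
  dom r h := by
    rw [pair_θA]; rw [pos_iff, Fin.lt_def] at h
    simp only [d]; split_ifs <;> omega
  le r := by rw [pair_θA]; simp only [d]; split_ifs <;> omega
  zero i j h := by
    rw [pair_θA, (ρA_val h).1, (ρA_val h).2]; simp only [d]; split_ifs <;> omega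
  pos r h hr := by
    obtain ⟨i, j, a, b, c, e⟩ := exists_ρA r h
    rw [pos_iff, Fin.lt_def] at hr
    exact ⟨i, j, a, by rintro rfl; simp at e; omega, b⟩
  neg r h hr := by
    obtain ⟨i, j, a, b, c, e⟩ := exists_ρA r h
    rw [pos_iff, Fin.lt_def] at hr
    exact ⟨i, j, a, by rintro rfl; simp [Fin.ext_iff] at c a; omega, b⟩
  mu_eq i j h := by
    refine (pair_eq _ _).trans ?_
    rw [(ρA_val h).1, (ρA_val h).2]
    simp only [d, Fin.ext_iff, Fin.val_one, Fin.val_zero]; split_ifs <;> omega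
  w_lam := sum_cor_refl _
  w_ρ := Or.inl fun i j e => (rs _).rt_inj (by
    have h : i ≠ j := by omega
    have : (rs _).pair (θA m) (ρA m i j) = 0 := by
      refine (pair_θA _).trans ?_
      rw [(ρA_val h).1, (ρA_val h).2]; simp only [d]; split_ifs <;> omega
    rw [RS.rt_refl, this, zero_smul, sub_zero])

theorem sqz_SL {K : Type*} [Field K] [Finite K] (hK : 9 ≤ Nat.card K) (m : ℕ) :
    SqZ (Matrix.SpecialLinearGroup (Fin (m + 2)) K) :=
  sqz_sl faith top connected r3 hK (ldA m)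
    (fun i j h => by simp [ldA, ρA, h, h.symm, rs]) (fun _ => rfl)
    (fun i j k l a b c e => by
      rw [pair_eq]
      simp only [ldA, (ρA_val a).1, (ρA_val a).2, (ρA_val b).1, (ρA_val b).2, d]
      split_ifs <;> omega)
    fun i j k a b c => ⟨by
      rw [pair_eq]
      simp only [ldA, (ρA_val a).1, (ρA_val a).2, (ρA_val b).1, (ρA_val b).2, d]
      split_ifs <;> omega, by
      funext x
      simp [ldA, rs, (ρA_val a).1, (ρA_val a).2, (ρA_val b).1, (ρA_val b).2, (ρA_val c).1,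
        (ρA_val c).2, co]⟩

end H37.EG
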