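import Cfsg.Agent.Lib.EG.TiC
import Cfsg.Agent.Lib.EG.Sq
import Cfsg.Agent.Lib.KGrp.Tits
import Cfsg.Agent.Lib.Chev.TitsW
import Cfsg.Agent.Lib.BN.Basic

/-! Every element of the Tits group is a product of two elements of order five. -/

set_option autoImplicit false
set_option maxRecDepth 100000

namespace H62.Ti
open H54 H39 H61.KG.Ti Cfsg Cfsg.Lie

/-- In a group with a `(B,N)`-pair of type `I₂(8)` seven cosets of `B` meet every class up to
inversion. -/
theorem cover {Q : Type*} [Group Q] (P : BNPair Q) {s t : Q} (hS : P.S = {s, t}) (hs : s * s = 1)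
    (ht : t * t = 1) (h8 : (s * t) ^ 8 = 1) (hH : ∀ g ∈ P.B, g ∈ P.N → g = 1) {p : Q → Prop}
    (hc : ∀ g a, p g → p (a * g * a⁻¹)) (hi : ∀ g, p g → p g⁻¹)
    (h0 : ∀ b ∈ P.B, p (b * s)) (h1 : ∀ b ∈ P.B, p (b * t))
    (h2 : ∀ k ≤ 4, ∀ b ∈ P.B, p (b * (s * t) ^ k)) (g : Q) : p g := by
  let D : Q → Prop := fun n => ∀ b ∈ P.B, p (b * n)
  have D2 : ∀ n, D n → ∀ b ∈ P.B, ∀ b' ∈ P.B, p (b * n * b') := fun n h b hb b' hb' => by
    have := hc _ b'⁻¹ (h _ (mul_mem hb' hb))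
    convert this using 1; group
  have Di : ∀ n, D n → D n⁻¹ := fun n h b hb => by
    have := hi _ (D2 n h 1 (one_mem _) _ (inv_mem hb))
    convert this using 1; group
  have st : ∀ u ∈ P.S, u * u = 1 → ∀ n ∈ P.N, D n → D (u * n) → D (u * n * u) := by
    intro u hu h n hn a1 a2 b hb
    have e : b * (u * n * u) = u * (u * b * (u * n)) * u⁻¹ := by
      rw [inv_eq_of_mul_eq_one_right h, ← mul_assoc u, ← mul_assoc u, h]; group
    rw [e]
    refine hc _ _ ?_
    rcases P.mul_mem_union u hu _ (mul_mem (P.subset hu) hn) b hb with e | e <;>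
      obtain ⟨x, hx, y, hy, e⟩ := DoubleCoset.mem_doubleCoset.1 e <;> rw [e]
    · rw [← mul_assoc u, h, one_mul]; exact D2 n a1 x hx y hy
    · exact D2 _ a2 x hx y hy
  have sS : s ∈ P.S := by simp [hS]
  have tS : t ∈ P.S := by simp [hS]
  have si : s⁻¹ = s := inv_eq_of_mul_eq_one_right hs
  have ti : t⁻¹ = t := inv_eq_of_mul_eq_one_right ht
  have rN : s * t ∈ P.N := mul_mem (P.subset sS) (P.subset tS)
  have rot : ∀ k : ℤ, D ((s * t) ^ k) := fun k => by
    have n : ∀ j : ℕ, j < 8 → D ((s * t) ^ j) := fun j hj => by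
      by_cases h : j ≤ 4
      · exact h2 j h
      · have := Di _ (h2 (8 - j) (by omega))
        rwa [inv_eq_of_mul_eq_one_right (show (s * t) ^ (8 - j) * (s * t) ^ j = 1 by
          rw [← pow_add, Nat.sub_add_cancel hj.le, h8])] at this
    rw [zpow_eq_zpow_emod' k h8]
    obtain ⟨j, hj⟩ := Int.eq_ofNat_of_zero_le (Int.emod_nonneg k (show ((8 : ℕ) : ℤ) ≠ 0 by decide))
    have := Int.emod_lt_of_pos k (show (0 : ℤ) < (8 : ℕ) by decide)
    rw [hj, zpow_natCast]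
    exact n j (by omega)
  have cs : ∀ k : ℤ, s * (s * t) ^ k = (s * t) ^ (-k) * s := fun k => by
    have : s * (s * t) * s⁻¹ = (s * t)⁻¹ := by rw [← mul_assoc, hs, mul_inv_rev, si, ti, one_mul]
    rw [zpow_neg, ← inv_zpow, ← this, conj_zpow, inv_mul_cancel_right]
  have ts : t = (s * t) ^ (-1 : ℤ) * s := by rw [zpow_neg_one, mul_inv_rev, ti, inv_mul_cancel_right]
  have ct : ∀ k : ℤ, t * (s * t) ^ k = (s * t) ^ (-1 - k) * s := fun k => by
    rw [congrArg (· * (s * t) ^ k) ts, mul_assoc, cs, ← mul_assoc, ← zpow_add, sub_eq_add_neg]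
  have refl : ∀ k : ℕ, D ((s * t) ^ (k : ℤ) * s) ∧ D ((s * t) ^ (-1 - k : ℤ) * s) := fun k => by
    induction k with
    | zero => exact ⟨by simpa using h0, by rw [Nat.cast_zero, sub_zero, ← ts]; exact h1⟩
    | succ k ih =>
      have e1 : ∀ j : ℤ, s * ((s * t) ^ j * s) = (s * t) ^ (-j) := fun j => by
        rw [← mul_assoc, cs, mul_assoc, hs, mul_one]
      have e2 : ∀ j : ℤ, t * ((s * t) ^ j * s) = (s * t) ^ (-1 - j) := fun j => by
        rw [← mul_assoc, ct, mul_assoc, hs, mul_one]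
      have a1 := st s sS hs _ (mul_mem (zpow_mem rN _) (P.subset sS)) ih.2 (e1 _ ▸ rot _)
      have a2 := st t tS ht _ (mul_mem (zpow_mem rN _) (P.subset sS)) ih.1 (e2 _ ▸ rot _)
      rw [e1] at a1
      rw [e2, congrArg ((s * t) ^ (-1 - k : ℤ) * ·) ts, ← mul_assoc, ← zpow_add] at a2
      exact ⟨by convert a1 using 3; push_cast; ring, by convert a2 using 3; push_cast; ring⟩
  have all : ∀ n ∈ Subgroup.closure P.S, ∃ k : ℤ, n = (s * t) ^ k ∨ n = (s * t) ^ k * s := by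
    intro n hn
    have ml : ∀ x ∈ P.S, ∀ y, (∃ k : ℤ, y = (s * t) ^ k ∨ y = (s * t) ^ k * s) →
        ∃ k : ℤ, x * y = (s * t) ^ k ∨ x * y = (s * t) ^ k * s := by
      rintro x hx _ ⟨k, rfl | rfl⟩ <;> rw [hS] at hx <;> rcases hx with rfl | rfl
      · exact ⟨_, Or.inr (cs k)⟩
      · exact ⟨_, Or.inr (ct k)⟩
      · exact ⟨_, Or.inl (by rw [← mul_assoc, cs, mul_assoc, hs, mul_one])⟩
      · exact ⟨_, Or.inl (by rw [← mul_assoc, ct, mul_assoc, hs, mul_one])⟩
    induction hn using Subgroup.closure_induction_left with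
    | one => exact ⟨0, Or.inl (zpow_zero _).symm⟩
    | mul_left x hx y _ ih => exact ml x hx y ih
    | inv_mul_cancel x hx y _ ih =>
      have : x⁻¹ = x := by rw [hS] at hx; rcases hx with rfl | rfl <;> assumption
      exact this.symm ▸ ml x hx y ih
  obtain ⟨w, hw⟩ := H13.BN.exists_mem_cell (P := P) g
  obtain ⟨n, rfl⟩ := QuotientGroup.mk_surjective w
  obtain ⟨x, hx, y, hy, rfl⟩ := (H13.BN.mem_cell_mk P).1 hw
  have hN : Subgroup.closure P.S = P.N := by
    rw [← P.closure_sup, (Subgroup.eq_bot_iff_forall (P.B ⊓ P.N)).2 fun g hg => hH g hg.1 hg.2,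
      sup_bot_eq]
  refine D2 _ ?_ x hx y hy
  obtain ⟨k, e | e⟩ := all n (hN.ge n.2) <;> rw [e]
  · exact rot k
  · rcases k with k | k
    · exact (refl k).1
    · convert (refl k).2 using 3; rw [Int.negSucc_eq]; ring

theorem isConj_five {T : Type*} [Group T] [Finite T] (hc : Nat.card T = 17971200) {a b : T}
    (ha : orderOf a = 5) (hb : b ^ 5 = 1) (hab : Commute a b)
    (h : ∀ i < 5, ∀ j < 5, i ≠ 0 ∨ j ≠ 0 → IsConj a (a ^ i * b ^ j)) {x : T}
    (hx : orderOf x = 5) : IsConj a x := by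
  have := Fact.mk Nat.prime_five
  have a5 : a ^ 5 = 1 := ha ▸ pow_orderOf_eq_one a
  have a1 : a ≠ 1 := fun e => by rw [e, orderOf_one] at ha; omega
  have pw : ∀ i j k : ℕ, (a ^ i * b ^ j) ^ k = a ^ (i * k) * b ^ (j * k) := fun i j k => by
    rw [(hab.pow_pow i j).mul_pow, ← pow_mul, ← pow_mul]
  have p5 : ∀ i j : ℕ, (a ^ i * b ^ j) ^ 5 = 1 := fun i j => by
    rw [pw, mul_comm i, mul_comm j, pow_mul, pow_mul, a5, hb, one_pow, one_pow, mul_one]
  let E : Subgroup T :=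
    { carrier := {g | ∃ i j : ℕ, g = a ^ i * b ^ j}
      one_mem' := ⟨0, 0, by simp⟩
      mul_mem' := by
        rintro _ _ ⟨i, j, rfl⟩ ⟨k, l, rfl⟩
        exact ⟨i + k, j + l, by
          rw [pow_add, pow_add, mul_assoc, mul_assoc, ← mul_assoc (b ^ j), ← (hab.pow_pow k j).eq,
            mul_assoc]⟩
      inv_mem' := by
        rintro _ ⟨i, j, rfl⟩
        exact ⟨i * 4, j * 4, by
          rw [← pw]; exact inv_eq_of_mul_eq_one_right ((pow_succ' _ 4).symm.trans (p5 i j))⟩ }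
  have hE : IsPGroup 5 E := by
    rintro ⟨_, i, j, rfl⟩
    exact ⟨1, Subtype.ext (by simpa using p5 i j)⟩
  obtain ⟨P, hP⟩ := hE.exists_le_sylow
  have cP : Nat.card P = 5 ^ 2 := by
    rw [P.card_eq_multiplicity, hc]; congr 1; decide +kernel
  have le : Subgroup.zpowers a ≤ E := (Subgroup.zpowers_le).2 ⟨1, 0, by simp⟩
  have eP : E = P := by
    obtain ⟨k, hk, e⟩ := (Nat.dvd_prime_pow Nat.prime_five).1 (cP ▸ Subgroup.card_dvd_of_le hP)
    have d := Subgroup.card_dvd_of_le le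
    rw [Nat.card_zpowers, ha, e] at d
    refine Subgroup.eq_of_le_of_card_ge hP ?_
    interval_cases k
    · simp at d
    · exfalso
      have : b ∈ Subgroup.zpowers a := by
        rw [Subgroup.eq_of_le_of_card_ge le (by rw [Nat.card_zpowers, ha, e, pow_one])]
        exact ⟨0, 1, by simp⟩
      obtain ⟨k, rfl⟩ := mem_powers_iff_mem_zpowers.2 this
      have c := h ((k * 4) % 5) (Nat.mod_lt _ (by decide)) 1 (by decide) (by simp)
      rw [← pow_eq_pow_mod _ a5, pow_one, ← pow_add, show k * 4 + k = 5 * k by ring, pow_mul, a5,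
        one_pow] at c
      exact a1 (isConj_one_right.1 c.symm)
    · exact (cP.trans e.symm).le
  obtain ⟨Q, hQ⟩ := (IsPGroup.of_card (p := 5) (n := 1) (G := Subgroup.zpowers x)
    (by rw [Nat.card_zpowers, hx, pow_one])).exists_le_sylow
  obtain ⟨g, rfl⟩ := MulAction.exists_smul_eq T P Q
  obtain ⟨y, hy, rfl⟩ := hQ (Subgroup.mem_zpowers x)
  obtain ⟨i, j, rfl⟩ : y ∈ E := eP ▸ hy
  refine IsConj.trans ?_ (isConj_iff.2 ⟨g, rfl⟩)
  rw [pow_eq_pow_mod i a5, pow_eq_pow_mod j hb] at hx ⊢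
  refine h _ (Nat.mod_lt _ (by decide)) _ (Nat.mod_lt _ (by decide)) ?_
  by_contra! e
  simp [e.1, e.2] at hx

/-- A product of two elements of order five. -/
def Gd {Q : Type*} [Group Q] (q : Q) : Prop :=
  ∃ a b : Q, orderOf a = 5 ∧ orderOf b = 5 ∧ q = a * b

theorem Gd.conj {Q : Type*} [Group Q] {q : Q} (h : Gd q) (y : Q) : Gd (y * q * y⁻¹) := by
  obtain ⟨a, b, ha, hb, rfl⟩ := h
  exact ⟨y * a * y⁻¹, y * b * y⁻¹, by rw [← ha, ← MulAut.conj_apply, MulEquiv.orderOf_eq],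
    by rw [← hb, ← MulAut.conj_apply, MulEquiv.orderOf_eq], (conj_mul).symm⟩

theorem Gd.inv {Q : Type*} [Group Q] {q : Q} (h : Gd q) : Gd q⁻¹ := by
  obtain ⟨a, b, ha, hb, rfl⟩ := h
  exact ⟨b⁻¹, a⁻¹, by rw [orderOf_inv, hb], by rw [orderOf_inv, ha], mul_inv_rev _ _⟩

theorem mem_of_five {Q : Type*} [Group Q] {N : Subgroup Q} (h : N.index = 2) {a : Q}
    (ha : orderOf a = 5) : a ∈ N := by
  have := Subgroup.mul_self_mem_of_index_two h (a ^ 3)
  rwa [← pow_add, show 3 + 3 = 5 + 1 from rfl, pow_succ, ← ha, pow_orderOf_eq_one, one_mul] at this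

theorem tm_II : tm II = 1 := II_eq ▸ toMat_idP (ZMod 2) (D := chevF4)

theorem five_spec {c : ℕ} (h : five c = true) : tm c ^ 5 = 1 := by
  rw [five, force_eq, force_eq] at h
  rw [← tm_II, ← Nat.eq_of_beq_eq_true h, tm_ml, tm_ml, tm_ml]
  simp only [pow_succ, pow_zero, one_mul, mul_assoc]

theorem cos_cons (C g : ℕ) (L : List ℕ) (A c : ℕ) : cos C (g :: L) A c =
    band (cos C L A (Nat.mul 2 c)) (cos C L (ml g A) (Nat.succ (Nat.mul 2 c))) := rfl

section
variable {Q : Type*} [Group Q] {ρ : Q →* Matrix chevF4.Idx chevF4.Idx (ZMod 2)}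
  (hρ : Function.Injective ρ) {g : ℕ → Q} (hg : ∀ k < 4, ρ (g k) = tm (gc.get k))
include hg

theorem evd_spec (w n : ℕ) : ∃ q, ρ q = tm (evd w n) := by
  induction n with
  | zero => exact ⟨1, (map_one ρ).trans tm_II.symm⟩
  | succ n ih =>
    obtain ⟨q, hq⟩ := ih
    refine ⟨g (Nat.land (Nat.shiftRight w (Nat.mul 2 n)) 3) * q, ?_⟩
    rw [map_mul, hq, hg (Nat.land (Nat.shiftRight w (Nat.mul 2 n)) 3)
      (Nat.lt_succ_of_le Nat.and_le_right), ← tm_ml]
    rfl

include hρ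

theorem pool_spec {k : ℕ} (hk : k < 152) : ∃ a, ρ a = tm (pl k) ∧ orderOf a = 5 := by
  have := Fact.mk Nat.prime_five
  have h := (allLt_iff _ _).1 pool_ok k hk
  rw [okP, band_eq_true, band_eq_true, Bool.not_eq_true'] at h
  obtain ⟨q, hq⟩ := evd_spec hg (pool.get k) 12
  rw [← Nat.eq_of_beq_eq_true h.2.1] at hq
  exact ⟨q, hq, orderOf_eq_prime (hρ (by rw [map_pow, hq, five_spec h.1, map_one])) fun e =>
    tm_ne h.2.2 (by rw [← hq, e, map_one, tm_II])⟩

theorem leaf_spec {C A c : ℕ} (h : leaf C A c = true) {q : Q} (hq : ρ q = tm A) : Gd q := by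
  have := Fact.mk Nat.prime_five
  rw [leaf, force_eq, band_eq_true] at h
  obtain ⟨a, ha, a5⟩ := pool_spec hρ hg (lt_of_blt h.1)
  have e : (a * q) ^ 5 = 1 := hρ (by rw [map_pow, map_mul, ha, hq, ← tm_ml, five_spec h.2, map_one])
  by_cases h1 : a * q = 1
  · have c : orderOf (a ^ 2) = 5 := by rw [orderOf_pow' _ two_ne_zero, a5]; rfl
    refine ⟨_, _, c, c, ?_⟩
    rw [← inv_eq_of_mul_eq_one_right h1, ← pow_add]
    exact inv_eq_of_mul_eq_one_right ((pow_succ' a 4).symm.trans (by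
      rw [show 4 + 1 = orderOf a from a5.symm, pow_orderOf_eq_one]))
  · exact ⟨a⁻¹, a * q, by rw [orderOf_inv, a5], orderOf_eq_prime e h1, by group⟩

end

theorem cos_spec {R : H38.RootSys chevF4}
    {E : H38.Elts R.toRS (ZMod 2) (GL chevF4.Idx (ZMod 2))} (hE : H38.IsMat R E)
    {p : chevF4.group (ZMod 2) → Prop} {C : ℕ}
    (hp : ∀ A c, leaf C A c = true → ∀ x, H39.mt x = tm A → p x)
    {L : List (List ℕ × List ℕ × List (List ℕ))} {Lm : List ℕ}
    (hL : List.Forall₂ (fun c m => H39.mt (w1 hE c.1) = tm m) L Lm) (ok : pcOK 48 52 tabF4 L = true)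
    {A c : ℕ} (h : cos C Lm A c = true) {x : chevF4.group (ZMod 2)} (hx : H39.mt x = tm A) :
    ∀ y ∈ Cl hE (L.map Prod.fst), p (y * x) := by
  induction hL generalizing A c x with
  | nil =>
    intro y hy
    obtain rfl : y = 1 := by simpa [Cl] using hy
    exact hp A c h _ (by rw [one_mul, hx])
  | @cons d m L Lm hd _ ih =>
    have e' : (pcStep 48 52 tabF4 (L.map Prod.fst) d && pcOK 48 52 tabF4 L) = true := ok
    rw [Bool.and_eq_true] at e'
    obtain ⟨h1, h2⟩ := tabOK_F4.pcStep hE e'.1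
    rw [cos_cons, band_eq_true] at h
    intro y hy
    rcases pc_step h1 h2 (by
      rintro _ ⟨w, hw, rfl⟩
      rcases List.mem_cons.mp hw with rfl | hw
      exacts [Or.inr h1, Or.inl (mem_Cl hE hw)]) le_rfl y hy with a | a
    · exact ih e'.2 h.1 hx y a
    · have := ih e'.2 h.2 (x := w1 hE d.1 * x) (by rw [mt_mul, hd, hx, tm_ml]) _
        (mul_mem a (inv_mem h1))
      convert this using 1; group

theorem pm_ok : ∀ k < 11, evM 52 tabF4 (F4I.pc.getD k default).1 = pm.getD k 0 ∧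
    ∀ r ∈ (F4I.pc.getD k default).1, r < chevF4.nroots := by decide +kernel

theorem gd_tits (q : twistedF4 (ZMod 2) 1) (hq : q ∈ commutator _) : Gd q := by
  obtain ⟨a, b, c, hT⟩ := exists_titsData
  obtain ⟨R, E, hE, T, h, hA⟩ := exists_F4 (K := ZMod 2) (m := 0) rfl
  replace hA : twistedF4 (ZMod 2) 1 = _ := hA
  replace h : H39.IsF4 (ι := Fin chevF4.nroots) (R := R.toRS) T 1 := h
  let M := twModel hA
  have hm : ∀ k, ∃ q, M.f q = w1 hE ([nw chevF4 (F4I.blk 0), nw chevF4 (F4I.blk 1), F4I.yy 0,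
      F4I.yy 1].getD k []) := fun k => M.lift (by
    rcases k with _ | _ | _ | _ | k
    exacts [F4I.n_mem h hA 0, F4I.n_mem h hA 1, F4I.gens_mem h hA _ (by simp [F4I.gens, F4I.yy]),
      F4I.gens_mem h hA _ (by simp [F4I.gens, F4I.yy]), one_mem _])
  choose g hg using hm
  let ρ : twistedF4 (ZMod 2) 1 →* Matrix chevF4.Idx chevF4.Idx (ZMod 2) :=
    ⟨⟨fun q => H39.mt (M.f q), by rw [map_one, mt_one]⟩, fun a b => by simp only [map_mul, mt_mul]⟩
  have hρ : Function.Injective ρ := mt_inj.comp M.inj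
  have hg' : ∀ k < 4, ρ (g k) = tm (gc.get k) := fun k hk => by
    change H39.mt (M.f (g k)) = _
    rw [hg, tabOK_F4.mt_w1 hE (gcw k hk).2]
    exact tm_eq (gcw k hk).1
  have hL : List.Forall₂ (fun c m => H39.mt (w1 hE c.1) = tm m) F4I.pc pm :=
    List.forall₂_iff_get.2 ⟨rfl, fun k h1 h2 => by
      have := pm_ok k h1
      rw [List.getD_eq_getElem _ _ h1, List.getD_eq_getElem _ _ h2] at this
      exact (tabOK_F4.mt_w1 hE this.2).trans (congrArg tm this.1)⟩
  have key : ∀ C A, cos C pm A 0 = true → ∀ x, ρ x = tm A → ∀ y, M.f y ∈ Cl hE (F4I.pc.map Prod.fst) →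
      Gd (y * x) := fun C A hc x hx y hy =>
    cos_spec hE (p := fun z => ∀ q, M.f q = z → Gd q)
      (fun A c hl z hz q e => leaf_spec hρ hg' hl ((congrArg H39.mt e).trans hz)) hL F4I.pc_ok hc hx _ hy _ (map_mul _ _ _)
  have gT : ∀ q : twistedF4 (ZMod 2) 1, Gd q → q ∈ commutator _ := by
    rintro _ ⟨a, b, ha, hb, rfl⟩
    exact mul_mem (mem_of_five hT.index ha) (mem_of_five hT.index hb)
  have sq : ∀ k < 3, g k * g k = 1 := fun k hk => hρ (by
    rw [map_mul, hg' k (by omega), ← tm_ml, tm_eq (two k hk), ← II_eq, tm_II, map_one])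
  have gN : ∀ k < 3, g k ∈ commutator _ := fun k hk => hT.mem_commutator (sq k hk)
  have g3 : g 3 ∉ commutator _ := fun h3 => by
    have m : ∀ k < 4, M.f (g k) ∈ (commutator _).map M.f := fun k hk =>
      Subgroup.mem_map_of_mem _ (by
        rcases (by omega : k < 3 ∨ k = 3) with a | rfl
        exacts [gN k a, h3])
    obtain ⟨t, ht, e⟩ := F4I.Γ_le h hA (X := (commutator _).map M.f)
      (fun i => by
        fin_cases i
        exacts [hg 0 ▸ m 0 (by omega), hg 1 ▸ m 1 (by omega), hg 1 ▸ m 1 (by omega), hg 0 ▸ m 0 (by omega)])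
      (fun i => by
        fin_cases i
        exacts [hg 2 ▸ m 2 (by omega), hg 3 ▸ m 3 (by omega), hg 3 ▸ m 3 (by omega), hg 2 ▸ m 2 (by omega)])
      (M.mem b)
    exact hT.b_not (M.inj e ▸ ht)
  have cs : ∀ C A, cos C pm A 0 = true → ∀ x, ρ x = tm A → x ∈ commutator _ →
      ∀ y ∈ (M.bnPair h.good).B, y * x ∈ commutator _ → Gd (y * x) := by
    intro C A hc x hx xT y hy yT
    obtain ⟨u, hu, z, hz, e⟩ := hE.grp.mem_B.1 hy
    rw [F4I.H_eq h hA z hz, mul_one] at e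
    rcases F4I.U_par h hA _ ⟨e ▸ hu, M.mem y⟩ with a | a
    · exact key C A hc x hx y a
    · have := gT _ (key C0 II k0 1 ((map_one ρ).trans tm_II.symm) (y * g 3) (by
        rw [map_mul, hg]; exact a))
      rw [mul_one, Subgroup.mul_mem_cancel_left _ ((Subgroup.mul_mem_cancel_right _ xT).1 yT)] at this
      exact absurd this g3
  have nn : ∀ i : Fin 4, M.f (M.nn h.good i) = w1 hE (nw chevF4 (F4I.blk i)) := fun i =>
    F4I.rep_eq h hA (M.rep_nn h.good i)
  have hr : ρ (g 0 * g 1) = tm rr := by rw [map_mul, hg' 0 (by omega), hg' 1 (by omega), rr, tm_ml]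
  have rT := mul_mem (gN 0 (by omega)) (gN 1 (by omega))
  refine cover (M.bnPair h.good) (s := g 0) (t := g 1) (Set.ext fun x => ⟨?_, ?_⟩) (sq 0 (by omega))
    (sq 1 (by omega)) (hρ ?_) (fun x hB hN => M.inj ?_) (p := fun q => q ∈ commutator _ → Gd q)
    (fun x y hx hxy => ?_) (fun x hx hxy => ?_) (cs _ _ k1 _ (hg' 0 (by omega)) (gN 0 (by omega)))
    (cs _ _ k2 _ (hg' 1 (by omega)) (gN 1 (by omega))) (fun k hk => ?_) q hq
  · rintro ⟨i, rfl⟩
    fin_cases i
    exacts [Or.inl (M.inj ((nn 0).trans (hg 0).symm)), Or.inr (M.inj ((nn 1).trans (hg 1).symm)),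
      Or.inr (M.inj ((nn 2).trans (hg 1).symm)), Or.inl (M.inj ((nn 3).trans (hg 0).symm))]
  · rintro (rfl | rfl)
    exacts [⟨(0 : Fin 4), M.inj ((nn 0).trans (hg 0).symm)⟩, ⟨(1 : Fin 4), M.inj ((nn 1).trans (hg 1).symm)⟩]
  · rw [map_pow, hr, map_one, ← tm_II, ← Nat.eq_of_beq_eq_true r8]
    simp only [tm_ml, pow_succ, pow_zero, one_mul, mul_assoc]
  · rw [F4I.H_eq h hA _ (T.hF.mem_H_of_mem_B hN hB), map_one]
  · exact Gd.conj (hx ((Subgroup.Normal.mem_comm_iff inferInstance).1 hxy |> fun c => by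
      rwa [inv_mul_cancel_left] at c)) y
  · exact Gd.inv (hx (inv_mem_iff.1 hxy))
  · interval_cases k
    exacts [cs _ _ k0 _ (by rw [pow_zero, map_one, tm_II]) (pow_mem rT _),
      cs _ _ k3 _ (by rw [pow_one, hr]) (pow_mem rT _),
      cs _ _ k4 _ (by rw [map_pow, hr, tm_ml, pow_two]) (pow_mem rT _),
      cs _ _ k5 _ (by rw [map_pow, hr, tm_ml, tm_ml, pow_three]) (pow_mem rT _),
      cs _ _ k6 _ (by rw [map_pow, hr, tm_ml, tm_ml, ← pow_two, ← pow_two, ← pow_mul]) (pow_mem rT _)]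

theorem sq_tits : ∃ x : TitsGroup, ¬ 2 ∣ orderOf x ∧ ∀ g ≠ 1, EG.Sq x g := by
  have hc := H38.TitsW.card_tits
  have : Finite TitsGroup := Nat.finite_of_card_ne_zero (by rw [hc]; decide)
  obtain ⟨a, b, ha, hb, hab, h5⟩ := H38.TitsW.five
  obtain ⟨_, _, _, hT⟩ := exists_titsData
  refine ⟨a, by rw [ha]; decide, fun g _ => ?_⟩
  obtain ⟨x, y, hx, hy, e⟩ := gd_tits g.1 g.2
  rw [show g = ⟨x, mem_of_five hT.index hx⟩ * ⟨y, mem_of_five hT.index hy⟩ from Subtype.ext e]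
  exact EG.Sq.of_isConj (isConj_five hc ha hb hab h5 ((Subgroup.orderOf_mk _ _).trans hx))
    (isConj_five hc ha hb hab h5 ((Subgroup.orderOf_mk _ _).trans hy))

end H62.Ti
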