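import Cfsg.Agent.Lib.EG.TiD
import Cfsg.Agent.Lib.KGrp.TitsC

/-! Kernel checks: products of two elements of order five in the Tits group. -/

set_option autoImplicit false
set_option maxRecDepth 100000

namespace H62.Ti
open H54 H61.KG.Ti

noncomputable section

/-- The fifth power is the identity. -/
def five (c : ℕ) : Bool := force c fun c => force (ml c c) fun d => Nat.beq (ml (ml d d) c) II

/-- The matrix of an element of the pool. -/
def pl (k : ℕ) : ℕ := Nat.shiftRight (pool.get k) 24

/-- The value of a word of length twelve. -/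
def evd (w n : ℕ) : ℕ :=
  Nat.rec II (fun k ih => ml (gc.get (Nat.land (Nat.shiftRight w (Nat.mul 2 k)) 3)) ih) n

/-- The check of the pool. -/
def okP (k : ℕ) : Bool :=
  band (five (pl k)) (band (Nat.beq (pl k) (evd (pool.get k) 12)) (Bool.not (eqm (pl k) II)))

/-- The check of one element. -/
def leaf (C A c : ℕ) : Bool :=
  force (Nat.land (Nat.shiftRight C (Nat.mul 8 c)) 255) fun k =>
    band (Nat.blt k 152) (five (ml (pl k) A))

/-- The check of a coset. -/
def cos (C : ℕ) (L : List ℕ) : ℕ → ℕ → Bool :=
  List.rec (fun A c => leaf C A c) (fun g _ ih A c => force (Nat.mul 2 c) fun d =>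
    band (ih A d) (force (ml g A) fun B => ih B (Nat.succ d))) L

def rr : ℕ := ml (gc.get 0) (gc.get 1)

end

theorem pool_ok : allLt okP 152 = true := by decide +kernel

theorem k0 : cos C0 pm II 0 = true := by decide +kernel
theorem k1 : cos C1 pm (gc.get 0) 0 = true := by decide +kernel
theorem k2 : cos C2 pm (gc.get 1) 0 = true := by decide +kernel
theorem k3 : cos C3 pm rr 0 = true := by decide +kernel
theorem k4 : cos C4 pm (ml rr rr) 0 = true := by decide +kernel
theorem k5 : cos C5 pm (ml rr (ml rr rr)) 0 = true := by decide +kernel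
theorem k6 : cos C6 pm (ml (ml rr rr) (ml rr rr)) 0 = true := by decide +kernel

theorem II_eq : II = H39.idP 52 := by decide +kernel

theorem r8 : Nat.beq (ml (ml (ml rr rr) (ml rr rr)) (ml (ml rr rr) (ml rr rr))) II = true := by
  decide +kernel

end H62.Ti
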